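import Cfsg.Agent.CovN.Steps

/-!
Base cases in dimensions two, three and four.
-/

set_option autoImplicit false
set_option linter.unusedSectionVars false

open Polynomial Module

namespace Cfsg.Agent.CovN

open Cfsg.Agent.GLn Cfsg.Agent.Fac

variable {F : Type*} [Field F] {V W Q : Type*} [AddCommGroup V] [Module F V] [AddCommGroup W] [Module F W]
  [AddCommGroup Q] [Module F Q] [FiniteDimensional F V] [FiniteDimensional F W] [FiniteDimensional F Q]

theorem tr_det (hd : finrank F V = 2) {A : End F V} {t d : F} (h : A.charpoly = quad t d) :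
    LinearMap.trace F V A = t ∧ LinearMap.det A = d := quad_inj ((charpoly_two hd A).symm.trans h)

theorem two_fac [Finite F] (hd : finrank F V = 2) (hd' : finrank F W = 2) {y : End F W} (hy : NSc y) (h0 : LinearMap.det y ≠ 0)
    {N : End F V} (h1 : LinearMap.det N = LinearMap.det y ^ 2) (h2 : LinearMap.trace F V N ^ 2 ≠ 4 * LinearMap.det N) :
    ∃ A B, Sim y A ∧ Sim y B ∧ N = A * B := by
  set t := LinearMap.trace F W y
  set d := LinearMap.det y
  obtain ⟨e, z, h⟩ := conic_of_disc h2 (t / d) d⁻¹ t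
  obtain ⟨B, h3, h4⟩ := exists_factor_two hd (not_scalar_of_disc hd (charpoly_two hd N) h2) (charpoly_two hd N) h
  obtain ⟨b1, b2⟩ := tr_det hd h3
  rw [h1, sq, mul_inv_cancel_right₀ h0] at h4
  have e1 : B * (t • 1 - d • B) = 1 := by
    ext v
    simp [cayley_two hd B v, b1, b2, smul_sub, smul_smul, h0, mul_div_cancel₀]
  have e2 : N = N * B * (t • 1 - d • B) := by rw [mul_assoc, e1, mul_one]
  have h5 : (t • 1 - d • B).charpoly = quad t d := by
    rw [charpoly_two hd]
    congr 1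
    · simp [hd, b1, mul_div_cancel₀, h0]; ring
    · have := congrArg LinearMap.det e1
      rw [map_mul, b2, map_one] at this
      field_simp at this
      exact this
  have key : ∀ (A : End F V) (c : F), A.charpoly = quad t d → ((c • 1 : End F V)).charpoly = quad t d → N ≠ c • A := by
    rintro A c k1 k2 rfl
    obtain ⟨k3, k4⟩ := tr_det hd k2
    simp only [map_smul, LinearMap.trace_one, hd, LinearMap.det_smul, map_one, mul_one, smul_eq_mul] at k3 k4
    refine h2 ?_
    rw [h1, map_smul, (tr_det hd k1).1, ← k3, ← k4]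
    simp; ring
  refine ⟨_, _, sim_two hd' hy (fun c hc => key _ c h5 (hc ▸ h4) ?_) ((charpoly_two hd' y).trans h4.symm),
    sim_two hd' hy (fun c hc => key _ c h4 (hc ▸ h5) ?_) ((charpoly_two hd' y).trans h5.symm), e2⟩
  · rw [e2, hc]; simp
  · conv_lhs => rw [e2, hc]
    simp

theorem two_prd [Finite F] (hd : finrank F V = 2) {y : End F V} (hy : NSc y) (h0 : LinearMap.det y ≠ 0)
    {N : End F V} (h1 : LinearMap.det N = LinearMap.det y ^ 2) (h2 : LinearMap.trace F V N ^ 2 ≠ 4 * LinearMap.det N)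
    (h3 : LinearMap.trace F V N ≠ LinearMap.trace F V y ^ 2 - 2 * LinearMap.det y) : Prd (Sim y) ∅ 2 N := by
  obtain ⟨A, B, a1, a2, rfl⟩ := two_fac hd hd hy h0 h1 h2
  refine ⟨[A, B], rfl, by simp [a1, a2], by simp, fun S k1 k2 _ => eq_bot_iff.2 fun v hv => by_contra fun v0 => h3 ?_⟩
  have m := k1 A (by simp)
  have e : ∀ v ∈ S, (A * B) v = A (A v) := fun v hv => congrArg A (k2 B (by simp) A (by simp) v hv)
  have c1 := cayley_two hd (A * B) v
  have c2 := cayley_two hd A
  rw [e v hv, e _ (m _ (m v hv)), h1, c2 (A (A v)), c2 (A v), a1.det] at c1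
  have c3 := c2 v
  rw [a1.trace, a1.det]
  have i := injective_of_det (a1.det ▸ h0)
  refine smul_left_injective F (show A (A v) ≠ 0 from fun h => v0 (i (i (by simpa using h)))) ?_
  simp only
  linear_combination (norm := module) -c1 + LinearMap.det A • c3

theorem step_three [Finite F] (hF : Big F 4) (hd : finrank F Q = 2) {l : F} {R : Q →ₗ[F] F} {y : End F Q} {x : End F (F × Q)}
    (e : x = blk (sc l) R 0 y) (hx : LinearMap.det x ≠ 0) (hq : NQ x) : Cov (Cj x) (LinearMap.det x) ∅ 3 := fun M₀ hM hM' => by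
  obtain ⟨M, c, h0⟩ := pre_one (by omega) hM'
  refine Prd.cj ?_ c
  rw [c.det] at hM
  obtain ⟨l0, h1, h2⟩ := pre_one' e hx h0 2
  obtain ⟨u, u0, u1, u2⟩ := hq
  have i := injective_of_det hx
  have y0 : LinearMap.det y ≠ 0 := by rw [e, det_blk_upper] at hx; exact right_ne_zero_of_mul hx
  have hy : NSc y := by
    rintro a rfl
    exact u2 (-(l * a)) (l + a) (by rw [e]; refine Prod.ext ?_ ?_ <;> simp <;> first | ring1 | module)
  have n3 : finrank F (F × Q) = 3 := by simp [hd]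
  have x0 : x u ≠ 0 := fun h => u1 0 (by simp [h])
  have x1 : ∀ s : F, x (x u) ≠ s • x u := fun s h => u2 0 s (by simp [h])
  obtain ⟨w, hw⟩ : ∃ w, w = (l ^ 2)⁻¹ • M (1, 0) := ⟨_, rfl⟩
  rw [← hw] at h1 h2
  obtain ⟨g, g1, g2, g3⟩ := exists_pair_one n3.ge x0 x1 (show ((1, 0) : F × Q) ≠ 0 by simp) h1
  obtain ⟨g', g4, g5⟩ := exists_inv (A := g) (by simp [g1])
  obtain ⟨ψ', p1, p2, p3⟩ := exists_fun₃ x0 x1 (z := u) (fun s t h => by
    by_cases ht : t = 0
    · have : s ≠ 0 := by rintro rfl; exact u0 (by simpa [ht] using h)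
      exact u1 s⁻¹ ((eq_inv_smul_iff₀ this).2 (by simpa [ht] using h.symm))
    · exact u2 t⁻¹ (-(t⁻¹ * s)) (by
        rw [← smul_right_inj ht]
        simp only [smul_add, smul_smul, mul_inv_cancel₀ ht, mul_neg, mul_inv_cancel_left₀ ht]
        linear_combination (norm := module) -h)) 0 0 1
  have gg : ∀ v, g' (g v) = v := LinearMap.congr_fun g5
  obtain ⟨B₀, b1, b2⟩ := exists_inv ((cj_conj x g1 g5).det ▸ hx)
  let ψ := ψ' ∘ₗ g'
  have q1 : ψ (1, 0) = 0 := by simp [ψ, ← g2, gg, p1]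
  have q2 : ψ w = 0 := by simp [ψ, ← g3, gg, p2]
  have q3 : B₀ w = (1, 0) := by simpa [← g2, ← g3, gg] using LinearMap.congr_fun b2 (g (x u))
  have q4 : ψ (B₀ (1, 0)) = 1 := by
    rw [show B₀ (1, 0) = g u by simpa [← g2, gg] using LinearMap.congr_fun b2 (g u)]; simp [ψ, gg, p3]
  have q5 : M (1, 0) = l ^ 2 • w := by simp [hw, l0]
  obtain ⟨α, hα⟩ : ∃ α, ψ (B₀ (M w)) - α * ψ (M w) ≠ 0 := by
    by_contra! k
    have k1 : ψ (B₀ (M w)) = 0 := by simpa using k 0
    have k2 : ψ (M w) = 0 := by simpa [k1] using k 1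
    have := Submodule.eq_of_le_of_finrank_le (show LinearMap.range ((LinearMap.toSpanSingleton F _ (1, 0)).coprod
      (LinearMap.toSpanSingleton F _ w)) ≤ LinearMap.ker ψ by rintro _ ⟨p, rfl⟩; simp [q1, q2, -Prod.smul_mk]) (by
        have := Submodule.finrank_lt (s := LinearMap.ker ψ) fun h =>
          one_ne_zero (q4.symm.trans (LinearMap.mem_ker.1 (h ▸ Submodule.mem_top (x := B₀ (1, 0)))))
        rw [LinearMap.finrank_range_of_inj (inj_pair (by simp) h1)]; simp; omega)
    obtain ⟨⟨a, b⟩, k3⟩ := this.ge k2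
    simp only [LinearMap.coprod_apply, LinearMap.toSpanSingleton_apply] at k3
    obtain rfl : a = 0 := by simpa [← k3, q1, q3, q4, -Prod.smul_mk] using k1
    exact h1 (b / l ^ 2) (injective_of_det (hM ▸ pow_ne_zero _ hx) (by
      rw [map_smul, q5, ← k3, smul_smul, div_mul_cancel₀ _ (pow_ne_zero _ l0)]; simp))
  obtain ⟨τ, t1, t2, t3⟩ := hF.exists_ne₃ (2 * LinearMap.det y) (-(2 * LinearMap.det y))
    (LinearMap.trace F Q y ^ 2 - 2 * LinearMap.det y)
  obtain ⟨β, hβ⟩ : ∃ β, β * (ψ (B₀ (M w)) - α * ψ (M w)) =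
      l ^ 2 + τ - LinearMap.trace F _ (B₀ * M) + α * ψ (M (B₀ (1, 0))) := ⟨_, div_mul_cancel₀ _ hα⟩
  set z := α • ((1, 0) : F × Q) + β • w with hz
  have z0 : ψ z = 0 := by simp [hz, q1, q2, -Prod.smul_mk]
  have a1 := (cj_conj x g1 g5).trans (cj_conj _ (det_tv z0) (tv_mul z0))
  obtain ⟨R', N, e'⟩ := exists_blk_factor (a1.det ▸ hx) (h2 _ (by
    have : g' (1, 0) = x u := by rw [← g2, gg]
    simp [q1, q2, this, g3]))
  have t : LinearMap.trace F Q N = τ := by
    have : (1 + ψ.smulRight z) * B₀ * (1 - ψ.smulRight z) * M = blk (sc l ^ 2) R' 0 N := by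
      have k : (1 + ψ.smulRight z) * (1 - ψ.smulRight z) = 1 := by ext v <;> simp [z0]
      conv_lhs => rw [e']
      generalize g * x * g' = A at b2
      simp only [← mul_assoc]
      rw [mul_assoc (_ * B₀), tv_mul z0, mul_one, mul_assoc _ B₀, b2, mul_one, k, one_mul]
    have k := congrArg (LinearMap.trace F _) this
    rw [show (1 + ψ.smulRight z) * B₀ * (1 - ψ.smulRight z) * M = B₀ * M - (ψ ∘ₗ M).smulRight (B₀ z) +
      (ψ ∘ₗ B₀ ∘ₗ M).smulRight z - (ψ ∘ₗ M).smulRight (ψ (B₀ z) • z) by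
        refine LinearMap.ext fun v => ?_
        simp [smul_smul, sub_smul]; abel, trace_blk] at k
    simp only [map_sub, map_add, LinearMap.trace_smulRight, LinearMap.comp_apply, hz, map_smul, q1, q2, q3, q4, q5, smul_eq_mul,
      _root_.smul_pow, one_pow] at k
    simp only [LinearMap.trace_one, finrank_self, Nat.cast_one] at k
    linear_combination hβ - k
  rw [e'] at hM h0 ⊢
  refine one_core e hx (by simp) a1 hM h0 fun d => two_prd hd hy y0 d (fun k => ?_) (t ▸ t3)
  rw [t, d] at k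
  exact mul_ne_zero (sub_ne_zero.2 t1) (sub_ne_zero.2 t2) (by linear_combination k)

end Cfsg.Agent.CovN
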