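import Cfsg.Agent.Fac.LevU

/-!
Products of conjugates in `SL(V)`: basic notions.
-/

set_option autoImplicit false
set_option linter.unusedSectionVars false

open Polynomial Module

namespace Cfsg.Agent.CovN

open Cfsg.Agent.GLn Cfsg.Agent.Fac

variable {F : Type*} [Field F] {V W : Type*} [AddCommGroup V] [Module F V] [AddCommGroup W] [Module F W]

/-- conjugate by a map of determinant one -/
def Cj (x A : End F V) : Prop := ∃ g : End F V, LinearMap.det g = 1 ∧ g * x = A * g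

/-- non-scalar -/
def NSc (M : End F V) : Prop := ∀ c : F, M ≠ c • 1

/-- no common invariant subspace on which all members agree (and act as the scalars in `μ`) -/
def NC (μ : Set F) (L : List (End F V)) : Prop :=
  ∀ S : Submodule F V, (∀ A ∈ L, ∀ s ∈ S, A s ∈ S) → (∀ A ∈ L, ∀ B ∈ L, ∀ s ∈ S, A s = B s) →
    (∀ a ∈ μ, ∀ A ∈ L, ∀ s ∈ S, A s = a • s) → S = ⊥

def Prd (r : End F V → Prop) (μ : Set F) (k : ℕ) (M : End F V) : Prop :=
  ∃ L : List (End F V), L.length = k ∧ (∀ A ∈ L, r A) ∧ L.prod = M ∧ NC μ L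

def Cov (r : End F V → Prop) (δ : F) (μ : Set F) (k : ℕ) : Prop :=
  ∀ M : End F V, LinearMap.det M = δ ^ k → NSc M → Prd r μ k M

def CovA (r : End F V → Prop) (δ : F) (μ : Set F) (k : ℕ) : Prop :=
  ∀ M : End F V, LinearMap.det M = δ ^ k → Prd r μ k M

theorem CovA.cov {r : End F V → Prop} {δ : F} {μ : Set F} {k : ℕ} (h : CovA r δ μ k) : Cov r δ μ k :=
  fun M hM _ => h M hM

theorem NC.mono {μ μ' : Set F} {L L' : List (End F V)} (h : NC μ L) (hμ : μ ⊆ μ') (hL : ∀ A ∈ L, A ∈ L') : NC μ' L' :=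
  fun S h1 h2 h3 => h S (fun A hA => h1 A (hL A hA)) (fun A hA B hB => h2 A (hL A hA) B (hL B hB))
    fun a ha A hA => h3 a (hμ ha) A (hL A hA)

theorem nc_univ {L : List (End F V)} (h : L ≠ []) : NC Set.univ L := fun S _ _ h3 => by
  obtain ⟨A, hA⟩ := List.exists_mem_of_ne_nil L h
  refine eq_bot_iff.2 fun s hs => ?_
  simpa using (h3 1 trivial A hA s hs).symm.trans (h3 0 trivial A hA s hs)

theorem Prd.mono {r r' : End F V → Prop} {μ μ' : Set F} {k : ℕ} {M : End F V} (h : Prd r μ k M) (hr : ∀ A, r A → r' A)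
    (hμ : μ ⊆ μ') : Prd r' μ' k M := by
  obtain ⟨L, h1, h2, h3, h4⟩ := h
  exact ⟨L, h1, fun A hA => hr A (h2 A hA), h3, h4.mono hμ fun _ h => h⟩

theorem Prd.mul {r : End F V → Prop} {μ μ' : Set F} {k l : ℕ} {M N : End F V} (h : Prd r μ k M) (h' : Prd r μ' l N) :
    Prd r μ (k + l) (M * N) := by
  obtain ⟨L, h1, h2, h3, h4⟩ := h
  obtain ⟨L', h1', h2', h3', -⟩ := h'
  exact ⟨L ++ L', by simp [h1, h1'], fun A hA => (List.mem_append.1 hA).elim (h2 A) (h2' A), by simp [h3, h3'],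
    h4.mono le_rfl fun _ h => List.mem_append_left _ h⟩

theorem Prd.cons {r : End F V → Prop} {μ : Set F} {k : ℕ} {A N : End F V} (hA : r A) (h : Prd r μ k N) :
    Prd r μ (k + 1) (A * N) := by
  obtain ⟨L, h1, h2, h3, h4⟩ := h
  exact ⟨A :: L, by simp [h1], by simpa [hA] using h2, by simp [h3], h4.mono le_rfl fun _ h => List.mem_cons_of_mem _ h⟩

theorem Prd.map {r : End F V → Prop} {r' : End F W → Prop} {μ : Set F} {k : ℕ} {M : End F V} (h : Prd r μ k M)
    (e : V ≃ₗ[F] W) (hr : ∀ A, r A → r' (e.conjAlgEquiv F A)) : Prd r' μ k (e.conjAlgEquiv F M) := by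
  obtain ⟨L, h1, h2, h3, h4⟩ := h
  refine ⟨L.map (e.conjAlgEquiv F), by simp [h1], by simpa using fun A hA => hr A (h2 A hA), by rw [← map_list_prod, h3],
    fun S k1 k2 k3 => ?_⟩
  simp only [List.mem_map, forall_exists_index, and_imp, forall_apply_eq_imp_iff₂] at k1 k2 k3
  have := h4 (S.comap e.toLinearMap) (fun A hA s hs => by simpa using k1 A hA _ hs)
    (fun A hA B hB s hs => by simpa using k2 A hA B hB _ hs)
    (fun a ha A hA s hs => e.injective (by simpa using k3 a ha A hA _ hs))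
  refine eq_bot_iff.2 fun s hs => ?_
  have h5 : e.symm s ∈ S.comap e.toLinearMap := by simpa using hs
  simpa [this] using h5

theorem NSc.of_sim {M : End F V} {N : End F W} (h : NSc M) (hs : Sim M N) : NSc N := by
  obtain ⟨e, rfl⟩ := hs
  exact fun c hc => h c ((e.conjAlgEquiv F).injective (by rw [hc]; simp))

theorem Cj.map {x A : End F V} (h : Cj x A) (e : V ≃ₗ[F] W) : Cj (e.conjAlgEquiv F x) (e.conjAlgEquiv F A) := by
  obtain ⟨g, h1, h2⟩ := h
  exact ⟨e.conjAlgEquiv F g, by rw [det_conjAlg, h1], by rw [← map_mul, h2, map_mul]⟩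

theorem Cj.refl (x : End F V) : Cj x x := ⟨1, map_one _, by simp⟩

theorem Cj.trans {x A B : End F V} (h : Cj x A) (h' : Cj A B) : Cj x B := by
  obtain ⟨g, h1, h2⟩ := h
  obtain ⟨k, h3, h4⟩ := h'
  exact ⟨k * g, by simp [h1, h3], by rw [mul_assoc, h2, ← mul_assoc, h4, mul_assoc]⟩

theorem Cj.smul {x A : End F V} (h : Cj x A) (c : F) : Cj (c • x) (c • A) := by
  obtain ⟨g, h1, h2⟩ := h
  exact ⟨g, h1, by simp [h2]⟩

theorem Cj.det {x A : End F V} (h : Cj x A) : LinearMap.det A = LinearMap.det x := by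
  obtain ⟨g, h1, h2⟩ := h
  simpa [h1] using (congrArg LinearMap.det h2).symm

theorem cj_conj (x : End F V) {g g' : End F V} (h : LinearMap.det g = 1) (h' : g' * g = 1) : Cj x (g * x * g') :=
  ⟨g, h, by rw [mul_assoc, h', mul_one]⟩

variable [FiniteDimensional F V] [FiniteDimensional F W]

theorem exists_inv {A : End F V} (h : LinearMap.det A ≠ 0) : ∃ B : End F V, A * B = 1 ∧ B * A = 1 := by
  obtain ⟨u, rfl⟩ := (LinearMap.isUnit_iff_isUnit_det A).2 (isUnit_iff_ne_zero.2 h)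
  exact ⟨u.inv, u.val_inv, u.inv_val⟩

theorem sim_of_det {g x A : End F V} (h : LinearMap.det g ≠ 0) (h' : g * x = A * g) : Sim x A :=
  sim_of_mul_eq (injective_of_det h) h'

theorem Cj.sim {x A : End F V} (h : Cj x A) : Sim x A := by
  obtain ⟨g, h1, h2⟩ := h
  exact sim_of_det (by simp [h1]) h2

theorem Cj.symm {x A : End F V} (h : Cj x A) : Cj A x := by
  obtain ⟨g, h1, h2⟩ := h
  obtain ⟨k, h3, h4⟩ := exists_inv (A := g) (by simp [h1])
  refine ⟨k, by simpa [h1] using congrArg LinearMap.det h3, ?_⟩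
  rw [← mul_one (k * A), ← h3, ← mul_assoc, mul_assoc k, ← h2, ← mul_assoc, h4, one_mul]

theorem cj_of_sim {x A : End F V} (hx : DetFull x) (h : Sim x A) : Cj x A := exists_det_one_of_sim h hx

theorem Cj.exists_equiv {x A : End F V} (h : Cj x A) :
    ∃ e : V ≃ₗ[F] V, e.conjAlgEquiv F x = A ∧ ∀ B, Cj B (e.conjAlgEquiv F B) := by
  obtain ⟨g, h1, h2⟩ := h
  let e := LinearEquiv.ofInjectiveEndo g (injective_of_det (by simp [h1]))
  refine ⟨e, LinearMap.ext fun v => ?_, fun B => ⟨g, h1, LinearMap.ext fun v => ?_⟩⟩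
  · obtain ⟨v, rfl⟩ := e.surjective v
    simpa using show e (x v) = A (e v) from LinearMap.congr_fun h2 v
  · change e (B v) = e.conjAlgEquiv F B (e v)
    simp

theorem Prd.cj {x M M' : End F V} {μ : Set F} {k : ℕ} (h : Prd (Cj x) μ k M) (h' : Cj M M') : Prd (Cj x) μ k M' := by
  obtain ⟨e, rfl, he⟩ := h'.exists_equiv
  exact h.map e fun A hA => hA.trans (he A)

theorem Prd.sim {x M : End F V} {x' M' : End F W} {μ : Set F} {k : ℕ} (h : Prd (Sim x) μ k M) (hx : Sim x' x)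
    (h' : Sim M M') : Prd (Sim x') μ k M' := by
  obtain ⟨e, rfl⟩ := h'
  exact h.map e fun A hA => hx.trans (hA.trans ⟨e, rfl⟩)

omit [FiniteDimensional F V] [FiniteDimensional F W] in
theorem Cov.of_sim {x : End F V} {y : End F W} {μ : Set F} {k : ℕ} (h : Cov (Cj x) (LinearMap.det x) μ k) (hs : Sim x y) :
    Cov (Cj y) (LinearMap.det y) μ k := by
  obtain ⟨e, rfl⟩ := hs
  intro M h1 h2
  obtain ⟨M, rfl⟩ := (e.conjAlgEquiv F).surjective M
  rw [det_conjAlg, det_conjAlg] at h1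
  exact (h M h1 (h2.of_sim (Sim.symm ⟨e, rfl⟩))).map e fun A hA => hA.map e

omit [FiniteDimensional F V] [FiniteDimensional F W] in
theorem CovA.of_sim {x : End F V} {y : End F W} {μ : Set F} {k : ℕ} (h : CovA (Cj x) (LinearMap.det x) μ k) (hs : Sim x y) :
    CovA (Cj y) (LinearMap.det y) μ k := by
  obtain ⟨e, rfl⟩ := hs
  intro M h1
  obtain ⟨M, rfl⟩ := (e.conjAlgEquiv F).surjective M
  rw [det_conjAlg, det_conjAlg] at h1
  exact (h M h1).map e fun A hA => hA.map e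

theorem exists_ker₂ (hd : 3 ≤ finrank F V) (α β : V →ₗ[F] F) : ∃ y, y ≠ 0 ∧ α y = 0 ∧ β y = 0 := by
  obtain ⟨y, hy, h0⟩ := (Submodule.ne_bot_iff _).1 (LinearMap.ker_ne_bot_of_finrank_lt (f := α.prod β) (by simp; omega))
  exact ⟨y, h0, by simpa using hy⟩

theorem exists_fun_kill {S : Submodule F V} (h : finrank F S < finrank F V) :
    ∃ ψ : V →ₗ[F] F, ψ ≠ 0 ∧ ∀ s ∈ S, ψ s = 0 := by
  obtain ⟨ψ, h1, h2⟩ := S.exists_le_ker_of_lt_top (lt_top_iff_ne_top.2 fun e => by rw [e, finrank_top] at h; omega)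
  exact ⟨ψ, h1, fun s hs => h2 hs⟩

omit [FiniteDimensional F V] in
theorem tv_mul {u : V} {ψ : V →ₗ[F] F} (h : ψ u = 0) : (1 - ψ.smulRight u) * (1 + ψ.smulRight u) = (1 : End F V) := by
  ext v; simp [h]

theorem det_tv {u : V} {ψ : V →ₗ[F] F} (h : ψ u = 0) : LinearMap.det (1 + ψ.smulRight u) = 1 := by
  simp [det_rank_one, h]

/-- one more factor covers everything -/
theorem Cov.pad (hd : 3 ≤ finrank F V) {x : End F V} (hx : NSc x) (h0 : LinearMap.det x ≠ 0) {μ : Set F} {k : ℕ}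
    (h : Cov (Cj x) (LinearMap.det x) μ k) : CovA (Cj x) (LinearMap.det x) μ (k + 1) := by
  have key : ∀ A M, Cj x A → LinearMap.det M = LinearMap.det x ^ (k + 1) → (∀ c : F, M ≠ c • A) →
      Prd (Cj x) μ (k + 1) M := fun A M hA hM hc => by
    obtain ⟨B, h1, h2⟩ := exists_inv (hA.det ▸ h0)
    have e : A * (B * M) = M := by rw [← mul_assoc, h1, one_mul]
    refine e ▸ Prd.cons hA (h _ (mul_left_cancel₀ h0 ?_) fun c hc' => hc c (by rw [← e, hc']; simp))
    rw [← pow_succ', ← hM, ← hA.det, ← map_mul, e]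
  intro M hM
  by_cases h1 : ∃ c : F, M = c • x
  swap
  · exact key x M (Cj.refl x) hM (not_exists.1 h1)
  obtain ⟨c, rfl⟩ := h1
  obtain ⟨u, u0, hu⟩ := exists_not_eigen hx
  obtain ⟨ψ, ψ0, hψ⟩ := exists_fun_kill (S := F ∙ u) (by rw [finrank_span_singleton u0]; omega)
  have h2 := hψ u (Submodule.mem_span_singleton_self u)
  refine key _ _ (cj_conj x (det_tv h2) (tv_mul h2)) hM fun c' hc => ?_
  have c0 : c ≠ 0 := by
    rintro rfl
    rw [zero_smul, LinearMap.det_zero, zero_pow (by omega)] at hM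
    exact pow_ne_zero _ h0 hM.symm
  have h3 : ∀ v, c • x (v + ψ v • u) = c' • (x v + ψ (x v) • u) := fun v => by
    simpa [h2] using LinearMap.congr_fun hc (v + ψ v • u)
  obtain ⟨y, y0, y1, y2⟩ := exists_ker₂ hd ψ (ψ ∘ₗ x)
  have h4 := h3 y
  simp only [LinearMap.comp_apply] at y2
  simp only [y1, y2, zero_smul, add_zero] at h4
  obtain rfl : c = c' := smul_left_injective F (fun e => y0 (injective_of_det h0 (by simpa using e))) h4
  obtain ⟨z, hz⟩ := LinearMap.surjective ψ0 1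
  exact hu (ψ (x z)) (by simpa [hz] using smul_right_injective V c0 (h3 z))

theorem Cov.le (hd : 3 ≤ finrank F V) {x : End F V} (hx : NSc x) (h0 : LinearMap.det x ≠ 0) {μ : Set F} {k l : ℕ}
    (h : Cov (Cj x) (LinearMap.det x) μ k) (hl : k ≤ l) : Cov (Cj x) (LinearMap.det x) μ l := by
  induction hl with
  | refl => exact h
  | step _ ih => exact (ih.pad hd hx h0).cov

theorem Cov.lt (hd : 3 ≤ finrank F V) {x : End F V} (hx : NSc x) (h0 : LinearMap.det x ≠ 0) {μ : Set F} {k l : ℕ}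
    (h : Cov (Cj x) (LinearMap.det x) μ k) (hl : k < l) : CovA (Cj x) (LinearMap.det x) μ l := by
  obtain ⟨l, rfl⟩ := Nat.exists_eq_add_one.2 (Nat.zero_lt_of_lt hl)
  exact (h.le hd hx h0 (by omega)).pad hd hx h0

theorem CovA.le (hd : 3 ≤ finrank F V) {x : End F V} (hx : NSc x) (h0 : LinearMap.det x ≠ 0) {μ : Set F} {k l : ℕ}
    (h : CovA (Cj x) (LinearMap.det x) μ k) (hl : k ≤ l) : CovA (Cj x) (LinearMap.det x) μ l :=
  hl.eq_or_lt.elim (· ▸ h) (h.cov.lt hd hx h0)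

/-- extension of a partial isomorphism -/
theorem exists_ext {E : Type*} [AddCommGroup E] [Module F E] {i j : E →ₗ[F] V} (hi : Function.Injective i)
    (hj : Function.Injective j) : ∃ g : End F V, LinearMap.det g ≠ 0 ∧ g ∘ₗ i = j := by
  obtain ⟨e, he⟩ := Submodule.exists_linearEquiv_restrict_eq
    ((LinearEquiv.ofInjective i hi).symm.trans (LinearEquiv.ofInjective j hj))
  exact ⟨e, (LinearEquiv.isUnit_det' e).ne_zero, LinearMap.ext fun v => by
    simpa using (he (LinearEquiv.ofInjective i hi v)).symm⟩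

theorem exists_fix_det {S : Submodule F V} (h : finrank F S < finrank F V) (c : F) :
    ∃ k : End F V, LinearMap.det k = c ∧ ∀ s ∈ S, k s = s := by
  obtain ⟨ψ, ψ0, hψ⟩ := exists_fun_kill h
  obtain ⟨z, hz⟩ := LinearMap.surjective ψ0 (c - 1)
  exact ⟨1 + ψ.smulRight z, by simp [det_rank_one, hz], fun s hs => by simp [hψ s hs]⟩

theorem exists_ext_one {E : Type*} [AddCommGroup E] [Module F E] {i j : E →ₗ[F] V} (hi : Function.Injective i)
    (hj : Function.Injective j) (h : finrank F E < finrank F V) :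
    ∃ g : End F V, LinearMap.det g = 1 ∧ g ∘ₗ i = j := by
  obtain ⟨g, h1, h2⟩ := exists_ext hi hj
  obtain ⟨k, h3, h4⟩ := exists_fix_det (S := LinearMap.range i) (by rwa [LinearMap.finrank_range_of_inj hi])
    (LinearMap.det g)⁻¹
  exact ⟨g * k, by simp [h3, h1], LinearMap.ext fun v => by simp [h4, ← h2]⟩

omit [FiniteDimensional F V] in
theorem inj_pair {u w : V} (h0 : u ≠ 0) (h : ∀ s : F, w ≠ s • u) :
    Function.Injective ((LinearMap.toSpanSingleton F V u).coprod (LinearMap.toSpanSingleton F V w)) :=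
  (injective_iff_map_eq_zero _).2 fun p hp => by
    obtain ⟨a, b⟩ := LinearIndependent.pair_iff.1 ((LinearIndependent.pair_iff' h0).2 fun s hs => h s hs.symm) p.1 p.2
      (by simpa using hp)
    exact Prod.ext a b

theorem exists_pair_ne {u w u' w' : V} (h0 : u ≠ 0) (h : ∀ s : F, w ≠ s • u) (h0' : u' ≠ 0) (h' : ∀ s : F, w' ≠ s • u') :
    ∃ g : End F V, LinearMap.det g ≠ 0 ∧ g u = u' ∧ g w = w' := by
  obtain ⟨g, h1, h2⟩ := exists_ext (inj_pair h0 h) (inj_pair h0' h')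
  exact ⟨g, h1, by simpa using LinearMap.congr_fun h2 (1, 0), by simpa using LinearMap.congr_fun h2 (0, 1)⟩

theorem exists_pair_one (hd : 3 ≤ finrank F V) {u w u' w' : V} (h0 : u ≠ 0) (h : ∀ s : F, w ≠ s • u) (h0' : u' ≠ 0)
    (h' : ∀ s : F, w' ≠ s • u') : ∃ g : End F V, LinearMap.det g = 1 ∧ g u = u' ∧ g w = w' := by
  obtain ⟨g, h1, h2⟩ := exists_ext_one (inj_pair h0 h) (inj_pair h0' h') (by simp; omega)
  exact ⟨g, h1, by simpa using LinearMap.congr_fun h2 (1, 0), by simpa using LinearMap.congr_fun h2 (0, 1)⟩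

theorem exists_single_one (hd : 2 ≤ finrank F V) {u u' : V} (h0 : u ≠ 0) (h0' : u' ≠ 0) :
    ∃ g : End F V, LinearMap.det g = 1 ∧ g u = u' := by
  obtain ⟨g, h1, h2⟩ := exists_ext_one (LinearMap.ker_eq_bot.1 (LinearMap.ker_toSpanSingleton F h0))
    (LinearMap.ker_eq_bot.1 (LinearMap.ker_toSpanSingleton F h0')) (by simp; omega)
  exact ⟨g, h1, by simpa using LinearMap.congr_fun h2 1⟩

theorem detFull_of_eigen {x : End F V} {u : V} {φ : V →ₗ[F] F} {a : F} (h1 : x u = a • u) (h2 : ∀ v, φ (x v) = a * φ v)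
    (h3 : φ u ≠ 0) : DetFull x := fun t _ =>
  ⟨1 + φ.smulRight (((t - 1) / φ u) • u), by ext v; simp [h1, h2, smul_smul, mul_comm, mul_left_comm],
    by simp [det_rank_one, h3]⟩

end Cfsg.Agent.CovN
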