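import Cfsg.Agent.CovN.Peel

/-!
Climbing from a quotient; maps all of whose irreducible factors have degree at most two.
-/

set_option autoImplicit false
set_option linter.unusedSectionVars false

open Polynomial Module

universe u

namespace Cfsg.Agent.CovN

open Cfsg.Agent.GLn Cfsg.Agent.Fac

section
variable {F : Type*} [Field F] {V W Q : Type*} [AddCommGroup V] [Module F V] [AddCommGroup W] [Module F W]
  [AddCommGroup Q] [Module F Q] [FiniteDimensional F V] [FiniteDimensional F W] [FiniteDimensional F Q]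

theorem exists_factor {π : V →ₗ[F] Q} (h : Function.Surjective π) {ρ : V →ₗ[F] W} (k : ∀ v, π v = 0 → ρ v = 0) :
    ∃ σ : Q →ₗ[F] W, ∀ v, σ (π v) = ρ v := by
  obtain ⟨g, hg⟩ := π.exists_rightInverse_of_surjective (LinearMap.range_eq_top.2 h)
  refine ⟨ρ ∘ₗ g, fun v => sub_eq_zero.1 ?_⟩
  rw [LinearMap.comp_apply, ← map_sub]
  exact k _ (by rw [map_sub, sub_eq_zero]; exact LinearMap.congr_fun hg _)

/-- a free plane is available as soon as the dimension allows it -/
def Wide (x : End F V) : Prop := NQ x ∨ Free x 2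

theorem Wide.lift {x : End F V} {y : End F W} {π : V →ₗ[F] W} (h : Wide y) (hs : Function.Surjective π)
    (hπ : ∀ v, π (x v) = y (π v)) : Wide x := by
  rcases h with ⟨u, h0, h1, h2⟩ | ⟨U, h1, h2⟩
  · obtain ⟨u, rfl⟩ := hs u
    exact Or.inl ⟨u, by rintro rfl; simp at h0, fun s e => h1 s (by rw [← hπ, e, map_smul]),
      fun s t e => h2 s t (by rw [← hπ, ← hπ, e, map_add, map_smul, map_smul])⟩
  · obtain ⟨g, hg⟩ := π.exists_rightInverse_of_surjective (LinearMap.range_eq_top.2 hs)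
    have k : ∀ w, π (g w) = w := LinearMap.congr_fun hg
    refine Or.inr ⟨U.map g, (LinearEquiv.finrank_eq (U.equivMapOfInjective g (Function.LeftInverse.injective k))).symm.trans h1, ?_⟩
    rintro _ ⟨u, hu, rfl⟩ ⟨w, hw, e⟩
    rw [h2 u hu (by rw [← k u, ← hπ, ← e, k]; exact hw), map_zero]

theorem Wide.nsc {x : End F V} (h : Wide x) : NSc x := by
  rcases h with h | ⟨U, h1, h2⟩
  · exact h.nsc
  rintro c rfl
  obtain ⟨u, hu⟩ := finrank_pos_iff_exists_ne_zero.1 (show 0 < finrank F U by omega)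
  exact hu (Subtype.ext (h2 u u.2 (U.smul_mem c u.2)))

theorem Wide.free {x : End F V} (h : Wide x) (hd : 4 ≤ finrank F V) : Free x 2 := h.elim (·.free hd) id

theorem peel_one {l : F} {R : Q →ₗ[F] F} {y : End F Q} {x : End F V} (s : Sim (blk (sc l) R 0 y) x)
    (hx : LinearMap.det x ≠ 0) (hx' : NSc x) {μ : Set F} (hμ : ∀ a ∈ μ, a = l) {k : ℕ} (hd : 2 ≤ finrank F Q)
    (h : Cov (Cj y) (LinearMap.det y) μ k) : Cov (Cj x) (LinearMap.det x) μ (k + 1) :=
  (step_one rfl (s.det ▸ hx) ((hx'.of_sim s.symm).free.fr (by simp; omega)) hμ (Or.inl ⟨hd, h.sim⟩)).of_sim s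

theorem exists_reg_quot {x : End F V} {g : F[X]} (hg : g.Monic) (h : g ∣ minpoly F x) :
    ∃ (Q : Submodule F V) (y : End F Q) (π : V →ₗ[F] Q), Function.Surjective π ∧ (∀ v, π (x v) = y (π v)) ∧ Reg y ∧
      y.charpoly = g ∧ LinearMap.det y ∣ LinearMap.det x := by
  obtain ⟨θ, hθ⟩ := exists_ann_dual x h
  let K : Submodule F V := ⨅ p : F[X], LinearMap.ker (θ ∘ₗ aeval x p)
  have m : ∀ v, v ∈ K ↔ ∀ p : F[X], θ (aeval x p v) = 0 := fun v => by simp [K]
  have w : ∀ v ∈ K, x v ∈ K := fun v hv => (m _).2 fun p => by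
    have := (m v).1 hv (p * X)
    rwa [map_mul, aeval_X] at this
  obtain ⟨Q, R, y, π, s, p1, p2, p3⟩ := exists_dec (P := x.restrict w) K.subtype_injective fun _ => rfl
  simp only [Submodule.range_subtype, m] at p3
  obtain ⟨θ', t⟩ := exists_factor p1 (ρ := θ) fun v hv => by simpa using (p3 v).1 hv 1
  have o : Obs y θ' := fun S h1 h2 => eq_bot_iff.2 fun s hs => by
    obtain ⟨v, rfl⟩ := p1 s
    exact (p3 v).2 fun p => by rw [← t, aeval_inter p2]; exact h2 _ (aeval_apply_smul_mem_of_le_comap hs p y h1)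
  refine ⟨Q, y, π, p1, p2, ⟨_, o⟩, eq_of_monic_of_associated y.charpoly_monic hg (associated_of_dvd_dvd
    ((Reg.dvd_minpoly ⟨_, o⟩).trans (minpoly.dvd _ _ (LinearMap.ext fun q => ?_))) ((hθ _).1 (LinearMap.ext fun v => ?_))),
    (charpoly_dec s).2.2 ▸ dvd_mul_left _ _⟩
  · obtain ⟨v, rfl⟩ := p1 q
    rw [← aeval_inter p2]
    exact (p3 _).2 fun p => by simpa using LinearMap.congr_fun ((hθ (p * g)).2 (dvd_mul_left _ _)) v
  · simp [← t, aeval_inter p2, y.aeval_self_charpoly]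

theorem cov_three [Finite F] (hF : Big F 4) (hd : finrank F V = 3) {x : End F V} (h0 : LinearMap.det x ≠ 0) (hq : NQ x) {l : F}
    (hl : x.charpoly.eval l = 0) : Cov (Cj x) (LinearMap.det x) ∅ 3 := by
  obtain ⟨u, u0, hu⟩ := exists_eigen_of_isRoot hl
  obtain ⟨Q, R, y, π, s, -⟩ := eigen_dec u0 hu
  obtain ⟨e, he⟩ := sim_iff.1 s
  have := (charpoly_dec s).2.1
  exact (step_three hF (by simp at this; omega) rfl (s.det ▸ h0) (by
    obtain ⟨u, h0, h1, h2⟩ := hq
    obtain ⟨u, rfl⟩ := e.surjective u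
    exact ⟨u, by simpa using h0, fun s k => h1 s (by rw [← he, k, map_smul]),
      fun s t k => h2 s t (by rw [← he, ← he, k, map_add, map_smul, map_smul])⟩)).of_sim s

/-- the companion map of `X² - t X + d` -/
abbrev kap (t d : F) : End F (F × F) := blk 0 (sc 1) (sc (-d)) (sc t)

theorem kap_spec (t d : F) : LinearMap.trace F _ (kap t d) = t ∧ LinearMap.det (kap t d) = d ∧ NSc (kap t d) := by
  have h1 : LinearMap.trace F _ (kap t d) = t := by simp [trace_blk]
  refine ⟨h1, ?_, fun c h => by simpa using congrArg Prod.fst (LinearMap.congr_fun h (0, 1))⟩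
  have := congrArg Prod.fst (cayley_two (by simp) (kap t d) (1, 0))
  rw [h1] at this
  simpa [eq_comm, -one_smul] using this

theorem cov_kap [Finite F] (hF : Big F 4) (t : F) {d : F} (hd : d ≠ 0) :
    Cov (Cj ((kap t d).prodMap (kap t d))) (LinearMap.det ((kap t d).prodMap (kap t d))) ∅ 4 := by
  obtain ⟨h1, h2, h3⟩ := kap_spec t d
  by_cases h : t ^ 2 = 4 * d
  · obtain ⟨l, rfl, rfl⟩ := SL2.par_of_disc h
    have l0 := left_ne_zero_of_mul hd
    have : Sim (blk (sc l) (sc l) 0 (sc l)) (kap (l + l) (l * l)) := sim_two (by simp)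
      (fun c k => l0 (by simpa using congrArg Prod.fst (LinearMap.congr_fun k (0, 1)))) h3
      (by rw [charpoly_two (by simp) (kap (l + l) (l * l)), h1, h2, quad_eq_mul, charpoly_blk_upper, charpoly_sc])
    exact (base_jj hF l0 rfl).of_sim (this.prodMap this)
  · exact base_four hF (by simp) (by simp) (prodMap_eq_blk _ _) (by rw [LinearMap.det_prodMap, h2]; simp [hd]) (by rwa [h1, h2]) h3

theorem wide_kap (t : F) {d : F} (hd : d ≠ 0) : Wide ((kap t d).prodMap (kap t d)) :=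
  Or.inr ⟨LinearMap.range ((LinearMap.inl F F F).prodMap (LinearMap.inl F F F)),
    (LinearMap.finrank_range_of_inj fun p q h => by simpa [Prod.ext_iff] using h).trans (by simp), by
      rintro _ ⟨⟨a, b⟩, rfl⟩ ⟨⟨c, e⟩, h⟩
      simp [Prod.ext_iff, hd, eq_comm] at h
      simp [h]⟩

theorem quot_kap {x : End F V} {t d : F} (hd : d ≠ 0) (hx : ∀ v, x (x v) = t • x v - d • v) (h : Free x 2) :
    ∃ π : V →ₗ[F] (F × F) × F × F, Function.Surjective π ∧ ∀ v, π (x v) = (kap t d).prodMap (kap t d) (π v) := by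
  obtain ⟨i, hi⟩ := Free.emb (x := x) (W := F × F) (by simpa using h)
  obtain ⟨g, hg⟩ := (i.coprod (x ∘ₗ i)).exists_leftInverse_of_injective (LinearMap.ker_eq_bot.2 hi)
  have k1 : ∀ w, g (i w) = (w, 0) := fun w => by simpa using LinearMap.congr_fun hg (w, 0)
  have k2 : ∀ w, g (x (i w)) = (0, w) := fun w => by simpa using LinearMap.congr_fun hg (0, w)
  let α := LinearMap.fst F F F ∘ₗ LinearMap.fst F _ _ ∘ₗ g
  let β := LinearMap.snd F F F ∘ₗ LinearMap.fst F _ _ ∘ₗ g
  refine ⟨(α.prod (α ∘ₗ x)).prod (β.prod (β ∘ₗ x)), fun ⟨⟨a, b⟩, c, e⟩ => ⟨i (a, c) + x (i (-(b / d), -(e / d))), ?_⟩, fun v => ?_⟩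
  · simp [α, β, hx, k1, k2, mul_div_cancel₀, hd]
  · simp [hx]; constructor <;> ring

/-- scalar plus rank one -/
def RO (x : End F V) : Prop := ∃ (c : F) (θ : V →ₗ[F] F) (u : V), x = c • (1 + θ.smulRight u)

theorem ro_of_rank {x : End F V} {c : F} (hc : c ≠ 0) (h : finrank F (LinearMap.range (x - c • 1)) ≤ 1) : RO x := by
  have := (x - c • 1).finrank_range_add_finrank_ker
  obtain ⟨θ, u, e⟩ := exists_rank_one_form (M := c⁻¹ • x) (by
    rw [show c⁻¹ • x - 1 = c⁻¹ • (x - c • 1) by simp [smul_sub, hc], LinearMap.ker_smul _ _ (inv_ne_zero hc)]; omega)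
  exact ⟨c, θ, u, by simp [← e, hc]⟩

theorem free_or_ro (hd : 3 ≤ finrank F V) {x : End F V} (hx' : NSc x) {l l' : F} (hl : l * l' ≠ 0)
    (hx : ∀ v, x (x v) = (l + l') • x v - (l * l') • v) : Free x 2 ∨ RO x := by
  have key : ∀ a b : F, (∀ v, x (x v) = (a + b) • x v - (a * b) • v) → LinearMap.range (x - a • 1) ≤ LinearMap.ker (x - b • 1) := by
    rintro a b h _ ⟨v, rfl⟩
    simp [h]; module
  rcases hd.eq_or_lt with hd | hd
  · have := (x - l' • 1).finrank_range_add_finrank_ker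
    have := Submodule.finrank_mono (key l l' hx)
    exact Or.inr ((le_or_gt (finrank F (LinearMap.range (x - l • 1))) 1).elim (ro_of_rank (left_ne_zero_of_mul hl))
      fun _ => ro_of_rank (right_ne_zero_of_mul hl) (by omega))
  obtain ⟨u, u0, hu⟩ := exists_not_eigen hx'
  have := free_step (free_line hu) (by rw [finrank_span_singleton u0]; omega)
  rw [finrank_span_singleton u0] at this
  refine this.imp_right fun ⟨c, hc⟩ => ?_
  simp only [Submodule.map_span, Set.image_singleton] at hc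
  obtain ⟨v, v1, v0⟩ := (Submodule.ne_bot_iff _).1 (show LinearMap.ker (x - c • 1) ≠ ⊥ from fun k => by
    have := (x - c • 1).finrank_range_add_finrank_ker
    have := Submodule.finrank_mono (show LinearMap.range (x - c • 1) ≤ (F ∙ u) ⊔ F ∙ x u by rintro _ ⟨v, rfl⟩; exact hc v)
    have := finrank_sup_span_le (F ∙ u) (x u)
    rw [finrank_span_singleton u0] at this
    have : finrank F (LinearMap.ker (x - c • 1)) = 0 := by rw [k, finrank_bot]
    omega)
  have v2 : x v = c • v := sub_eq_zero.1 v1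
  have c1 : c * c = (l + l') * c - l * l' := smul_left_injective F v0 (by simpa [v2, smul_smul, sub_smul] using hx v)
  refine ro_of_rank (c := c) (by rintro rfl; exact hl (by simpa using c1)) ((Submodule.finrank_mono (t := F ∙ (x u - c • u)) ?_).trans
    ((finrank_span_le_card _).trans (by simp)))
  rintro _ ⟨w, rfl⟩
  have k := key c (l + l' - c) (fun v => by rw [hx]; congr 2; ring; linear_combination c1) ⟨w, rfl⟩
  obtain ⟨a, b, e⟩ : ∃ a b : F, a • u + b • x u = x w - c • w := by simpa [Submodule.mem_sup, Submodule.mem_span_singleton] using hc w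
  simp only [LinearMap.mem_ker, LinearMap.sub_apply, LinearMap.smul_apply, Module.End.one_apply, ← e] at k ⊢
  obtain rfl : a = -(b * c) := by_contra fun k' => hu ((a + b * c)⁻¹ * (b * (l * l') + (l + l' - c) * a)) (by
    have : a + b * c ≠ 0 := fun h => k' (eq_neg_of_add_eq_zero_left h)
    rw [mul_smul, eq_inv_smul_iff₀ this]
    simp only [map_add, map_smul, hx] at k
    linear_combination (norm := module) k)
  exact Submodule.mem_span_singleton.2 ⟨b, by module⟩

end

variable {F : Type*} [Field F]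

theorem climb {B : Type*} [AddCommGroup B] [Module F B] [FiniteDimensional F B] {β : End F B}
    (hβ : Cov (Cj β) (LinearMap.det β) ∅ (finrank F B)) (h3 : 3 ≤ finrank F B) (hw : Wide β) (n : ℕ) :
    ∀ (V : Type u) [AddCommGroup V] [Module F V] [FiniteDimensional F V] (x : End F V) (π : V →ₗ[F] B),
    finrank F V = n → LinearMap.det x ≠ 0 → Function.Surjective π → (∀ v, π (x v) = β (π v)) →
    (∀ g, Irreducible g → g.Monic → g ∣ x.charpoly → g.natDegree ≤ 2) →
    Cov (Cj x) (LinearMap.det x) ∅ n ∧ (finrank F B + 2 ≤ n → CovA (Cj x) (LinearMap.det x) ∅ n) := by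
  induction n using Nat.strong_induction_on with
  | _ n ih =>
  rintro V _ _ _ x π rfl hx hs hπ hi
  have w := hw.lift hs hπ
  have d := π.finrank_range_add_finrank_ker
  rw [LinearMap.range_eq_top.2 hs, finrank_top] at d
  have k : ∀ v ∈ LinearMap.ker π, x v ∈ LinearMap.ker π := fun v hv => by simp [hπ, LinearMap.mem_ker.1 hv]
  have key : ∀ (Q : Submodule F V) (y : End F Q) (ρ : V →ₗ[F] Q), finrank F Q < finrank F V → LinearMap.det y ≠ 0 →
      y.charpoly ∣ x.charpoly → Function.Surjective ρ → (∀ v, ρ (x v) = y (ρ v)) → (∀ v, ρ v = 0 → π v = 0) →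
      Cov (Cj y) (LinearMap.det y) ∅ (finrank F Q) := fun Q y ρ h1 h2 h3 h4 h5 h6 => by
    obtain ⟨σ, hσ⟩ := exists_factor h4 h6
    exact (ih _ h1 Q y σ rfl h2 (fun b => (hs b).elim fun v hv => ⟨ρ v, (hσ v).trans hv⟩)
      (fun q => by obtain ⟨v, rfl⟩ := h4 q; rw [← h5, hσ, hσ, hπ]) fun g g1 g2 g3 => hi g g1 g2 (g3.trans h3)).1
  rcases (by omega : finrank F (LinearMap.ker π) = 0 ∨ finrank F (LinearMap.ker π) = 1 ∨ 2 ≤ finrank F (LinearMap.ker π)) with c | c | c
  · refine ⟨?_, by omega⟩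
    rw [← d, c]
    exact hβ.of_sim (Sim.symm (sim_iff.2 ⟨LinearEquiv.ofBijective π ⟨LinearMap.ker_eq_bot.1 (Submodule.finrank_eq_zero.1 c), hs⟩, hπ⟩))
  · obtain ⟨u, u0, hu⟩ := finrank_eq_one_iff'.1 c
    obtain ⟨l, hl⟩ := hu ⟨x u, k u u.2⟩
    obtain ⟨Q, R, y, ρ, s, p1, p2, p3⟩ := eigen_dec (u := u.1) (by simpa using u0) (congrArg Subtype.val hl).symm
    obtain ⟨s1, s2, s3⟩ := charpoly_dec s
    rw [finrank_self] at s2
    refine ⟨?_, by omega⟩
    rw [s2, add_comm]
    refine peel_one s hx w.nsc (by simp) (by omega) (key Q y ρ (by omega) (right_ne_zero_of_mul (s3 ▸ hx)) (s1 ▸ dvd_mul_left _ _) p1 p2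
      fun v hv => ?_)
    obtain ⟨a, rfl⟩ := (p3 v).1 hv
    simp
  obtain ⟨Q₀, R₀, y₀, -, s₀, -⟩ := exists_dec (P := x.restrict k) (LinearMap.ker π).subtype_injective fun _ => rfl
  obtain ⟨q, q1, q2, q3⟩ := exists_quad_dvd (x.restrict k).charpoly_monic (by rwa [LinearMap.charpoly_natDegree])
    fun g g1 g2 g3 => hi g g1 g2 ((charpoly_dec s₀).1 ▸ g3.mul_right _)
  obtain ⟨W, w1, w2⟩ := plane_of_dvd q1 q2 q3
  obtain ⟨Q, R, y, ρ, s, p1, p2, p3⟩ := exists_dec (x := x) (P := (x.restrict k).restrict w2) (i := (LinearMap.ker π).subtype ∘ₗ W.subtype)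
    ((LinearMap.ker π).subtype_injective.comp W.subtype_injective) fun _ => rfl
  obtain ⟨s1, s2, s3⟩ := charpoly_dec s
  have : Nontrivial W := nontrivial_of_finrank_pos (R := F) (by omega)
  have := peel_two s hx w.nsc ((w1 ▸ w.free (by omega)).fr (by omega)) (by omega) (by omega)
    (Or.inl ⟨by omega, key Q y ρ (by omega) (right_ne_zero_of_mul (s3 ▸ hx)) (s1 ▸ dvd_mul_left _ _) p1 p2 fun v hv => by
      obtain ⟨a, rfl⟩ := (p3 v).1 hv
      exact a.1.2⟩)
  exact ⟨this.cov, fun _ => this⟩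

theorem cov_refl {c : F} (hc : c ≠ 0) {δ : F} (h0 : δ ≠ 0) (h1 : 1 + δ ≠ 0) (n : ℕ) :
    ∀ (V : Type u) [AddCommGroup V] [Module F V] [FiniteDimensional F V] (θ : V →ₗ[F] F) (u : V),
    finrank F V = n + 1 → θ u = δ → ∀ x, x = c • (1 + θ.smulRight u) →
    Cov (Cj x) (LinearMap.det x) {c} (n + 1) ∧ (n = 0 → CovA (Cj x) (LinearMap.det x) {c} 1) := by
  induction n with
  | zero =>
    intro V _ _ _ θ u hd hu x e
    suffices CovA (Cj x) (LinearMap.det x) {c} 1 from ⟨this.cov, fun _ => this⟩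
    intro M hM
    obtain rfl : M = x := by rw [eq_smul_of_sim_sc (sim_sc hd M), hM, pow_one, ← eq_smul_of_sim_sc (sim_sc hd x)]
    refine ⟨[M], rfl, by simp [Cj.refl], by simp, fun S _ _ k => eq_bot_iff.2 fun s hs => ?_⟩
    have u0 : u ≠ 0 := by rintro rfl; exact h0 (by simpa using hu.symm)
    obtain ⟨a, rfl⟩ := (finrank_eq_one_iff_of_nonzero' u u0).1 hd s
    obtain rfl : a = 0 := by simpa [e, hc, hu, h0, u0, smul_comm a c] using k c rfl M (by simp) _ hs
    simp
  | succ n ih =>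
    intro V _ _ _ θ u hd hu x e
    refine ⟨?_, by omega⟩
    obtain ⟨v, v1, v0⟩ := (Submodule.ne_bot_iff _).1 (LinearMap.ker_ne_bot_of_finrank_lt (f := θ) (by simp; omega))
    rw [LinearMap.mem_ker] at v1
    obtain ⟨Q, R, y, π, s, p1, p2, p3⟩ := eigen_dec (x := x) (l := c) v0 (by simp [e, v1])
    obtain ⟨θ', t⟩ := exists_factor p1 (ρ := θ) fun w hw => by obtain ⟨a, rfl⟩ := (p3 w).1 hw; simp [v1]
    have d := (charpoly_dec s).2.1
    rw [finrank_self] at d
    obtain ⟨k1, k2⟩ := ih Q θ' (π u) (by omega) (by rw [t, hu]) y (LinearMap.ext fun q => by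
      obtain ⟨w, rfl⟩ := p1 q
      rw [← p2]; simp [e, t])
    have x0 : LinearMap.det x ≠ 0 := by simp [e, det_rank_one, hu, hc, h1, -smul_add]
    have x1 : NSc x := fun a k => h0 (by
      have k1 := LinearMap.congr_fun k v
      have k2 := congrArg θ (LinearMap.congr_fun k u)
      obtain rfl : c = a := smul_left_injective F v0 (by simpa [e, v1] using k1)
      simp [e, hu, hc, h0] at k2)
    have x2 : DetFull x := detFull_of_eigen (u := u) (φ := θ) (a := c * (1 + δ)) (by simp [e, hu]; module)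
      (fun w => by simp [e, hu]; ring) (hu ▸ h0)
    refine (step_one rfl (s.det ▸ x0) ((x1.free.fr_full x2).of_sim s.symm) (by simp) ?_).of_sim s
    rcases n with _ | n
    · exact Or.inr ⟨by omega, fun M hM => (k2 rfl M hM).mono (fun _ => Cj.sim) le_rfl⟩
    · exact Or.inl ⟨by omega, k1.sim⟩

end Cfsg.Agent.CovN
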