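import Cfsg.Agent.CovN.Base
import Cfsg.Agent.Fac.Three

/-!
Base cases in dimension four.
-/

set_option autoImplicit false
set_option linter.unusedSectionVars false

open Polynomial Module

namespace Cfsg.Agent.CovN

open Cfsg.Agent.GLn Cfsg.Agent.Fac

variable {F : Type*} [Field F] {V W Q : Type*} [AddCommGroup V] [Module F V] [AddCommGroup W] [Module F W]
  [AddCommGroup Q] [Module F Q] [FiniteDimensional F V] [FiniteDimensional F W] [FiniteDimensional F Q]

def Tw (x : End F V) (b : F) (N : End F V) : Prop :=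
  ∃ A B, Cj x A ∧ Cj x B ∧ N = A * B ∧ ∀ (c : F) s, s ≠ 0 → A s = c • s → B s = c • s → N s ≠ b • s

theorem Tw.cj {x N N' : End F V} {b : F} (h : Tw x b N) (h' : Cj N N') : Tw x b N' := by
  obtain ⟨A, B, h1, h2, rfl, h3⟩ := h
  obtain ⟨e, rfl, he⟩ := h'.exists_equiv
  refine ⟨_, _, h1.trans (he A), h2.trans (he B), map_mul _ _ _, fun c s s0 k1 k2 k3 => ?_⟩
  obtain ⟨s, rfl⟩ := e.surjective s
  exact h3 c s (by simpa using s0) (e.injective (by simpa using k1)) (e.injective (by simpa using k2))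
    (e.injective (by simpa using k3))

theorem Tw.det {x N : End F V} {b : F} (h : Tw x b N) : LinearMap.det N = LinearMap.det x ^ 2 := by
  obtain ⟨A, B, h1, h2, rfl, -⟩ := h
  rw [map_mul, h1.det, h2.det, sq]

theorem Tw.left {x N Z : End F V} {b : F} (h : Tw x b N) (h' : Tw x b Z) (hw : Wit (N * Z) N b) : Prd (Cj x) ∅ 4 (N * Z) := by
  obtain ⟨A, B, h1, h2, rfl, h3⟩ := h
  obtain ⟨A', B', h4, h5, rfl, -⟩ := h'
  exact ⟨[A, B, A', B'], rfl, by simp [*], by simp [mul_assoc], nc_of_wit (L₁ := [A, B]) (by simp) (List.Subset.refl _)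
    (by simpa [mul_assoc] using hw) fun c s s0 k => by simpa using h3 c s s0 (k A (by simp)) (k B (by simp))⟩

theorem Tw.right {x N Z : End F V} {b : F} (h : Tw x b N) (h' : Tw x b Z) (hw : Wit Z N b) : Prd (Cj x) ∅ 4 (Z * N) := by
  obtain ⟨A, B, h1, h2, rfl, h3⟩ := h
  obtain ⟨A', B', h4, h5, rfl, -⟩ := h'
  exact ⟨[A', B', A, B], rfl, by simp [*], by simp [mul_assoc], nc_of_wit (L₁ := [A, B]) (L₂ := [A', B']) (by simp) (by simp)
    (by simpa using hw) fun c s s0 k => by simpa using h3 c s s0 (k A (by simp)) (k B (by simp))⟩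

theorem Wit.inv {P P' N : End F V} {b : F} (h : Wit P N b) (e : P * P' = 1) : Wit P' N b :=
  ⟨fun S h1 => h.1 S (inv_of_inv e h1), h.2⟩

theorem Wit.map {P N : End F V} {b : F} (h : Wit P N b) (e : V ≃ₗ[F] W) : Wit (e.conjAlgEquiv F P) (e.conjAlgEquiv F N) b := by
  refine ⟨fun S h1 h2 h3 => ?_, fun s t s0 h1 h2 => ?_⟩
  · obtain ⟨s, k1, k2, k3⟩ := h.1 (S.comap e.toLinearMap) (fun s hs => by simpa using h1 _ hs) (fun s hs => by simpa using h2 _ hs)
      fun k => h3 (eq_bot_iff.2 fun s hs => by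
        have h5 : e.symm s ∈ S.comap e.toLinearMap := by simpa using hs
        simpa [k] using h5)
    exact ⟨e s, k1, by simpa using k2, by simp [k3]⟩
  · obtain ⟨s, rfl⟩ := e.surjective s
    obtain ⟨t, rfl⟩ := e.surjective t
    obtain ⟨c, rfl⟩ := h.2 s t (by simpa using s0) (e.injective (by simpa using h1)) (e.injective (by simpa using h2))
    exact ⟨c, by simp⟩

theorem obs_of_hess {φ : ℕ → V →ₗ[F] F} {P : End F V} {K : ℕ → Prop} (hs : Sep φ) (hP : Hess φ P K)
    (h0 : LinearMap.det P ≠ 0) (hK : ∀ j, j + 1 < finrank F V → K j) : Obs P (φ 0) := fun _ h1 h2 =>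
  crit (N := 1) (K' := fun _ => False) hs hP (fun j _ _ hv => ⟨False.elim, fun _ => hv j le_rfl⟩) (fun j hj => by simp [hK j hj]) h2
    (fun s hs => ⟨_, h1 s hs, rfl⟩) fun s hs => (onto_of_inv h0 h1 s hs).imp fun _ h => ⟨h.1, h.2.symm⟩

/-- a flag for the inverse of a map with an elliptic factor and an eigenvalue, with a missing jump -/
theorem exists_hess_not {N P : End F V} (e : P * N = 1) {q : F[X]} (hq : q ∣ minpoly F N) (hq' : q.natDegree = 2) {b : F}
    (hb : N.charpoly.eval b = 0) (hb' : q.eval b ≠ 0) :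
    ∃ φ K, K 0 ∧ Sep φ ∧ Hess φ P K ∧ ¬ ∀ j, j + 1 < finrank F V → K j := by
  obtain ⟨θ, hθ⟩ := exists_ann_dual N hq
  have pn : ∀ v, P (N v) = v := LinearMap.congr_fun e
  have q0 : ∀ c d : F, q ∣ C c * X + C d → c = 0 ∧ d = 0 := fun c d h => by
    have := eq_zero_of_dvd_of_natDegree_lt h (natDegree_linear_le.trans_lt (by omega))
    exact ⟨by simpa using congrArg (coeff · 1) this, by simpa using congrArg (coeff · 0) this⟩
  obtain ⟨φ, K, rfl, h0, h1, h2⟩ := exists_hess P (φ₀ := θ) (by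
    by_contra! k
    obtain ⟨z, hz⟩ := LinearMap.surjective (f := θ) (fun h => one_ne_zero (q0 0 1 ((hθ _).1 (by simp [h]))).2) 1
    refine one_ne_zero (neg_eq_zero.1 (q0 (θ (P z)) (-1) ((hθ _).1 (LinearMap.ext fun v => ?_))).2)
    have := k (N v - θ (N v) • z) (by simp [hz])
    simp only [map_sub, pn, map_smul, smul_eq_mul] at this
    simp
    linear_combination -this)
  refine ⟨φ, K, h0, h1, h2, fun h => ?_⟩
  obtain ⟨s, s0, hs⟩ := exists_eigen_of_isRoot hb
  have p0 := congrArg LinearMap.det e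
  rw [map_mul, map_one] at p0
  have k : φ 0 s = 0 := by
    simpa [Module.End.aeval_apply_of_mem_apply_eq_smul hs, hb'] using LinearMap.congr_fun ((hθ q).2 dvd_rfl) s
  refine s0 (Submodule.span_singleton_eq_bot.1 (obs_of_hess h1 h2 (left_ne_zero_of_mul_eq_one p0) h _ (inv_of_inv e ?_) ?_))
  all_goals simp only [Submodule.mem_span_singleton]
  · rintro _ ⟨c, rfl⟩; exact ⟨c * b, by simp [hs, smul_smul]⟩
  · rintro _ ⟨c, rfl⟩; simp [k]

theorem chain_four {K : ℕ → Prop} (h0 : K 0) (h : ¬ ∀ j, j + 1 < 4 → K j) (b b' s δ : F) :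
    Chain 4 (fun j => ¬ K j ∧ j + 1 < 4) ((X - C b') * quad s δ * (X - C b))
      fun l => match l with | 0 => (X - C b') * quad s δ | 1 => quad s δ | 2 => X - C b' | _ + 3 => 1 where
  monic l _ _ := by
    rcases l with _ | _ | _ | l
    exacts [(monic_X_sub_C _).mul (monic_quad _ _), monic_quad _ _, monic_X_sub_C _, monic_one]
  deg l hl _ := by
    rcases l with _ | _ | _ | l
    · simp [(monic_X_sub_C _).natDegree_mul (monic_quad _ _), natDegree_quad]
    · simp [natDegree_quad]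
    · simp
    · simp; omega
  dvd l hl k := by
    rcases l with _ | _ | _ | l
    · exact ⟨dvd_mul_right _ _, by simp⟩
    · refine ⟨(dvd_mul_left _ _).mul_right _, fun l' hl' _ => ?_⟩
      obtain rfl : l' = 0 := by omega
      exact dvd_mul_left _ _
    · refine ⟨(dvd_mul_right _ _).mul_right _, fun l' hl' k' => ?_⟩
      rcases l' with _ | _ | l'
      · exact dvd_mul_right _ _
      · refine (h fun j hj => ?_).elim
        rcases j with _ | _ | _ | j
        exacts [h0, by simpa using k', by simpa using k, by omega]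
      · omega
    · simp

theorem four_core [Finite F] (hd : finrank F V = 4) {x N : End F V} (hx : LinearMap.det x ≠ 0) {b b' s δ : F} (h : Tw x b N)
    (hχ : N.charpoly = (X - C b') * quad s δ * (X - C b)) (he : SL2.Ell s δ) (hb : b ≠ b') :
    Cov (Cj x) (LinearMap.det x) ∅ 4 := fun M hM hM' => by
  have c1 : ∀ b : F, IsCoprime (X - C b) (quad s δ) := fun b =>
    (irreducible_X_sub_C b).coprime_iff_not_dvd.2 fun h => ell_eval_ne he b (dvd_iff_isRoot.1 h)
  have c2 : IsCoprime (X - C b) ((X - C b') * quad s δ) := (isCoprime_X_sub_C_of_isUnit_sub (sub_ne_zero.2 hb).isUnit).mul_right (c1 b)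
  have r : Reg N := reg_of_squarefree (hχ ▸ squarefree_mul_iff.2 ⟨c2.symm.isRelPrime, squarefree_mul_iff.2
    ⟨(c1 b').isRelPrime, (irreducible_X_sub_C b').squarefree, (irreducible_quad he).squarefree⟩, (irreducible_X_sub_C b).squarefree⟩)
  have df := detFull_of_simple (irreducible_X_sub_C b) (monic_X_sub_C b) c2 (hχ.trans (mul_comm _ _))
  have ev : ((X - C b') * quad s δ).eval b ≠ 0 := by simpa [sub_eq_zero, hb] using ell_eval_ne he b
  have M0 : LinearMap.det M ≠ 0 := hM ▸ pow_ne_zero _ hx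
  have N0 : LinearMap.det N ≠ 0 := h.det ▸ pow_ne_zero _ hx
  have dM : LinearMap.det M = LinearMap.det N * LinearMap.det N := by rw [hM, h.det, ← pow_add]
  have ch : ∀ K : ℕ → Prop, K 0 → (¬ ∀ j, j + 1 < finrank F V → K j) → ∃ g : ℕ → F[X],
      Chain (finrank F V) (fun j => ¬ K j ∧ j + 1 < finrank F V) N.charpoly g ∧ g 0 = (X - C b') * quad s δ := fun K h0 h => by
    rw [hd, hχ] at *
    exact ⟨_, chain_four h0 h b b' s δ, rfl⟩
  obtain ⟨φ₀, k⟩ := hM'.exists_fun
  obtain ⟨φ, K, -, h0, h1, h2⟩ := exists_hess M k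
  by_cases hK : ∀ j, j + 1 < finrank F V → K j
  · obtain ⟨P, p1, p2⟩ := exists_inv N0
    obtain ⟨φ', K', k0, k1, k2, k3⟩ := exists_hess_not p2 (dvd_minpoly (irreducible_quad he)
      (hχ ▸ (dvd_mul_left _ _).mul_right _)) (natDegree_quad s δ) (b := b) (by simp [hχ]) (ell_eval_ne he b)
    obtain ⟨g, g1, g2⟩ := ch K' k0 k3
    obtain ⟨Z, z1, z2, z3⟩ := t1 k1 k2 k0 ⟨_, obs_of_hess h1 h2 M0 hK⟩ r g1 (g2 ▸ hχ) (g2 ▸ ev) N0 (by rw [dM, ← mul_assoc, ← map_mul, p2, map_one, one_mul])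
    obtain ⟨e, rfl⟩ := z1.symm
    rw [show Z = N * (P * Z) by rw [← mul_assoc, p1, one_mul], map_mul]
    exact (h.cj (cj_of_sim df (z2.trans ⟨e, rfl⟩))).right (h.cj (cj_of_sim df ⟨e, rfl⟩)) ((z3.inv p2).map e)
  · obtain ⟨g, g1, g2⟩ := ch K h0 hK
    obtain ⟨N', Z, z1, z2, rfl, z3⟩ := t1' h1 h2 h0 r r g1 (g2 ▸ hχ) (g2 ▸ ev) M0 dM
    exact (h.cj (cj_of_sim df z1)).left (h.cj (cj_of_sim df z2)) z3

theorem cj_blk_sim {P P' : End F W} (hP : DetFull P) (h : Sim P P') (R : Q →ₗ[F] W) {y B : End F Q} (h' : Sim y B) :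
    ∃ R', Cj (blk P R 0 y) (blk P' R' 0 B) := by
  obtain ⟨R', h1⟩ := cj_blk_of_sim hP R h'
  obtain ⟨c, h2, h3⟩ := cj_of_sim hP h
  obtain ⟨R'', h4⟩ := cj_blk (e := 1) (y := B) (B := B) R' h3 (by simp) (by simp [h2])
  exact ⟨R'', h1.trans h4⟩

theorem detFull_two [Finite F] (hd : finrank F V = 2) {y : End F V}
    (h : LinearMap.trace F V y ^ 2 ≠ 4 * LinearMap.det y) : DetFull y := by
  by_cases k : ∃ l, y.charpoly.eval l = 0
  · obtain ⟨l, hl⟩ := k
    have e := charpoly_two hd y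
    rw [e, eval_quad] at hl
    refine detFull_of_simple (irreducible_X_sub_C l) (monic_X_sub_C l) (isCoprime_X_sub_C_of_isUnit_sub
      (b := LinearMap.trace F V y - l) (IsUnit.mk0 _ fun k => h ?_)) (by
        rw [e, ← quad_eq_mul]; congr 1; ring; linear_combination hl)
    linear_combination (l - (LinearMap.trace F V y - l)) * k - 4 * hl
  · exact detFull_of_simple (R := 1) (irreducible_quad (d := LinearMap.det y) fun r hr => k ⟨r, by rw [charpoly_two hd, eval_quad]; linear_combination hr⟩)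
      (monic_quad _ _) isCoprime_one_right (by rw [mul_one, charpoly_two hd])

theorem pair_split [Finite F] (hF : Big F 4) (hd : finrank F V = 2) {y : End F V} (h0 : LinearMap.det y ≠ 0)
    (h : LinearMap.trace F V y ^ 2 ≠ 4 * LinearMap.det y) : ∃ (A B : End F V) (b b' : F), Sim y A ∧ Sim y B ∧
      (A * B).charpoly = (X - C b') * (X - C b) ∧ b ≠ b' ∧ ∀ (c : F) s, s ≠ 0 → A s = c • s → B s = c • s → c * c ≠ b := by
  have e := charpoly_two hd y
  have ns := not_scalar_of_disc hd e h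
  by_cases k : ∃ l l', l * l ≠ l' * l' ∧ y.charpoly = (X - C l') * (X - C l)
  · obtain ⟨l, l', k1, k2⟩ := k
    have k3 : l' ≠ l := by rintro rfl; exact k1 rfl
    let e := LinearEquiv.ofFinrankEq (R := F) (F × F) V (by simp [hd])
    have s : ∀ a : F, Sim y (e.conjAlgEquiv F (blk (sc l') (sc a) 0 (sc l))) := fun a => (sim_two hd ns (fun c hc => k3 (by
      have h1 := congrArg Prod.fst (LinearMap.congr_fun hc (1, 0))
      have h2 := congrArg Prod.snd (LinearMap.congr_fun hc (0, 1))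
      exact (by simpa using h1 : l' = c).trans (by simpa using h2 : l = c).symm)) (by rw [k2, charpoly_blk_upper, charpoly_sc, charpoly_sc])).trans ⟨e, rfl⟩
    refine ⟨_, _, l * l, l' * l', s 1, s 0, ?_, k1, fun c v v0 h1 h2 h3 => ?_⟩
    · rw [← map_mul, ← Sim.charpoly ⟨e, rfl⟩, blk_upper_mul, charpoly_blk_upper]
      simp only [sc, smul_mul_smul_comm, mul_one, charpoly_sc]
    · obtain ⟨⟨p, q⟩, rfl⟩ := e.surjective v
      have h4 := e.injective (show e (blk (sc l') (sc 1) 0 (sc l) (p, q)) = e (c • (p, q)) by rw [map_smul, ← h1]; simp)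
      have h5 := e.injective (show e (blk (sc l') (sc 0) 0 (sc l) (p, q)) = e (c • (p, q)) by rw [map_smul, ← h2]; simp)
      obtain rfl : q = 0 := by simpa using congrArg Prod.fst (h4.trans h5.symm)
      have p0 : p ≠ 0 := by rintro rfl; simp at v0
      obtain rfl : l' = c := by simpa [p0] using h5
      exact k1 h3.symm
  obtain ⟨b, b0, b1, b2⟩ := hF.exists_ne₃ 0 (LinearMap.det y) (-LinearMap.det y)
  obtain ⟨N, hN⟩ := exists_charpoly_quad hd (LinearMap.det y ^ 2 / b + b) (LinearMap.det y ^ 2 / b * b)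
  obtain ⟨n1, n2⟩ := tr_det hd hN
  have b3 : b ≠ LinearMap.det y ^ 2 / b := fun k => mul_ne_zero (sub_ne_zero.2 b1) (sub_ne_zero.2 b2) (by
    field_simp at k; linear_combination k)
  obtain ⟨A, B, a1, a2, rfl⟩ := two_fac hd hd ns h0 (n2.trans (div_mul_cancel₀ _ b0)) fun k =>
    b3 (sub_eq_zero.1 (pow_eq_zero_iff two_ne_zero |>.1 (by rw [n1, n2] at k; linear_combination k)))
  refine ⟨A, B, b, _, a1, a2, hN.trans (quad_eq_mul _ _), b3, fun c s s0 h1 _ h3 => k ⟨c, LinearMap.trace F V y - c, fun k' => ?_, ?_⟩⟩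
  all_goals have := root_of_sim a1 s0 h1; rw [e, eval_quad] at this
  · rcases mul_self_eq_mul_self_iff.1 k' with k' | k'
    · exact b1 (by linear_combination c * k' - this - h3)
    · exact b2 (by linear_combination c * k' + this - h3)
  · rw [e, ← quad_eq_mul]; congr 1; ring; linear_combination this

theorem base_four [Finite F] (hF : Big F 4) (hd : finrank F W = 2) (hd' : finrank F Q = 2) {y : End F W} {R : Q →ₗ[F] W}
    {y' : End F Q} {x : End F (W × Q)} (e : x = blk y R 0 y') (hx : LinearMap.det x ≠ 0)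
    (h : LinearMap.trace F W y ^ 2 ≠ 4 * LinearMap.det y) (h' : NSc y') : Cov (Cj x) (LinearMap.det x) ∅ 4 := by
  have x0 := hx
  rw [e, det_blk_upper] at x0
  obtain ⟨A, B, b, b', a1, a2, a3, a4, a5⟩ := pair_split hF hd (left_ne_zero_of_mul x0) h
  obtain ⟨s, hs⟩ := exists_ell_norm (pow_ne_zero 2 (right_ne_zero_of_mul x0))
  obtain ⟨N, hN⟩ := exists_charpoly_quad hd' s (LinearMap.det y' ^ 2)
  obtain ⟨n1, n2⟩ := tr_det hd' hN
  obtain ⟨A', B', c1, c2, rfl⟩ := two_fac hd' hd' h' (right_ne_zero_of_mul x0) n2 (by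
    rw [n1, n2]
    intro k
    rcases mul_self_eq_mul_self_iff.1 (show s * s = (2 * LinearMap.det y') * (2 * LinearMap.det y') by linear_combination k) with k | k
    · exact hs (LinearMap.det y') (by rw [k]; ring)
    · exact hs (-LinearMap.det y') (by rw [k]; ring))
  obtain ⟨R₁, r1⟩ := cj_blk_sim (detFull_two hd h) a1 R c1
  obtain ⟨R₂, r2⟩ := cj_blk_sim (detFull_two hd h) a2 R c2
  refine four_core (by simp [hd, hd']) hx (b := b) (b' := b') ⟨_, _, e ▸ r1, e ▸ r2, rfl, fun c v v0 h1 h2 h3 => ?_⟩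
    (by rw [blk_upper_mul, charpoly_blk_upper, a3, hN]; ring) hs a4
  have k : v.2 = 0 := by_contra fun k => ell_eval_ne hs b (hN ▸ isRoot_of_eigen k (by simpa using congrArg Prod.snd h3))
  rw [Module.End.mul_apply, h2, map_smul, h1, smul_smul] at h3
  exact a5 c v.1 (fun h => v0 (Prod.ext h k)) (by simpa [k] using congrArg Prod.fst h1) (by simpa [k] using congrArg Prod.fst h2)
    (smul_left_injective F v0 h3)

theorem base_jj [Finite F] (hF : Big F 4) {l : F} (hl : l ≠ 0) {x : End F ((F × F) × F × F)}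
    (e : x = (blk (sc l) (sc l) 0 (sc l)).prodMap (blk (sc l) (sc l) 0 (sc l))) : Cov (Cj x) (LinearMap.det x) ∅ 4 := fun M hM hM' => by
  obtain ⟨β, b0, b1, b2⟩ := hF.exists_ne₃ 0 1 (-1)
  obtain ⟨c, hc⟩ : ∃ c, c = (β - 1) ^ 2 / β := ⟨_, rfl⟩
  have c0 : c ≠ 0 := hc ▸ div_ne_zero (pow_ne_zero _ (sub_ne_zero.2 b1)) b0
  obtain ⟨s, s0, s1⟩ : ∃ s, s ≠ 0 ∧ c * s ^ 2 ≠ 1 := by
    by_cases h : c = 1
    · exact ⟨β, b0, fun k => mul_ne_zero (sub_ne_zero.2 b1) (sub_ne_zero.2 b2) (by rw [h] at k; linear_combination k)⟩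
    · exact ⟨1, one_ne_zero, by simpa using h⟩
  have d2 : finrank F (F × F) = 2 := by simp
  let N₁ := blk (sc l) (sc l) 0 (sc l) * blk (sc l) 0 (sc (l * c)) (sc l)
  let N₂ := blk (sc l) (sc l) 0 (sc l) * blk (sc l) (sc (-(l / (c * s ^ 2)))) 0 (sc l)
  have x1 : N₁.charpoly = (X - C (l * l * β)) * (X - C (l * l / β)) := by
    dsimp only [N₁]
    rw [charpoly_two d2, ← quad_eq_mul, map_mul LinearMap.det, det_blk_upper, det_blk_lower, blk_mul, trace_blk]
    congr 1
    · simp [hc, LinearMap.comp_smul, ← Module.End.mul_eq_comp]; field_simp; ring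
    · simp; field_simp
  have x2 : N₂.charpoly = (X - C (l * l)) * (X - C (l * l)) := by
    dsimp only [N₂]
    rw [blk_upper_mul, charpoly_blk_upper]
    simp only [sc, smul_mul_smul_comm, mul_one, charpoly_sc]
  have n1 : β ≠ β⁻¹ := fun k => mul_ne_zero (sub_ne_zero.2 b1) (sub_ne_zero.2 b2) (by field_simp at k; linear_combination k)
  have n2 : l * l * β ≠ l * l / β := by simpa [div_eq_mul_inv, hl] using n1
  have n3 : l * l * β ≠ l * l := by simpa [hl] using b1
  have n4 : l * l / β ≠ l * l := by simpa [div_eq_mul_inv, hl] using b1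
  have cp : ∀ {a b : F}, a ≠ b → IsCoprime (X - C a) (X - C b) := fun h => isCoprime_X_sub_C_of_isUnit_sub (sub_ne_zero.2 h).isUnit
  have r : Reg (N₁.prodMap N₂) := reg_of_cyc (Cyc.prodMap (v := (1, 0)) (w := (0, 1))
    (cyc_two d2 (by simp) fun t h => by simpa [N₁, hl, c0] using congrArg Prod.snd h)
    (cyc_two d2 (by simp) fun t h => s1 (by
      have := congrArg Prod.fst h
      simp [N₂] at this
      field_simp at this
      linear_combination (l ^ 2)⁻¹ * this + (1 - c * s ^ 2) * mul_inv_cancel₀ (pow_ne_zero 2 hl)))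
    (by rw [x1, x2]; exact ((cp n3).mul_right (cp n3)).mul_left ((cp n4).mul_right (cp n4))))
  have x3 : (N₁.prodMap N₂).charpoly = (X - C (l * l * β)) * ((X - C (l * l / β)) * ((X - C (l * l)) * (X - C (l * l)))) := by
    rw [prodMap_eq_blk, charpoly_blk_upper, x1, x2, mul_assoc]
  have df := detFull_of_simple (irreducible_X_sub_C _) (monic_X_sub_C _) ((cp n2).mul_right ((cp n3).mul_right (cp n3))) x3
  have e' : N₁.prodMap N₂ = x * (blk (sc l) 0 (sc (l * c)) (sc l)).prodMap (blk (sc l) (sc (-(l / (c * s ^ 2)))) 0 (sc l)) := by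
    rw [e]; rfl
  have tw : Tw x (l * l * β) (N₁.prodMap N₂) := by
    refine ⟨x, _, Cj.refl x,
      ⟨(blk 0 (sc 1) (sc c) 0).prodMap (blk (sc (-(c * s)⁻¹)) 0 0 (sc s)), ?_, ?_⟩, e', fun a v v0 h1 h2 h3 => n3 ?_⟩
    · have := congrArg Prod.fst (cayley_two d2 (blk 0 (sc 1) (sc c) 0) (1, 0))
      rw [trace_blk] at this
      rw [LinearMap.det_prodMap, det_blk_upper, det_sc, det_sc, show LinearMap.det (blk 0 (sc 1) (sc c) 0) = -c by
        simpa [eq_comm, neg_eq_iff_eq_neg, -one_smul] using this]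
      field_simp
    · rw [e]; ext <;> simp [mul_comm]; field_simp
    · have := isRoot_of_eigen v0 h1
      rw [e, prodMap_eq_blk] at this
      simp only [charpoly_blk_upper, charpoly_sc, eval_mul, eval_sub, eval_X, eval_C, mul_eq_zero, or_self, sub_eq_zero] at this
      rw [e', Module.End.mul_apply, h2, map_smul, h1, smul_smul, this] at h3
      exact (smul_left_injective F v0 h3).symm
  have x0 : LinearMap.det x ≠ 0 := by simp [e, LinearMap.det_prodMap, det_blk_upper, hl]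
  obtain ⟨N', Z, z1, z2, rfl, z3⟩ := t1s' hM' r r (r := fun i => match i with | 0 => l * l * β | 1 => l * l / β | _ + 2 => l * l)
    (fun i => by rcases i with _ | i; exacts [n2.symm, n3.symm]) (by simp [x3, Finset.prod_range_succ, mul_assoc])
    (hM ▸ pow_ne_zero _ x0) (by rw [hM, tw.det, ← pow_add])
  exact (tw.cj (cj_of_sim df z1)).left (tw.cj (cj_of_sim df z2)) z3

end Cfsg.Agent.CovN
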