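import Cfsg.Agent.CovN.Reg

/-!
Hessenberg flags; a non-scalar map times a regular class contains a split regular class.
-/

set_option autoImplicit false
set_option linter.unusedSectionVars false

open Polynomial Module

namespace Cfsg.Agent.CovN

open Cfsg.Agent.GLn Cfsg.Agent.Fac

variable {F : Type*} [Field F] {V W : Type*} [AddCommGroup V] [Module F V] [AddCommGroup W] [Module F W]

def Hess (φ : ℕ → V →ₗ[F] F) (A : End F V) (K : ℕ → Prop) : Prop :=
  ∀ j, j + 1 < finrank F V → ∀ v, (∀ i ≤ j, φ i v = 0) → (K j → φ j (A v) = φ (j + 1) v) ∧ (¬ K j → φ j (A v) = 0)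

def Sep (φ : ℕ → V →ₗ[F] F) : Prop := ∀ v, (∀ i < finrank F V, φ i v = 0) → v = 0

theorem crit {φ : ℕ → V →ₗ[F] F} {P N : End F V} {K K' : ℕ → Prop} (hs : Sep φ) (hP : Hess φ P K) (hN : Hess φ N K')
    (hK : ∀ j, j + 1 < finrank F V → (K' j ↔ ¬ K j)) {S : Submodule F V} (h0 : ∀ s ∈ S, φ 0 s = 0)
    (h1 : ∀ s ∈ S, ∃ t ∈ S, P s = N t) (h2 : ∀ s ∈ S, ∃ t ∈ S, N s = P t) : S = ⊥ := by
  have key : ∀ j < finrank F V, ∀ s ∈ S, ∀ i ≤ j, φ i s = 0 := fun j => by
    induction j with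
    | zero => exact fun _ s hs i hi => Nat.le_zero.1 hi ▸ h0 s hs
    | succ j ih =>
      intro hj s hs i hi
      rcases hi.eq_or_lt with rfl | hi
      swap
      · exact ih (by omega) s hs i (by omega)
      by_cases h : K j
      · obtain ⟨t, ht, e⟩ := h1 s hs
        rw [← (hP j hj s (ih (by omega) s hs)).1 h, e, (hN j hj t (ih (by omega) t ht)).2 (by simp [hK j hj, h])]
      · obtain ⟨t, ht, e⟩ := h2 s hs
        rw [← (hN j hj s (ih (by omega) s hs)).1 ((hK j hj).2 h), e, (hP j hj t (ih (by omega) t ht)).2 h]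
  exact eq_bot_iff.2 fun s h => hs s fun i hi => key i hi s h i le_rfl

variable [FiniteDimensional F V] [FiniteDimensional F W]

theorem exists_hess (P : End F V) {φ₀ : V →ₗ[F] F} (h0 : ∃ v, φ₀ v = 0 ∧ φ₀ (P v) ≠ 0) :
    ∃ φ K, φ 0 = φ₀ ∧ K 0 ∧ Sep φ ∧ Hess φ P K := by
  have : ∀ (ψ : V →ₗ[F] F) (G : Submodule F V), ∃ ψ' : V →ₗ[F] F, (G ≠ ⊥ → ∃ v ∈ G, ψ' v ≠ 0) ∧
      ((∃ v ∈ G, ψ (P v) ≠ 0) → ψ' = ψ ∘ₗ P) := fun ψ G => by
    by_cases h : ∃ v ∈ G, ψ (P v) ≠ 0
    · exact ⟨ψ ∘ₗ P, fun _ => h, fun _ => rfl⟩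
    by_cases h' : G = ⊥
    · exact ⟨0, fun h => (h h').elim, fun k => (h k).elim⟩
    obtain ⟨v, h1, h2⟩ := (Submodule.ne_bot_iff _).1 h'
    obtain ⟨ω, h3⟩ := not_forall.1 (mt (Module.forall_dual_apply_eq_zero_iff F v).1 h2)
    exact ⟨ω, fun _ => ⟨v, h1, h3⟩, fun k => (h k).elim⟩
  choose nx h1 h2 using this
  let st : ℕ → (V →ₗ[F] F) × Submodule F V := fun j => Nat.rec (φ₀, LinearMap.ker φ₀)
    (fun _ x => (nx x.1 x.2, x.2 ⊓ LinearMap.ker (nx x.1 x.2))) j
  have e1 : ∀ j, (st (j + 1)).1 = nx (st j).1 (st j).2 := fun _ => rfl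
  have e2 : ∀ j, (st (j + 1)).2 = (st j).2 ⊓ LinearMap.ker (st (j + 1)).1 := fun _ => rfl
  have e3 : ∀ j v, v ∈ (st j).2 ↔ ∀ i ≤ j, (st i).1 v = 0 := fun j v => by
    induction j with
    | zero => simp [st]
    | succ j ih => rw [e2, Submodule.mem_inf, ih, LinearMap.mem_ker]
                   exact ⟨fun h i hi => hi.eq_or_lt.elim (· ▸ h.2) fun k => h.1 i (by omega), fun h => ⟨fun i hi => h i (by omega), h _ le_rfl⟩⟩
  have e4 : ∀ j, (st j).2 = ⊥ ∨ finrank F (st j).2 + j < finrank F V := fun j => by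
    induction j with
    | zero =>
      obtain ⟨v, -, h⟩ := h0
      exact Or.inr (Submodule.finrank_lt fun e => h (LinearMap.mem_ker.1 ((show LinearMap.ker φ₀ = ⊤ from e) ▸ Submodule.mem_top)))
    | succ j ih =>
      by_cases h : (st j).2 = ⊥
      · exact Or.inl (by rw [e2, h, bot_inf_eq])
      obtain ⟨v, k1, k2⟩ := h1 (st j).1 _ h
      have := Submodule.finrank_lt_finrank_of_lt (show (st (j + 1)).2 < (st j).2 from
        lt_of_le_of_ne inf_le_left fun e => k2 (e ▸ k1 : v ∈ (st (j + 1)).2).2)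
      have := ih.resolve_left h
      omega
  refine ⟨fun j => (st j).1, fun j => ∃ v ∈ (st j).2, (st j).1 (P v) ≠ 0, rfl, h0, fun v hv => ?_, fun j _ v hv =>
    ⟨fun h => by simp only [e1, h2 _ _ h]; rfl, fun h => by_contra fun k => h ⟨v, (e3 j v).2 hv, k⟩⟩⟩
  have n0 := (e4 0).resolve_left
  have : (st (finrank F V - 1)).2 = ⊥ := (e4 _).elim id fun h => Submodule.finrank_eq_zero.1 (by omega)
  rcases Nat.eq_zero_or_pos (finrank F V) with h | h
  · exact (finrank_zero_iff_forall_zero.1 h) v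
  exact (Submodule.mem_bot F).1 (this ▸ (e3 _ v).2 fun i hi => hv i (by omega))

/-- a chain of divisors adapted to the pattern `K` -/
structure Chain (n : ℕ) (K : ℕ → Prop) (χ : F[X]) (g : ℕ → F[X]) : Prop where
  monic : ∀ l < n, ¬ K l → (g l).Monic
  deg : ∀ l < n, ¬ K l → (g l).natDegree + (l + 1) = n
  dvd : ∀ l < n, ¬ K l → g l ∣ χ ∧ ∀ l' < l, ¬ K l' → g l ∣ g l'

theorem exists_hess_reg {N : End F V} {θ : V →ₗ[F] F} (h : Obs N θ) {K : ℕ → Prop} (hK : ∀ j, K j → j + 1 < finrank F V)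
    (h0 : ¬ K 0) {g : ℕ → F[X]} (hg : Chain (finrank F V) K N.charpoly g) :
    ∃ φ, φ 0 = θ ∘ₗ aeval N (g 0) ∧ Sep φ ∧ Hess φ N K := by
  classical
  have x1 : ∀ j, ∃ l, j ≤ l ∧ ¬ K l := fun j => ⟨j + finrank F V, by omega, fun h => by have := hK _ h; omega⟩
  have x2 : ∀ j, ∃ a, ∀ k, a ≤ k → k < j → K k := fun j => ⟨j, fun k h1 h2 => by omega⟩
  let φ : ℕ → V →ₗ[F] F := fun j => θ ∘ₗ aeval N (g (Nat.find (x1 j)) * X ^ (j - Nat.find (x2 j)))
  have l1 : ∀ j, Nat.find (x2 j) ≤ j := fun j => Nat.find_le fun k h1 h2 => by omega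
  have c : ∀ j i, ¬ K j → Nat.find (x2 j) ≤ i → i ≤ j → φ i = θ ∘ₗ aeval N (g j * X ^ (i - Nat.find (x2 j))) := by
    intro j i hj h1 h2
    have s := Nat.find_spec (x2 j)
    have e1 : Nat.find (x1 i) = j := (Nat.find_eq_iff _).2 ⟨⟨h2, hj⟩, fun m hm k => k.2 (s m (by omega) hm)⟩
    have e2 : Nat.find (x2 i) = Nat.find (x2 j) := (Nat.find_eq_iff _).2 ⟨fun k k1 k2 => s k k1 (by omega),
      fun m hm k => Nat.find_min (x2 j) hm fun a a1 a2 => if h : a < i then k a a1 h else s a (by omega) a2⟩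
    simp only [φ, e1, e2]
  have a : ∀ j, K j → ∀ v, φ j (N v) = φ (j + 1) v := fun j hj v => by
    have s := Nat.find_spec (x1 (j + 1))
    have e1 : Nat.find (x1 j) = Nat.find (x1 (j + 1)) := (Nat.find_eq_iff _).2 ⟨⟨by omega, s.2⟩, fun m hm k =>
      if h : m = j then k.2 (h ▸ hj) else Nat.find_min (x1 (j + 1)) hm ⟨by omega, k.2⟩⟩
    have e2 : Nat.find (x2 (j + 1)) = Nat.find (x2 j) := (Nat.find_eq_iff _).2 ⟨fun k k1 k2 =>
      if h : k = j then h ▸ hj else Nat.find_spec (x2 j) k k1 (by omega),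
      fun m hm k => Nat.find_min (x2 j) hm fun a a1 a2 => k a a1 (by omega)⟩
    simp only [φ, e1, e2, Nat.succ_sub (l1 j), pow_succ, ← mul_assoc, map_mul, aeval_X]
    rfl
  have b : ∀ j < finrank F V, ¬ K j → ∀ v, (∀ i ≤ j, φ i v = 0) → φ j (N v) = 0 := fun j hj hj' v hv => by
    obtain ⟨G, g1, g2, g3, g4⟩ : ∃ G : F[X], G.Monic ∧ G.natDegree + Nat.find (x2 j) = finrank F V ∧ g j ∣ G ∧
        θ (aeval N G v) = 0 := by
      rcases ha : Nat.find (x2 j) with _ | a
      · exact ⟨N.charpoly, N.charpoly_monic, by simp [LinearMap.charpoly_natDegree], (hg.dvd j hj hj').1, by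
          simp [LinearMap.aeval_self_charpoly]⟩
      have := l1 j
      have k : ¬ K a := fun k => Nat.find_min (x2 j) (m := a) (by omega) fun m m1 m2 =>
        if h : m = a then h ▸ k else Nat.find_spec (x2 j) m (by omega) m2
      refine ⟨g a, hg.monic a (by omega) k, hg.deg a (by omega) k, (hg.dvd j hj hj').2 a (by omega) k, ?_⟩
      simpa [c a _ k le_rfl (l1 a)] using hv _ ((l1 a).trans (by omega))
    obtain ⟨f, rfl⟩ := g3
    have m1 := hg.monic j hj hj'
    have m2 := m1.of_mul_monic_left g1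
    have := hg.deg j hj hj'
    have := l1 j
    have d : f.natDegree = j - Nat.find (x2 j) + 1 := by rw [m1.natDegree_mul m2] at g2; omega
    have := aeval_monic (A := N) m2 (v := v) (ω := θ ∘ₗ aeval N (g j)) fun i hi => by
      simpa [c j (Nat.find (x2 j) + i) hj' (by omega) (by omega)] using hv (Nat.find (x2 j) + i) (by omega)
    rw [c j j hj' (l1 j) le_rfl]
    simpa [← g4, d, pow_succ] using this.symm
  refine ⟨φ, by simpa using c 0 0 h0 (l1 0) le_rfl, fun v hv => ?_, fun j hj v hv => ⟨fun h => a j h v, fun h => b j (by omega) h v hv⟩⟩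
  rcases hn : finrank F V with _ | n
  · exact (finrank_zero_iff_forall_zero.1 hn) v
  have k : ¬ K n := fun k => by have := hK n k; omega
  have := h (⨅ i : Fin (finrank F V), LinearMap.ker (φ i)) (fun s hs => ?_) fun s hs => ?_
  · exact (Submodule.mem_bot F).1 (this ▸ by simpa [Submodule.mem_iInf] using fun i : Fin _ => hv i i.2)
  all_goals simp only [Submodule.mem_iInf, LinearMap.mem_ker] at hs ⊢
  · intro i
    by_cases h : K i
    · exact (a i h s).trans (hs ⟨i + 1, hK i h⟩)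
    · exact b i i.2 h s fun m hm => hs ⟨m, by omega⟩
  · have := l1 n
    have e := (hg.monic n (by omega) k).natDegree_eq_zero.1 (by have := hg.deg n (by omega) k; omega)
    simpa [c n _ k le_rfl (l1 n), e] using hs ⟨Nat.find (x2 n), by omega⟩

/-- the extra information used to exclude common invariant subspaces -/
def Wit (P N : End F V) (b : F) : Prop :=
  (∀ S : Submodule F V, (∀ s ∈ S, P s ∈ S) → (∀ s ∈ S, N s ∈ S) → S ≠ ⊥ → ∃ s ∈ S, s ≠ 0 ∧ N s = b • s) ∧
    ∀ s t, s ≠ 0 → N s = b • s → N t = b • t → ∃ c : F, t = c • s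

theorem onto_of_inv {A : End F V} (h : LinearMap.det A ≠ 0) {S : Submodule F V} (hS : ∀ s ∈ S, A s ∈ S) :
    ∀ s ∈ S, ∃ t ∈ S, A t = s := fun s hs => by
  obtain ⟨B, h1, h2⟩ := exists_inv h
  exact ⟨B s, inv_of_inv h2 hS s hs, LinearMap.congr_fun h1 s⟩

theorem det_of_charpoly {A : End F V} {B : End F W} (h : A.charpoly = B.charpoly) : LinearMap.det A = LinearMap.det B := by
  rw [LinearMap.det_eq_sign_charpoly_coeff, LinearMap.det_eq_sign_charpoly_coeff, h, ← LinearMap.charpoly_natDegree A,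
    ← LinearMap.charpoly_natDegree B, h]

theorem t1 {φ : ℕ → V →ₗ[F] F} {P Y N₀ : End F V} {K : ℕ → Prop} (hs : Sep φ) (hP : Hess φ P K) (h0 : K 0)
    (hY : Reg Y) (hN : Reg N₀) {b : F} {g : ℕ → F[X]} (hg : Chain (finrank F V) (fun j => ¬ K j ∧ j + 1 < finrank F V) N₀.charpoly g)
    (hχ : N₀.charpoly = g 0 * (X - C b)) (hb : (g 0).eval b ≠ 0) (hd0 : LinearMap.det N₀ ≠ 0)
    (hd : LinearMap.det N₀ = LinearMap.det P * LinearMap.det Y) :
    ∃ Z, Sim Y Z ∧ Sim N₀ (P * Z) ∧ Wit P (P * Z) b := by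
  obtain ⟨θ, hθ⟩ := hN
  obtain ⟨φ', k0, k1, k2⟩ := exists_hess_reg hθ (fun _ h => h.2) (by simp [h0]) hg
  have inj : ∀ φ : ℕ → V →ₗ[F] F, Sep φ → Function.Bijective (LinearMap.pi fun i : Fin (finrank F V) => φ i) := fun φ h => by
    have : Function.Injective (LinearMap.pi fun i : Fin (finrank F V) => φ i) :=
      (injective_iff_map_eq_zero _).2 fun v hv => h v fun i hi => congrFun hv ⟨i, hi⟩
    exact ⟨this, (LinearMap.injective_iff_surjective_of_finrank_eq_finrank (by simp)).1 this⟩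
  let e := LinearEquiv.ofBijective _ (inj φ' k1) ≪≫ₗ (LinearEquiv.ofBijective _ (inj φ hs)).symm
  have he : ∀ i < finrank F V, ∀ v, φ i (e v) = φ' i v := fun i hi v =>
    congrFun ((LinearEquiv.ofBijective _ (inj φ hs)).apply_symm_apply (LinearEquiv.ofBijective _ (inj φ' k1) v)) ⟨i, hi⟩
  have n0 : 0 < finrank F V := by
    rw [← LinearMap.charpoly_natDegree N₀, hχ, natDegree_mul (by rintro h; simp [h] at hb) (X_sub_C_ne_zero b)]; simp
  obtain ⟨N, s1, hN⟩ : ∃ N, Sim N₀ N ∧ ∀ v, N (e v) = e (N₀ v) := ⟨e.conjAlgEquiv F N₀, ⟨e, rfl⟩, by simp⟩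
  have k3 : Hess φ N fun j => ¬ K j ∧ j + 1 < finrank F V := fun j hj v hv => by
    obtain ⟨v, rfl⟩ := e.surjective v
    rw [hN, he j (by omega), he _ hj]
    exact k2 j hj v fun i hi => by rw [← he i (by omega), hv i hi]
  have k4 : ∀ v, φ 0 (N v) = b * φ 0 v := fun v => by
    obtain ⟨v, rfl⟩ := e.surjective v
    have := congrArg θ (LinearMap.congr_fun (hχ ▸ N₀.aeval_self_charpoly) v)
    rw [hN, he 0 n0, he 0 n0, k0]
    simpa [sub_eq_zero] using this
  have k5 : ∀ v, φ 0 v = 0 → N v = b • v → v = 0 := fun v h1 h2 => by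
    obtain ⟨v, rfl⟩ := e.surjective v
    rw [hN, ← map_smul, e.injective.eq_iff] at h2
    rw [he 0 n0, k0, LinearMap.comp_apply, Module.End.aeval_apply_of_mem_apply_eq_smul h2, map_smul, smul_eq_mul,
      mul_eq_zero, or_iff_right hb] at h1
    have := hθ (F ∙ v) (fun s hs => ?_) fun s hs => ?_
    · rw [Submodule.span_singleton_eq_bot.1 this, map_zero]
    all_goals obtain ⟨c, rfl⟩ := Submodule.mem_span_singleton.1 hs
    · rw [map_smul, h2, smul_smul]; exact Submodule.smul_mem _ _ (Submodule.mem_span_singleton_self v)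
    · simp [h1]
  have dP : LinearMap.det P ≠ 0 := left_ne_zero_of_mul (hd ▸ hd0)
  have dN : LinearMap.det N ≠ 0 := s1.det ▸ hd0
  obtain ⟨P', p1, p2⟩ := exists_inv dP
  have q1 : ∀ v, P (P' v) = v := LinearMap.congr_fun p1
  have cr := fun S => crit hs hP k3 (fun j hj => by simp [hj]) (S := S)
  have ob : Obs (P' * N) (φ 0) := fun S h1 h2 => cr S h2 (fun s hs => by
      obtain ⟨t, ht, rfl⟩ := onto_of_inv (by simp [dN, left_ne_zero_of_mul_eq_one (map_mul LinearMap.det P' P ▸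
        (congrArg _ p2).trans (map_one _))]) h1 s hs
      exact ⟨t, ht, q1 _⟩) fun s hs => ⟨_, h1 s hs, (q1 _).symm⟩
  obtain ⟨r, hr⟩ := ob.pole Y.charpoly_monic Y.charpoly_natDegree
  have s2 := sim_of_reg hY ⟨_, ob.add r⟩ hr.symm
  have e1 : P * (P' * N + (φ 0).smulRight r) = N + (φ 0).smulRight (P r) := by ext v; simp [q1]
  have r0 : φ 0 (P r) = 0 := by
    obtain ⟨N', n1, n2⟩ := exists_inv dN
    have : N + (φ 0).smulRight (P r) = N * (1 + (φ 0).smulRight (N' (P r))) := by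
      ext v; simp [← Module.End.mul_apply N N', n1]
    have := congrArg LinearMap.det (e1.trans this)
    rw [map_mul, ← s2.det, ← hd, s1.det, map_mul, det_rank_one, eq_comm, mul_eq_left₀ dN, add_eq_left] at this
    rw [← Module.End.one_apply (R := F) (P r), ← n1, Module.End.mul_apply, k4, this, mul_zero]
  obtain ⟨y, hy⟩ := LinearMap.injective_iff_surjective.1 (show Function.Injective ((b • 1 - N).restrict
    (p := LinearMap.ker (φ 0)) (q := LinearMap.ker (φ 0)) fun v hv => by simp [k4, LinearMap.mem_ker.1 hv]) from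
      (injective_iff_map_eq_zero _).2 fun v hv => Subtype.ext (k5 v v.2
        (sub_eq_zero.1 (congrArg Subtype.val hv)).symm)) ⟨P r, r0⟩
  have y1 : b • y.1 - N y = P r := congrArg Subtype.val hy
  have y0 : φ 0 y = 0 := y.2
  refine ⟨_, s2, e1 ▸ s1.trans (sim_of_det (g := 1 + (φ 0).smulRight y.1) (by simp [det_tv y0]) ?_), e1 ▸ ⟨fun S h1 h2 h3 => ?_, ?_⟩⟩
  · ext v
    simp [k4, y0, ← y1, smul_sub, smul_smul, mul_comm]
  · by_contra! h4
    have z : ∀ s ∈ S, φ 0 s = 0 := fun s hs => by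
      obtain ⟨t, ht⟩ := LinearMap.injective_iff_surjective.1 (show Function.Injective ((N + (φ 0).smulRight (P r) - b • 1).restrict
        (p := S) (q := S) fun v hv => sub_mem (h2 v hv) (S.smul_mem b hv)) from
          (injective_iff_map_eq_zero _).2 fun v hv => Subtype.ext (by_contra fun h => h4 v v.2 h
            (sub_eq_zero.1 (congrArg Subtype.val hv)))) ⟨s, hs⟩
      rw [show s = _ from (congrArg Subtype.val ht).symm]
      simp [k4, r0]
    have h5 : ∀ s ∈ S, N s ∈ S := fun s hs => by simpa [z s hs] using h2 s hs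
    exact h3 (cr S z (fun s hs => (onto_of_inv dN h5 _ (h1 s hs)).imp fun _ h => ⟨h.1, h.2.symm⟩)
      fun s hs => (onto_of_inv dP h1 _ (h5 s hs)).imp fun _ h => ⟨h.1, h.2.symm⟩)
  · have k6 : ∀ v, φ 0 v = 0 → (N + (φ 0).smulRight (P r)) v = b • v → v = 0 := fun v h1 h2 => k5 v h1 (by simpa [h1] using h2)
    intro s t s0 h1 h2
    have h3 : φ 0 s ≠ 0 := fun h => s0 (k6 s h h1)
    exact ⟨φ 0 t / φ 0 s, sub_eq_zero.1 (k6 _ (by simp [h3]) (by rw [map_sub, map_smul, h1, h2, smul_sub, smul_comm]))⟩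

end Cfsg.Agent.CovN
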