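import Cfsg.Agent.CovN.Basic

/-!
Lifting factorisations through an invariant subspace.
-/

set_option autoImplicit false
set_option linter.unusedSectionVars false

open Polynomial Module

namespace Cfsg.Agent.CovN

open Cfsg.Agent.GLn Cfsg.Agent.Fac

variable {F : Type*} [Field F] {W Q : Type*} [AddCommGroup W] [Module F W] [AddCommGroup Q] [Module F Q]
  [FiniteDimensional F W] [FiniteDimensional F Q]

theorem eq_zero_of_trace {Z : W →ₗ[F] Q} (h : ∀ Y : Q →ₗ[F] W, LinearMap.trace F W (Y ∘ₗ Z) = 0) : Z = 0 :=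
  LinearMap.ext fun w => (Module.forall_dual_apply_eq_zero_iff F _).1 fun θ => by
    have := h (θ.smulRight w)
    rwa [show θ.smulRight w ∘ₗ Z = (θ ∘ₗ Z).smulRight w from rfl, LinearMap.trace_smulRight] at this

theorem exists_trace_rep (ω : (Q →ₗ[F] W) →ₗ[F] F) : ∃ Z : W →ₗ[F] Q, ∀ Y, ω Y = LinearMap.trace F W (Y ∘ₗ Z) := by
  let f : (W →ₗ[F] Q) →ₗ[F] Module.Dual F (Q →ₗ[F] W) :=
    LinearMap.mk₂ F (fun Z Y => LinearMap.trace F W (Y ∘ₗ Z)) (by simp [LinearMap.comp_add]) (by simp [LinearMap.comp_smul])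
      (by simp [LinearMap.add_comp]) (by simp [LinearMap.smul_comp])
  have h : Function.Injective f := (injective_iff_map_eq_zero _).2 fun Z hZ => eq_zero_of_trace fun Y => LinearMap.congr_fun hZ Y
  obtain ⟨Z, hZ⟩ := (LinearMap.injective_iff_surjective_of_finrank_eq_finrank (by
    simp [Module.finrank_linearMap, mul_comm])).1 h ω
  exact ⟨Z, fun Y => (LinearMap.congr_fun hZ Y).symm⟩

theorem cj_corner (P : End F W) (R Y : Q →ₗ[F] W) (B : End F Q) :
    Cj (blk P R 0 B) (blk P (R + (Y ∘ₗ B - P ∘ₗ Y)) 0 B) :=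
  ⟨blk 1 Y 0 1, by simp [det_blk_upper], by ext x <;> simp; abel⟩

theorem lift_aux {r : End F (W × Q) → Prop} (hr : ∀ A B, r A → Cj A B → r B) (L : List (End F W × End F Q))
    (hL : ∀ p ∈ L, ∃ R, r (blk p.1 R 0 p.2)) :
    ∃ (R₀ : Q →ₗ[F] W) (Λ : Submodule F (Q →ₗ[F] W)), (∀ E ∈ Λ, ∃ L' : List (End F (W × Q)), L'.length = L.length ∧
      (∀ A ∈ L', r A) ∧ (∀ p ∈ L, ∃ R, blk p.1 R 0 p.2 ∈ L') ∧
        L'.prod = blk (L.map Prod.fst).prod (R₀ + E) 0 (L.map Prod.snd).prod) ∧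
      ∀ Z : W →ₗ[F] Q, (∀ E ∈ Λ, LinearMap.trace F W (E ∘ₗ Z) = 0) →
        ∀ p ∈ L, p.2 ∘ₗ (L.map Prod.snd).prod ∘ₗ Z = ((L.map Prod.snd).prod ∘ₗ Z) ∘ₗ p.1 := by
  induction L with
  | nil => exact ⟨0, ⊥, fun E hE => ⟨[], rfl, by simp, by simp, by rw [(Submodule.mem_bot F).1 hE]; ext x <;> simp⟩, by simp⟩
  | cons p L ih =>
    obtain ⟨R₀, Λ, h1, h2⟩ := ih fun q hq => hL q (List.mem_cons_of_mem _ hq)
    obtain ⟨R, hR⟩ := hL p List.mem_cons_self
    obtain ⟨P, B⟩ := p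
    set B' := (L.map Prod.snd).prod
    let Λ' : Submodule F (Q →ₗ[F] W) :=
      { carrier := {E | ∃ E' ∈ Λ, ∃ Y : Q →ₗ[F] W, E = P ∘ₗ E' + (Y ∘ₗ B - P ∘ₗ Y) ∘ₗ B'}
        zero_mem' := ⟨0, zero_mem _, 0, by simp⟩
        add_mem' := by
          rintro _ _ ⟨E, hE, Y, rfl⟩ ⟨E', hE', Y', rfl⟩
          exact ⟨E + E', add_mem hE hE', Y + Y', by ext; simp; abel⟩
        smul_mem' := by
          rintro c _ ⟨E, hE, Y, rfl⟩
          exact ⟨c • E, Λ.smul_mem c hE, c • Y, by ext; simp [smul_sub]⟩ }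
    refine ⟨P ∘ₗ R₀ + R ∘ₗ B', Λ', ?_, fun Z hZ => ?_⟩
    · rintro _ ⟨E, hE, Y, rfl⟩
      obtain ⟨L', k1, k2, k3, k4⟩ := h1 E hE
      refine ⟨blk P (R + (Y ∘ₗ B - P ∘ₗ Y)) 0 B :: L', by simp [k1], ?_, ?_, ?_⟩
      · simpa [hr _ _ hR (cj_corner P R Y B)] using k2
      · rintro q hq
        rcases List.mem_cons.1 hq with rfl | hq
        · exact ⟨_, List.mem_cons_self⟩
        · exact (k3 q hq).imp fun _ h => List.mem_cons_of_mem _ h
      · rw [List.prod_cons, k4, blk_upper_mul]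
        congr 1
        ext; simp; abel
    · have e1 := h2 (Z ∘ₗ P) fun E hE => by
        rw [← hZ _ ⟨E, hE, 0, rfl⟩, ← LinearMap.comp_assoc, LinearMap.trace_comp_comm']; simp [LinearMap.comp_assoc]
      have e2 : B ∘ₗ B' ∘ₗ Z - B' ∘ₗ Z ∘ₗ P = 0 := eq_zero_of_trace fun Y => by
        rw [← hZ _ ⟨0, zero_mem _, Y, rfl⟩]
        simp only [LinearMap.comp_sub, LinearMap.sub_comp, map_sub, LinearMap.comp_zero, zero_add, LinearMap.comp_assoc]
        rw [LinearMap.trace_comp_comm' _ P]; simp only [LinearMap.comp_assoc]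
      have e3 : (((P, B) :: L).map Prod.snd).prod ∘ₗ Z = B' ∘ₗ Z ∘ₗ P := sub_eq_zero.1 e2
      rw [e3]
      intro q hq
      rcases List.mem_cons.1 hq with rfl | hq
      · exact congrArg (· ∘ₗ P) (sub_eq_zero.1 e2)
      · exact e1 q hq

theorem lift {r : End F (W × Q) → Prop} (hr : ∀ A B, r A → Cj A B → r B) (L : List (End F W × End F Q))
    (hL : ∀ p ∈ L, ∃ R, r (blk p.1 R 0 p.2)) (h0 : LinearMap.det (L.map Prod.snd).prod ≠ 0)
    (hZ : ∀ Z : W →ₗ[F] Q, (∀ p ∈ L, p.2 ∘ₗ Z = Z ∘ₗ p.1) → Z = 0) (R : Q →ₗ[F] W) :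
    ∃ L' : List (End F (W × Q)), L'.length = L.length ∧ (∀ A ∈ L', r A) ∧ (∀ p ∈ L, ∃ R, blk p.1 R 0 p.2 ∈ L') ∧
        L'.prod = blk (L.map Prod.fst).prod R 0 (L.map Prod.snd).prod := by
  obtain ⟨R₀, Λ, h1, h2⟩ := lift_aux hr L hL
  have : Λ = ⊤ := by
    by_contra h
    obtain ⟨ω, h3, h4⟩ := Λ.exists_le_ker_of_lt_top (lt_top_iff_ne_top.2 h)
    obtain ⟨Z, h5⟩ := exists_trace_rep ω
    have h6 := hZ _ (h2 Z fun E hE => (h5 E).symm.trans (h4 hE))
    obtain rfl : Z = 0 := LinearMap.ext fun w => injective_of_det h0 (by simpa using LinearMap.congr_fun h6 w)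
    exact h3 (LinearMap.ext fun Y => by simp [h5])
  simpa using h1 (R - R₀) (this ▸ Submodule.mem_top)

theorem snd_eq_zero {μ : Set F} {L : List (End F W × End F Q)} {L' : List (End F (W × Q))}
    (h : ∀ p ∈ L, ∃ R, blk p.1 R 0 p.2 ∈ L') (hN : NC μ (L.map Prod.snd)) {S : Submodule F (W × Q)}
    (h1 : ∀ A ∈ L', ∀ s ∈ S, A s ∈ S) (h2 : ∀ A ∈ L', ∀ B ∈ L', ∀ s ∈ S, A s = B s)
    (h3 : ∀ a ∈ μ, ∀ A ∈ L', ∀ s ∈ S, A s = a • s) : ∀ s ∈ S, s.2 = 0 := by
  have := hN (S.map (LinearMap.snd F W Q)) ?_ ?_ ?_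
  · exact fun s hs => (Submodule.mem_bot F).1 (this ▸ Submodule.mem_map_of_mem hs)
  all_goals simp only [List.mem_map, forall_exists_index, and_imp, forall_apply_eq_imp_iff₂, Submodule.mem_map]
  · intro p hp s hs
    obtain ⟨R, hR⟩ := h p hp
    exact ⟨_, h1 _ hR s hs, by simp⟩
  · intro p hp q hq s hs
    obtain ⟨R, hR⟩ := h p hp
    obtain ⟨R', hR'⟩ := h q hq
    simpa using congrArg Prod.snd (h2 _ hR _ hR' s hs)
  · intro a ha p hp s hs
    obtain ⟨R, hR⟩ := h p hp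
    simpa using congrArg Prod.snd (h3 a ha _ hR s hs)

theorem nc_blk {μ : Set F} {L : List (End F W × End F Q)} {L' : List (End F (W × Q))}
    (h : ∀ p ∈ L, ∃ R, blk p.1 R 0 p.2 ∈ L') (hN : NC μ (L.map Prod.snd)) (hN' : NC μ (L.map Prod.fst)) : NC μ L' := by
  intro S h1 h2 h3
  have k := snd_eq_zero h hN h1 h2 h3
  have := hN' (S.comap (LinearMap.inl F W Q)) ?_ ?_ ?_
  · refine eq_bot_iff.2 fun s hs => ?_
    have h4 : s.1 ∈ S.comap (LinearMap.inl F W Q) := by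
      change (s.1, 0) ∈ S
      rwa [← k s hs]
    exact Prod.ext (by simpa [this] using h4) (k s hs)
  all_goals simp only [List.mem_map, forall_exists_index, and_imp, forall_apply_eq_imp_iff₂, Submodule.mem_comap]
  · intro p hp s hs
    obtain ⟨R, hR⟩ := h p hp
    simpa using h1 _ hR _ hs
  · intro p hp q hq s hs
    obtain ⟨R, hR⟩ := h p hp
    obtain ⟨R', hR'⟩ := h q hq
    simpa using congrArg Prod.fst (h2 _ hR _ hR' _ hs)
  · intro a ha p hp s hs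
    obtain ⟨R, hR⟩ := h p hp
    simpa using congrArg Prod.fst (h3 a ha _ hR _ hs)

theorem step_core {r : End F (W × Q) → Prop} (hr : ∀ A B, r A → Cj A B → r B) {rQ : End F Q → Prop} {P : End F W}
    (hl : ∀ B, rQ B → ∃ R, r (blk P R 0 B)) {μ : Set F} (hμ : ∀ a ∈ μ, P = a • 1) {N : End F Q}
    (hN : LinearMap.det N ≠ 0) {k : ℕ} (h : Prd rQ μ k N) (R : Q →ₗ[F] W) {A : End F (W × Q)} (hA : r A)
    (hA' : ∀ w, (A (w, 0)).2 = 0 → w = 0) : Prd r μ (k + 1) (A * blk (P ^ k) R 0 N) := by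
  obtain ⟨L, rfl, h2, rfl, h4⟩ := h
  have e : (L.map fun B => (P, B)).map Prod.snd = L := by simp [Function.comp_def]
  obtain ⟨L', k1, k2, k3, k4⟩ := lift hr (L.map fun B => (P, B)) (by simpa using fun B hB => hl B (h2 B hB)) (by rwa [e])
    (fun Z hZ => by
      have k : ∀ B ∈ L, ∀ w, B (Z w) = Z (P w) := fun B hB w => LinearMap.congr_fun (hZ (P, B) (List.mem_map_of_mem hB)) w
      refine LinearMap.range_eq_bot.1 (h4 _ ?_ ?_ ?_)
      · rintro B hB _ ⟨w, rfl⟩; exact ⟨_, (k B hB w).symm⟩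
      · rintro B hB C hC _ ⟨w, rfl⟩; rw [k B hB, k C hC]
      · rintro a ha B hB _ ⟨w, rfl⟩; simp [k B hB, hμ a ha]) R
  refine ⟨A :: L', by simp [k1], by simpa [hA] using k2, by simp [k4, Function.comp_def], fun S h1 h2 h3 => ?_⟩
  have k := snd_eq_zero (L' := A :: L') (fun p hp => (k3 p hp).imp fun _ h => List.mem_cons_of_mem _ h) (e.symm ▸ h4) h1 h2 h3
  refine eq_bot_iff.2 fun s hs => Prod.ext (hA' _ ?_) (k s hs)
  rw [show (s.1, 0) = s from Prod.ext rfl (k s hs).symm]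
  exact k _ (h1 A List.mem_cons_self s hs)

theorem cj_blk {P P' c : End F W} {y B e : End F Q} (R : Q →ₗ[F] W) (h1 : c * P = P' * c) (h2 : e * y = B * e)
    (h3 : LinearMap.det c * LinearMap.det e = 1) : ∃ R', Cj (blk P R 0 y) (blk P' R' 0 B) := by
  obtain ⟨e', h4, h5⟩ := exists_inv (right_ne_zero_of_mul_eq_one h3)
  refine ⟨c ∘ₗ R ∘ₗ e', blk c 0 0 e, by rw [det_blk_upper, h3], ?_⟩
  rw [blk_upper_mul, blk_upper_mul, h1, h2]
  congr 1
  ext v; simp [← Module.End.mul_apply, h5]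

theorem cj_blk_of_cj (P : End F W) (R : Q →ₗ[F] W) {y B : End F Q} (h : Cj y B) : ∃ R', Cj (blk P R 0 y) (blk P R' 0 B) := by
  obtain ⟨e, h1, h2⟩ := h
  exact cj_blk (c := 1) R (by simp) h2 (by simp [h1])

theorem cj_blk_of_sim {P : End F W} (hP : DetFull P) (R : Q →ₗ[F] W) {y B : End F Q} (h : Sim y B) :
    ∃ R', Cj (blk P R 0 y) (blk P R' 0 B) := by
  obtain ⟨e, he⟩ := sim_iff.1 h
  have h0 : LinearMap.det (e : End F Q) ≠ 0 := (LinearEquiv.isUnit_det' e).ne_zero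
  obtain ⟨c, h1, h2⟩ := hP _ (inv_ne_zero h0)
  exact cj_blk (e := e) R h1 (LinearMap.ext he) (by rw [h2, inv_mul_cancel₀ h0])

theorem detFull_sc (l : F) : DetFull (sc l) := fun t _ => ⟨sc t, by ext; simp [mul_comm], det_sc t⟩

theorem exists_blk_factor {A M : End F (W × Q)} (hA : LinearMap.det A ≠ 0) {T : End F W}
    (h : ∀ w, A (T w, 0) = M (w, 0)) : ∃ R N, M = A * blk T R 0 N := by
  obtain ⟨B, h1, h2⟩ := exists_inv hA
  refine ⟨LinearMap.fst F W Q ∘ₗ (B * M) ∘ₗ LinearMap.inr F W Q, LinearMap.snd F W Q ∘ₗ (B * M) ∘ₗ LinearMap.inr F W Q, ?_⟩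
  have k : ∀ w, B (M (w, 0)) = (T w, 0) := fun w => by rw [← h, ← Module.End.mul_apply, h2]; rfl
  conv_lhs => rw [← one_mul M, ← h1, mul_assoc]
  congr 1
  ext v <;> simp [k]

/-- `x` realises every partial map of type `W` in general position -/
def Fr {V : Type*} [AddCommGroup V] [Module F V] (x : End F V) (W : Type*) [AddCommGroup W] [Module F W] : Prop :=
  ∀ a b : W →ₗ[F] V, Function.Injective (a.coprod b) → ∃ A, Cj x A ∧ A ∘ₗ a = b

theorem ns_core (hd : 2 * finrank F W < finrank F (W × Q)) {x M A A₂ : End F (W × Q)} (hx : LinearMap.det x ≠ 0)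
    (hM : LinearMap.det M ≠ 0) (h2 : LinearMap.det A₂ ≠ 0) {T : End F W} (hA : Cj x A)
    (h : ∀ w, A (A₂ (T w, 0)) = M (w, 0)) {w₀ : W} (h0 : ∀ w, A₂ (T w₀, 0) ≠ M (w, 0)) :
    ∃ A' R N, Cj x A' ∧ NSc N ∧ M = A' * (A₂ * blk T R 0 N) := by
  have d : ∀ A, Cj x A → LinearMap.det (A * A₂) ≠ 0 := fun A hA => by simp [hA.det, hx, h2]
  obtain ⟨R, N, e⟩ := exists_blk_factor (d A hA) h
  by_cases hN : NSc N
  · exact ⟨A, R, N, hA, hN, e⟩
  obtain ⟨ψ, ψ0, hψ⟩ := exists_fun_kill (S := LinearMap.range (A₂ ∘ₗ LinearMap.inl F W Q) ⊔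
    LinearMap.range (M ∘ₗ LinearMap.inl F W Q)) (lt_of_le_of_lt (Submodule.finrank_add_le_finrank_add_finrank _ _) (by
      have := LinearMap.finrank_range_le (A₂ ∘ₗ LinearMap.inl F W Q)
      have := LinearMap.finrank_range_le (M ∘ₗ LinearMap.inl F W Q)
      omega))
  have p1 : ∀ w, ψ (A₂ (w, 0)) = 0 := fun w => hψ _ (Submodule.mem_sup_left ⟨w, rfl⟩)
  have p2 : ∀ w, ψ (M (w, 0)) = 0 := fun w => hψ _ (Submodule.mem_sup_right ⟨w, rfl⟩)
  set y := A₂ (T w₀, 0)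
  have hA' := hA.trans (cj_conj A (det_tv (u := y) (p1 _)) (tv_mul (p1 _)))
  obtain ⟨R', N', e'⟩ := exists_blk_factor (T := T) (M := M) (d _ hA') fun w => by simp [p1, p2, h]
  refine ⟨_, R', N', hA', fun c' hc' => ?_, e'⟩
  obtain ⟨c, rfl⟩ : ∃ c : F, N = c • 1 := by simpa [NSc] using hN
  subst hc'
  obtain ⟨η, η1, η2⟩ := (LinearMap.range (M ∘ₗ LinearMap.inl F W Q)).exists_dual_map_eq_bot_of_notMem (x := y)
    (by rintro ⟨w, hw⟩; exact h0 w hw.symm) inferInstance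
  have p3 : ∀ w, η (M (w, 0)) = 0 := fun w => by
    have := Submodule.mem_map_of_mem (f := η) (LinearMap.mem_range_self (M ∘ₗ LinearMap.inl F W Q) w)
    rwa [η2] at this
  have hT : Function.Surjective T := LinearMap.injective_iff_surjective.1 ((injective_iff_map_eq_zero _).2 fun w hw =>
    congrArg Prod.fst (injective_of_det hM (show M (w, 0) = M 0 by rw [← h, hw, Prod.mk_zero_zero]; simp)))
  have p4 : ∀ w, η (A (A₂ (w, 0))) = 0 := fun w => by obtain ⟨w, rfl⟩ := hT w; rw [h, p3]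
  have sp : ∀ (c : F) (R : Q →ₗ[F] W) z, blk T R 0 (c • 1) z = c • z + (T z.1 + R z.2 - c • z.1, 0) := fun c R z => by
    ext <;> simp
  have p5 : ∀ z, c * η (A (A₂ z)) = c' * (η (A (A₂ z)) + ψ (A (A₂ z)) * η y) := fun z => by
    have q1 := congrArg η (LinearMap.congr_fun e z)
    have q2 := congrArg η (LinearMap.congr_fun e' z)
    have q3 : ∀ w, ψ (A (A₂ (w, 0))) = 0 := fun w => by obtain ⟨w, rfl⟩ := hT w; rw [h, p2]
    simp only [Module.End.mul_apply, sp, map_add, map_smul, p4, add_zero, smul_eq_mul] at q1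
    simp only [Module.End.mul_apply, sp, map_add, map_smul, LinearMap.add_apply, LinearMap.sub_apply, Module.End.one_apply,
      LinearMap.smulRight_apply, map_sub, p1, p4, q3, y, smul_eq_mul] at q2
    rw [← q1, q2]; ring
  have hs := LinearMap.injective_iff_surjective.1 (injective_of_det (d A hA))
  have p6 : ∀ z, c * η z = c' * (η z + ψ z * η y) := fun z => by obtain ⟨z, rfl⟩ := hs z; exact p5 z
  obtain rfl : c = c' := mul_right_cancel₀ η1 (by simpa [y, p1] using p6 y)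
  have c0 : c ≠ 0 := by
    rintro rfl
    have : Nontrivial Q := Module.nontrivial_of_finrank_pos (R := F) (by
      have := finrank_prod (R := F) (M := W) (M' := Q); omega)
    rw [e, map_mul, det_blk_upper, zero_smul, LinearMap.det_zero, zero_pow finrank_pos.ne'] at hM
    simp at hM
  exact ψ0 (LinearMap.ext fun z => by simpa [mul_add, c0, η1] using p6 z)

theorem det_factor {x A : End F (W × Q)} {P : End F W} {R R' : Q →ₗ[F] W} {y N : End F Q} {k j : ℕ} (e : x = blk P R 0 y)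
    (hx : LinearMap.det x ≠ 0) (hA : LinearMap.det A = LinearMap.det x ^ j)
    (h : LinearMap.det (A * blk (P ^ k) R' 0 N) = LinearMap.det x ^ (k + j)) :
    LinearMap.det N = LinearMap.det y ^ k ∧ LinearMap.det N ≠ 0 := by
  rw [map_mul, hA, pow_add, mul_comm, mul_left_inj' (pow_ne_zero _ hx), e, det_blk_upper, det_blk_upper, map_pow, mul_pow] at h
  rw [e, det_blk_upper] at hx
  have := mul_left_cancel₀ (pow_ne_zero _ (left_ne_zero_of_mul hx)) h
  exact ⟨this, this ▸ pow_ne_zero _ (right_ne_zero_of_mul hx)⟩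

end Cfsg.Agent.CovN
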