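import Cfsg.Agent.CovN.Scal

/-!
Every map of determinant one is, up to a scalar, a product of `n` conjugates of a non-scalar one.
-/

set_option autoImplicit false
set_option linter.unusedSectionVars false

open Polynomial Module

universe u

namespace Cfsg.Agent.CovN

open Cfsg.Agent.GLn Cfsg.Agent.Fac

variable {F : Type u} [Field F] [Finite F] {V : Type u} [AddCommGroup V] [Module F V] [FiniteDimensional F V]

theorem Cov.univ {x : End F V} {δ : F} {μ : Set F} {k : ℕ} (h : Cov (Cj x) δ μ k) : Cov (Cj x) δ Set.univ k :=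
  fun M h1 h2 => (h M h1 h2).mono (fun _ h => h) (Set.subset_univ _)

theorem cov_all (hF : Big F 4) (hd : 3 ≤ finrank F V) {x : End F V} (hx : NSc x) (h1 : LinearMap.det x = 1) :
    Cov (Cj x) (LinearMap.det x) Set.univ (finrank F V) ∧ Sc x (finrank F V) := by
  have x0 : LinearMap.det x ≠ 0 := h1 ▸ one_ne_zero
  by_cases hb : ∃ f : F[X], Irreducible f ∧ f.Monic ∧ 3 ≤ f.natDegree ∧ f ∣ x.charpoly
  · obtain ⟨k1, k2⟩ := thm_big hF _ V x rfl x0 hb
    exact ⟨k1.univ, hd.eq_or_lt.elim (fun e => e ▸ sc_three hF e.symm h1) fun e => (k2 e).sc h1⟩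
  have hi : ∀ g : F[X], Irreducible g → g.Monic → g ∣ x.charpoly → g.natDegree ≤ 2 := fun g g1 g2 g3 =>
    by_contra fun k => hb ⟨g, g1, g2, by omega, g3⟩
  suffices Cov (Cj x) (LinearMap.det x) Set.univ (finrank F V) ∧ (5 ≤ finrank F V → Sc x (finrank F V)) by
    refine ⟨this.1, ?_⟩
    rcases (by omega : finrank F V = 3 ∨ finrank F V = 4 ∨ 5 ≤ finrank F V) with e | e | e
    exacts [e ▸ sc_three hF e h1, e ▸ sc_four hF e h1 hi, this.2 e]
  by_cases hr : ∀ c, x.charpoly.eval c ≠ 0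
  · obtain ⟨k1, k2⟩ := thm_ell hF _ V x rfl x0 hd hr hi
    exact ⟨k1.univ, fun e => (k2 e).sc h1⟩
  push Not at hr
  obtain ⟨l, hl⟩ := hr
  obtain ⟨h, e⟩ := dvd_minpoly (irreducible_X_sub_C l) (dvd_iff_isRoot.2 hl)
  have m := (monic_X_sub_C l).of_mul_monic_left (e ▸ minpoly.monic (Algebra.IsIntegral.isIntegral x))
  have z := e ▸ minpoly.aeval F x
  rcases (by omega : h.natDegree = 0 ∨ 2 ≤ h.natDegree ∨ h.natDegree = 1) with c | c | c
  · rw [m.natDegree_eq_zero.1 c] at z
    exact (hx l (by simpa [sub_eq_zero, Algebra.algebraMap_eq_smul_one] using z)).elim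
  · obtain ⟨q, q1, q2, q3⟩ := exists_quad_dvd m c fun g g1 g2 g3 =>
      hi g g1 g2 ((e ▸ g3.mul_left _).trans (LinearMap.minpoly_dvd_charpoly x))
    obtain ⟨Q, y, π, p1, p2, p3, p4, p5⟩ := exists_reg_quot ((monic_X_sub_C l).mul q1) (e ▸ mul_dvd_mul_left _ q3)
    have d : finrank F Q = 3 := by rw [finrank_eq_of_charpoly p4, (monic_X_sub_C l).natDegree_mul q1, q2]; simp
    have nq := nq_of_dvd p3.dvd_minpoly (by rw [y.charpoly_natDegree, d])
    obtain ⟨k1, k2⟩ := climb (d ▸ cov_three hF d (ne_zero_of_dvd_ne_zero x0 p5) nq (l := l) (by simp [p4])) d.ge (Or.inl nq) _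
      V x π rfl x0 p1 p2 hi
    exact ⟨k1.univ, fun e => (k2 (by omega)).sc h1⟩
  obtain ⟨l', rfl⟩ : ∃ l', h = X - C l' := ⟨-h.coeff 0, by simpa using m.eq_X_add_C c⟩
  have hq : ∀ v, x (x v) = (l + l') • x v - (l * l') • v := fun v => by
    have := LinearMap.congr_fun z v
    simp only [map_mul, map_sub, aeval_X, aeval_C, Module.End.mul_apply, LinearMap.sub_apply, Module.algebraMap_end_apply,
      map_smul, LinearMap.zero_apply] at this
    linear_combination (norm := module) this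
  have l0 : l * l' ≠ 0 := fun k => hx (l + l') (LinearMap.ext fun v => injective_of_det x0 (by simpa [k] using hq v))
  rcases free_or_ro hd hx l0 hq with k | ⟨c, θ, u, rfl⟩
  · obtain ⟨π, p1, p2⟩ := quot_kap l0 hq k
    have d : finrank F ((F × F) × F × F) = 4 := by simp
    obtain ⟨k1, k2⟩ := climb (d ▸ cov_kap hF (l + l') l0) (by simp) (wide_kap _ l0) _ V x π rfl x0 p1 p2 hi
    refine ⟨k1.univ, fun e' => e'.eq_or_lt.elim (fun e' => ?_) fun e' => (k2 (by omega)).sc h1⟩
    by_cases ll : l = l'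
    swap
    · exact sc_diag (diag_of_quad ll hq) (by omega)
    subst ll
    obtain ⟨A, hA⟩ := exists_matrix_sim (n := Fin (finrank F V)) x (by simp)
    refine sc_unip (d ▸ cov_kap hF (l + l) l0) (wide_kap _ l0).nsc p1 p2 (by omega) x0 (l := l) ?_
    rw [← hA.charpoly, Matrix.charpoly_toLin', charpoly_of_isNilpotent_sub (c := l) ⟨2, Matrix.toLin'.injective ?_⟩, Fintype.card_fin]
    have := (hA.aeval _).eq_zero_iff.2 z
    rw [← toLin'_aeval] at this
    simpa [sq] using this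
  have c0 : c ≠ 0 := by rintro rfl; exact hx 0 (by simp)
  by_cases k : θ u = 0
  · obtain ⟨k1, k2⟩ := cov_tv hF hd (x := 1 + θ.smulRight u) ⟨θ, u, by rintro rfl; exact hx c (by simp),
      by rintro rfl; exact hx c (by simp), k, rfl⟩ c0
    exact ⟨k1, fun _ => ⟨_, k2⟩⟩
  obtain ⟨n, hn⟩ := Nat.exists_eq_add_one.2 (show 0 < finrank F V by omega)
  refine ⟨hn ▸ (cov_refl c0 k (fun k => x0 (by simp [det_rank_one, k, -smul_add])) n V θ u hn rfl _ rfl).1.univ,
    fun _ => sc_diag (diag_of_quad (l := c) (l' := c * (1 + θ u)) (by simp [c0, k]) fun v => ?_) (by omega)⟩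
  simp; module

theorem prod_all (hF : Big F 4) (hd : 3 ≤ finrank F V) {x : End F V} (hx : NSc x) (h1 : LinearMap.det x = 1)
    {M : End F V} (hM : LinearMap.det M = 1) :
    ∃ (c : F) (L : List (End F V)), L.length = finrank F V ∧ (∀ A ∈ L, Cj x A) ∧ L.prod = c • M := by
  obtain ⟨k1, c, L, k2⟩ := cov_all hF hd hx h1
  by_cases h : NSc M
  · obtain ⟨L, l1, l2, l3, -⟩ := k1 M (by simp [hM, h1]) h
    exact ⟨1, L, l1, l2, by simp [l3]⟩
  · obtain ⟨a, rfl⟩ : ∃ a : F, M = a • 1 := by simpa [NSc] using h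
    have : a ≠ 0 := by
      rintro rfl
      rw [LinearMap.det_smul, zero_pow (by omega)] at hM
      simp at hM
    exact ⟨c / a, L, k2.1, k2.2.1, by simp [k2.2.2.1, smul_smul, this]⟩

omit [Finite F] in
theorem exists_fix (θ : V →ₗ[F] F) (u : V) (L : List (End F V)) (hL : ∀ A ∈ L, Cj (1 + θ.smulRight u) A)
    (hd : L.length < finrank F V) : ∃ v, v ≠ 0 ∧ L.prod v = v := by
  suffices ∃ S : Submodule F V, finrank F V ≤ finrank F S + L.length ∧ ∀ v ∈ S, L.prod v = v by
    obtain ⟨S, h1, h2⟩ := this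
    obtain ⟨v, hv⟩ := finrank_pos_iff_exists_ne_zero.1 (show 0 < finrank F S by omega)
    exact ⟨v, by simpa using hv, h2 v v.2⟩
  clear hd
  induction L with
  | nil => exact ⟨⊤, by simp, by simp⟩
  | cons A L ih =>
    obtain ⟨S, h1, h2⟩ := ih fun B hB => hL B (List.mem_cons_of_mem _ hB)
    obtain ⟨e, rfl, -⟩ := (hL A List.mem_cons_self).exists_equiv
    let ψ := θ ∘ₗ e.symm.toLinearMap
    refine ⟨S ⊓ LinearMap.ker ψ, ?_, fun v hv => by simp [h2 v hv.1, show θ (e.symm v) = 0 from hv.2]⟩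
    have := Submodule.finrank_sup_add_finrank_inf_eq S (LinearMap.ker ψ)
    have := Submodule.finrank_le (S ⊔ LinearMap.ker ψ)
    have := ψ.finrank_range_add_finrank_ker
    have := Submodule.finrank_le (LinearMap.range ψ)
    simp only [finrank_self, List.length_cons] at *
    omega

end Cfsg.Agent.CovN
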