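import Cfsg.Agent.CovN.Four

/-!
Peeling invariant subspaces; maps with a large irreducible factor, or without eigenvalues.
-/

set_option autoImplicit false
set_option linter.unusedSectionVars false

open Polynomial Module

universe u

namespace Cfsg.Agent.CovN

open Cfsg.Agent.GLn Cfsg.Agent.Fac

section
variable {F : Type*} [Field F] {V W Q : Type*} [AddCommGroup V] [Module F V] [AddCommGroup W] [Module F W]
  [AddCommGroup Q] [Module F Q] [FiniteDimensional F V] [FiniteDimensional F W] [FiniteDimensional F Q]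

theorem Cov.sim {x : End F V} {δ : F} {μ : Set F} {k : ℕ} (h : Cov (Cj x) δ μ k) : Cov (V := V) (Sim x) δ μ k :=
  fun M h1 h2 => (h M h1 h2).mono (fun _ => Cj.sim) le_rfl

theorem Cov.cj {x : End F V} (hx : DetFull x) {δ : F} {μ : Set F} {k : ℕ} (h : Cov (V := V) (Sim x) δ μ k) : Cov (Cj x) δ μ k :=
  fun M h1 h2 => (h M h1 h2).mono (fun _ => cj_of_sim hx) le_rfl

theorem Fr.of_sim {x : End F V} {y : End F Q} (h : Fr x W) (hs : Sim x y) : Fr y W := by
  obtain ⟨e, rfl⟩ := hs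
  intro a b hab
  obtain ⟨A, h1, h2⟩ := h (e.symm.toLinearMap ∘ₗ a) (e.symm.toLinearMap ∘ₗ b) fun p q k => hab (e.symm.injective (by simpa using k))
  exact ⟨_, h1.map e, LinearMap.ext fun w => by simpa [LinearEquiv.eq_symm_apply] using (LinearMap.congr_fun h2 w).symm |>.symm⟩

theorem Reg.dvd_minpoly {x : End F V} (h : Reg x) : x.charpoly ∣ minpoly F x :=
  h.exists_kr.elim fun _ h => h.dvd (by simp)

theorem aeval_inter {x : End F V} {y : End F W} {π : V →ₗ[F] W} (h : ∀ v, π (x v) = y (π v)) (p : F[X]) (v : V) :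
    π (aeval x p v) = aeval y p (π v) := by
  have : ∀ i : ℕ, π ((x ^ i) v) = (y ^ i) (π v) := fun i => by
    induction i with
    | zero => rfl
    | succ i ih => simp [pow_succ', h, ih]
  simp [aeval_eq_sum_range, this]

theorem exists_inv_sub {x : End F V} {g : F[X]} (hg : g.Monic) (h : g ∣ minpoly F x) :
    ∃ (W : Submodule F V) (hW : ∀ s ∈ W, x s ∈ W), (x.restrict hW).charpoly = g := by
  obtain ⟨u, hu⟩ := exists_ann x h
  refine ⟨_, kry_inv x u, ?_⟩
  set y := x.restrict (kry_inv x u)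
  have e : ∀ (p : F[X]) (w : LinearMap.range (kry x u)), (aeval y p w : V) = aeval x p w :=
    aeval_inter (π := Submodule.subtype _) fun _ => rfl
  have c : Cyc y ⟨u, 1, by simp⟩ := by
    rintro ⟨_, p, rfl⟩
    exact ⟨p, Subtype.ext (e p _)⟩
  refine eq_of_monic_of_associated y.charpoly_monic hg (associated_of_dvd_dvd ((reg_of_cyc c).dvd_minpoly.trans
    (minpoly.dvd _ _ (LinearMap.ext ?_))) ((hu _).1 ((e _ ⟨u, 1, by simp⟩).symm.trans (by simp [y.aeval_self_charpoly]))))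
  rintro ⟨_, p, rfl⟩
  exact Subtype.ext ((e _ _).trans (by simpa using (hu (g * p)).2 (dvd_mul_right _ _)))

theorem charpoly_dec {P : End F W} {R : Q →ₗ[F] W} {y : End F Q} {x : End F V} (h : Sim (blk P R 0 y) x) :
    x.charpoly = P.charpoly * y.charpoly ∧ finrank F V = finrank F W + finrank F Q ∧
      LinearMap.det x = LinearMap.det P * LinearMap.det y :=
  ⟨by rw [← h.charpoly, charpoly_blk_upper], by rw [← h.finrank, finrank_prod], by rw [← h.det, det_blk_upper]⟩

def Plane (x : End F V) : Prop := ∃ W : Submodule F V, finrank F W = 2 ∧ ∀ s ∈ W, x s ∈ W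

theorem plane_of_pair {x : End F V} {u v : V} (h0 : u ≠ 0) (h : ∀ s : F, v ≠ s • u) (h1 : ∃ a b : F, x u = a • u + b • v)
    (h2 : ∃ a b : F, x v = a • u + b • v) : Plane x := by
  refine ⟨_, (LinearMap.finrank_range_of_inj (inj_pair h0 h)).trans (by simp), ?_⟩
  obtain ⟨a, b, h1⟩ := h1
  obtain ⟨c, d, h2⟩ := h2
  rintro _ ⟨⟨p, q⟩, rfl⟩
  exact ⟨(p * a + q * c, p * b + q * d), by simp [h1, h2]; module⟩

theorem eigen_dec {x : End F V} {u : V} (h0 : u ≠ 0) {l : F} (h : x u = l • u) :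
    ∃ (Q : Submodule F V) (R : Q →ₗ[F] F) (y : End F Q) (π : V →ₗ[F] Q), Sim (blk (sc l) R 0 y) x ∧ Function.Surjective π ∧
      (∀ v, π (x v) = y (π v)) ∧ ∀ v, π v = 0 ↔ ∃ s : F, s • u = v :=
  exists_dec (i := LinearMap.toSpanSingleton F V u) (LinearMap.ker_eq_bot.1 (LinearMap.ker_toSpanSingleton F h0))
    fun w => by simp [h, smul_smul, mul_comm]

theorem plane_of_dvd {x : End F V} {q : F[X]} (hq : q.Monic) (hd : q.natDegree = 2) (h : q ∣ x.charpoly) : Plane x := by
  by_cases k : Irreducible q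
  · obtain ⟨W, hW, e⟩ := exists_inv_sub hq (dvd_minpoly k h)
    exact ⟨W, (finrank_eq_of_charpoly e).trans hd, hW⟩
  obtain ⟨a, b, ⟨h1, h2⟩⟩ := (hq.not_irreducible_iff_exists_add_mul_eq_coeff hd).1 k
  rw [eq_quad hq hd, h1, h2, show -(a + b) = -a + -b by ring, ← neg_mul_neg, quad_eq_mul] at h
  obtain ⟨u, u0, hu⟩ := exists_eigen_of_isRoot (dvd_iff_isRoot.1 ((dvd_mul_right _ _).trans h))
  obtain ⟨Q, R, y, π, s, p1, p2, p3⟩ := eigen_dec u0 hu
  rw [(charpoly_dec s).1, charpoly_sc, mul_dvd_mul_iff_left (X_sub_C_ne_zero _)] at h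
  obtain ⟨v, v0, hv⟩ := exists_eigen_of_isRoot (dvd_iff_isRoot.1 h)
  obtain ⟨v, rfl⟩ := p1 v
  obtain ⟨c, hc⟩ := (p3 (x v - -b • v)).1 (by rw [map_sub, p2, hv, map_smul, sub_self])
  exact plane_of_pair u0 (fun s e => v0 ((p3 v).2 ⟨s, e.symm⟩)) ⟨-a, 0, by simp [hu]⟩ ⟨c, -b, by rw [hc]; simp⟩

theorem exists_monic_factor {h : F[X]} (hd : h.natDegree ≠ 0) : ∃ g : F[X], Irreducible g ∧ g.Monic ∧ g ∣ h := by
  obtain ⟨g, h1, h2, h3⟩ := exists_monic_irreducible_factor h fun k => hd (natDegree_eq_zero_of_isUnit k)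
  exact ⟨g, h2, h1, h3⟩

theorem exists_quad_dvd {h : F[X]} (hm : h.Monic) (hd : 2 ≤ h.natDegree) (hi : ∀ g, Irreducible g → g.Monic → g ∣ h → g.natDegree ≤ 2) :
    ∃ q : F[X], q.Monic ∧ q.natDegree = 2 ∧ q ∣ h := by
  by_contra! k
  have one : ∀ g, Irreducible g → g.Monic → g ∣ h → g.natDegree = 1 := fun g h1 h2 h3 => by
    have := hi g h1 h2 h3
    have := h1.natDegree_pos
    have : g.natDegree ≠ 2 := fun e => k g h2 e h3
    omega
  obtain ⟨g, g1, g2, r, rfl⟩ := exists_monic_factor (h := h) (by omega)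
  have d := one g g1 g2 (dvd_mul_right _ _)
  have rm := g2.of_mul_monic_left hm
  obtain ⟨g', k1, k2, k3⟩ := exists_monic_factor (h := r) (by rw [g2.natDegree_mul rm] at hd; omega)
  exact k (g * g') (g2.mul k2) (by rw [g2.natDegree_mul k2, d, one g' k1 k2 (k3.mul_left _)]) (mul_dvd_mul_left _ k3)

theorem nq_of_dvd {x : End F V} {g : F[X]} (h : g ∣ minpoly F x) (hd : 3 ≤ g.natDegree) : NQ x := by
  obtain ⟨u, hu⟩ := exists_ann x h
  have k : ∀ p : F[X], p.Monic → p.natDegree ≤ 2 → aeval x p u ≠ 0 := fun p h1 h2 h3 => by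
    have := natDegree_le_of_dvd ((hu p).1 h3) h1.ne_zero
    omega
  exact ⟨u, by simpa using k 1 monic_one (by simp), fun s e => k (X - C s) (monic_X_sub_C s) (by simp) (by simp [e]),
    fun s t e => k (quad t (-s)) (monic_quad _ _) (natDegree_quad _ _).le (by simp [quad, sq, e])⟩

theorem NQ.nsc {x : End F V} (h : NQ x) : NSc x := by
  obtain ⟨u, -, h, -⟩ := h
  rintro c rfl
  exact h c rfl

theorem peel_two [Nontrivial W] {P : End F W} {R : Q →ₗ[F] W} {y : End F Q} {x : End F V} (s : Sim (blk P R 0 y) x)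
    (hx : LinearMap.det x ≠ 0) (hx' : NSc x) (hfr : Fr x W) {k : ℕ} (hk : k + 2 ≤ finrank F V) (h3 : 3 ≤ finrank F V)
    (h : finrank F W < finrank F Q ∧ Cov (Cj y) (LinearMap.det y) ∅ k ∨ finrank F W ≤ finrank F Q ∧ CovA (Cj y) (LinearMap.det y) ∅ k) :
    CovA (Cj x) (LinearMap.det x) ∅ (finrank F V) :=
  ((step_two rfl (s.det ▸ hx) (hfr.of_sim s.symm) h).of_sim s).le h3 hx' hx hk

theorem nd_of_no_plane {x : End F V} (h : ¬ Plane x) : ND x := fun c => by
  by_cases k : ∃ u, u ≠ 0 ∧ x u = c • u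
  · obtain ⟨u, u0, hu⟩ := k
    exact ⟨u, fun v hv => by_contra fun k => h (plane_of_pair u0 (not_exists.1 k) ⟨c, 0, by simp [hu]⟩ ⟨0, c, by simp [hv]⟩)⟩
  · exact ⟨0, fun v hv => ⟨0, by_contra fun k' => k ⟨v, by simpa using k', hv⟩⟩⟩

theorem no_root {f : F[X]} (hf : Irreducible f) (hd : 2 ≤ f.natDegree) (c : F) : f.eval c ≠ 0 := fun h => by
  have := degree_eq_one_of_irreducible_of_root hf h
  rw [natDegree_eq_of_degree_eq_some (n := 1) this] at hd
  omega

theorem three_cj [Finite F] (hF : Big F 4) (hd : 3 ≤ finrank F V) {x : End F V} (h0 : LinearMap.det x ≠ 0) {f h : F[X]}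
    (hf : Irreducible f) (hm : f.Monic) (h2 : 2 ≤ f.natDegree) (hh : h.natDegree ≤ 1) (e : x.charpoly = f * h) :
    Cov (Cj x) (LinearMap.det x) ∅ 3 ∧ Reg x := by
  have m := hm.of_mul_monic_left (e ▸ x.charpoly_monic)
  have c : IsCoprime f h := hf.coprime_iff_not_dvd.2 fun k => by have := natDegree_le_of_dvd k m.ne_zero; omega
  obtain ⟨b, b0, b1⟩ := (hF.mono (by norm_num)).exists_ne₂ 0 (h.coeff 0 * h.coeff 0)
  have r : Reg x := reg_of_squarefree (e ▸ squarefree_mul_iff.2 ⟨c.isRelPrime, hf.squarefree, by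
    rcases Nat.le_one_iff_eq_zero_or_eq_one.1 hh with k | k
    · rw [m.natDegree_eq_zero.1 k]; exact squarefree_one
    · exact (irreducible_of_degree_eq_one ((degree_eq_iff_natDegree_eq m.ne_zero).2 k)).squarefree⟩)
  refine ⟨(three_reg hF hd r h0 b0 (Or.inr fun a ha => ?_)).cj (detFull_of_simple hf hm c e), r⟩
  rw [e, eval_mul, mul_eq_zero, or_iff_right (no_root hf h2 a)] at ha
  rcases Nat.le_one_iff_eq_zero_or_eq_one.1 hh with k | k
  · simp [m.natDegree_eq_zero.1 k] at ha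
  · rw [m.eq_X_add_C k, eval_add, eval_X, eval_C] at ha
    rw [eq_neg_of_add_eq_zero_left ha, neg_mul_neg]
    exact b1.symm

end

variable {F : Type*} [Field F] [Finite F]

theorem thm_big (hF : Big F 4) (n : ℕ) : ∀ (V : Type u) [AddCommGroup V] [Module F V] [FiniteDimensional F V] (x : End F V),
    finrank F V = n → LinearMap.det x ≠ 0 → (∃ f : F[X], Irreducible f ∧ f.Monic ∧ 3 ≤ f.natDegree ∧ f ∣ x.charpoly) →
    Cov (Cj x) (LinearMap.det x) ∅ n ∧ (4 ≤ n → CovA (Cj x) (LinearMap.det x) ∅ n) := by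
  induction n using Nat.strong_induction_on with
  | _ n ih =>
  rintro V _ _ _ x rfl hx ⟨f, f1, f2, f3, h, e⟩
  have nq := nq_of_dvd (dvd_minpoly f1 ⟨h, e⟩) f3
  have dg : ∀ {Q : Submodule F V} {y : End F Q} {f : F[X]}, f ∣ y.charpoly → f.natDegree ≤ finrank F Q := fun {Q y f} h =>
    y.charpoly_natDegree ▸ natDegree_le_of_dvd h y.charpoly_monic.ne_zero
  by_cases hp : Plane x
  · obtain ⟨W, w1, w2⟩ := hp
    obtain ⟨Q, R, y, -, s, -⟩ := exists_dec (P := x.restrict w2) W.subtype_injective fun _ => rfl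
    obtain ⟨s1, s2, s3⟩ := charpoly_dec s
    have k : f ∣ y.charpoly := (f1.prime.dvd_or_dvd (s1 ▸ Dvd.intro h e.symm)).resolve_left fun k => by have := dg k; omega
    have := dg k
    have : Nontrivial W := nontrivial_of_finrank_pos (R := F) (by omega)
    have := peel_two s hx nq.nsc ((w1 ▸ nq.free (by omega)).fr (by omega)) (by omega) (by omega)
      (Or.inl ⟨by omega, (ih _ (by omega) Q y rfl (right_ne_zero_of_mul (s3 ▸ hx)) ⟨f, f1, f2, f3, k⟩).1⟩)
    exact ⟨this.cov, fun _ => this⟩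
  have m := f2.of_mul_monic_left (e ▸ x.charpoly_monic)
  have n3 : finrank F V = f.natDegree + h.natDegree := by rw [← x.charpoly_natDegree, e, f2.natDegree_mul m]
  by_cases hh : h.natDegree ≤ 1
  · have := (three_cj hF (by omega) hx f1 f2 (by omega) hh e).1
    exact ⟨this.le (by omega) nq.nsc hx (by omega), fun h => this.lt (by omega) nq.nsc hx h⟩
  obtain ⟨g, g', g1, g2, g3, g4, g5, g6, g7⟩ : ∃ g g' : F[X], Irreducible g ∧ g.Monic ∧ 3 ≤ g.natDegree ∧ Irreducible g' ∧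
      g'.Monic ∧ g.natDegree ≤ g'.natDegree ∧ g * g' ∣ x.charpoly := by
    obtain ⟨g, g1, g2, g3, g4⟩ : ∃ g : F[X], Irreducible g ∧ g.Monic ∧ g ∣ h ∧ 2 < g.natDegree := by
      by_contra! k
      obtain ⟨q, q1, q2, q3⟩ := exists_quad_dvd m (by omega) k
      exact hp (plane_of_dvd q1 q2 (e ▸ q3.mul_left _))
    rcases le_total f.natDegree g.natDegree with k | k
    · exact ⟨f, g, f1, f2, f3, g1, g2, k, e ▸ mul_dvd_mul_left _ g3⟩
    · exact ⟨g, f, g1, g2, g4, f1, f2, k, by rw [e, mul_comm]; exact mul_dvd_mul_left _ g3⟩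
  obtain ⟨W, w2, w1⟩ := exists_inv_sub g2 (dvd_minpoly g1 ((dvd_mul_right _ _).trans g7))
  obtain ⟨Q, R, y, -, s, -⟩ := exists_dec (P := x.restrict w2) W.subtype_injective fun _ => rfl
  obtain ⟨s1, s2, s3⟩ := charpoly_dec s
  rw [s1, w1, mul_dvd_mul_iff_left g2.ne_zero] at g7
  have := dg g7
  have w3 := finrank_eq_of_charpoly w1
  have : Nontrivial W := nontrivial_of_finrank_pos (R := F) (by omega)
  have y0 := right_ne_zero_of_mul (s3 ▸ hx)
  have k := (ih _ (by omega) Q y rfl y0 ⟨g', g4, g5, by omega, g7⟩).1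
  have fr := free_of_nd (nd_of_no_plane hp) (d := finrank F W) (by omega)
  suffices CovA (Cj x) (LinearMap.det x) ∅ (finrank F V) from ⟨this.cov, fun _ => this⟩
  rcases (by omega : finrank F W < finrank F Q ∨ finrank F W = finrank F Q) with c | c
  · exact peel_two s hx nq.nsc (fr.fr (by omega)) (by omega) (by omega) (Or.inl ⟨c, k⟩)
  refine peel_two s hx nq.nsc (fr.fr_half (by omega) fun a b => (injective_iff_map_eq_zero _).2 fun u hu => by_contra fun u0 => hp ?_)
    (by omega) (by omega) (Or.inr ⟨c.le, k.pad (by omega) (nq_of_dvd (dvd_minpoly g4 g7) (by omega)).nsc y0⟩)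
  refine plane_of_pair u0 (v := x u) (fun c e => ?_) ⟨0, 1, by simp⟩ ⟨-b, a, ?_⟩
  · have := isRoot_of_eigen u0 e
    rw [s1, w1, eq_of_monic_of_dvd_of_natDegree_le g5 y.charpoly_monic g7 (by rw [y.charpoly_natDegree]; omega), eval_mul] at this
    exact mul_ne_zero (no_root g1 (by omega) c) (no_root g4 (by omega) c) this
  · simp only [quad, map_add, map_sub, map_mul, aeval_C, aeval_X, sq, LinearMap.add_apply, LinearMap.sub_apply,
      Module.End.mul_apply, Module.algebraMap_end_apply] at hu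
    linear_combination (norm := module) hu

theorem thm_ell (hF : Big F 4) (n : ℕ) : ∀ (V : Type u) [AddCommGroup V] [Module F V] [FiniteDimensional F V] (x : End F V),
    finrank F V = n → LinearMap.det x ≠ 0 → 3 ≤ n → (∀ c, x.charpoly.eval c ≠ 0) →
    (∀ g, Irreducible g → g.Monic → g ∣ x.charpoly → g.natDegree ≤ 2) →
    Cov (Cj x) (LinearMap.det x) ∅ n ∧ (5 ≤ n → CovA (Cj x) (LinearMap.det x) ∅ n) := by
  induction n using Nat.strong_induction_on with
  | _ n ih =>
  rintro V _ _ _ x rfl hx h3 hr hi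
  obtain ⟨q, q1, q2, q3⟩ := exists_quad_dvd x.charpoly_monic (by rw [x.charpoly_natDegree]; omega) hi
  obtain ⟨W, w1, w2⟩ := plane_of_dvd q1 q2 q3
  obtain ⟨Q, R, y, -, s, -⟩ := exists_dec (P := x.restrict w2) W.subtype_injective fun _ => rfl
  obtain ⟨s1, s2, s3⟩ := charpoly_dec s
  have nsc : ∀ (V : Type u) [AddCommGroup V] [Module F V] [FiniteDimensional F V] (x : End F V), 0 < finrank F V →
      (∀ c, x.charpoly.eval c ≠ 0) → NSc x := fun V _ _ _ x h0 h c e => by
    obtain ⟨v, hv⟩ := finrank_pos_iff_exists_ne_zero.1 h0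
    exact h c (isRoot_of_eigen hv (by simp [e]))
  have r : ∀ c, y.charpoly.eval c ≠ 0 := fun c k => hr c (by simp [s1, k])
  rcases (by omega : finrank F Q = 1 ∨ finrank F Q = 2 ∨ 3 ≤ finrank F Q) with c | c | c
  · exact (r (LinearMap.det y) (by simp [charpoly_one_dim c])).elim
  · refine ⟨?_, by omega⟩
    rw [s2, w1, c]
    exact (base_four hF w1 c rfl (s.det ▸ hx) (SL2.Ell.disc fun a k => hr a (by
      rw [s1, charpoly_two w1, eval_mul, eval_quad, mul_eq_zero]; exact Or.inl (by linear_combination k)))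
      (nsc Q y (by omega) r)).of_sim s
  have : Nontrivial W := nontrivial_of_finrank_pos (R := F) (by omega)
  have := peel_two s hx (nsc V x (by omega) hr) ((free_of_nd (fun c => ⟨0, fun u hu => ⟨0, by_contra fun k =>
    hr c (isRoot_of_eigen (by simpa using k) hu)⟩⟩) (by omega)).fr (by omega)) (by omega) (by omega)
    (Or.inl ⟨by omega, (ih _ (by omega) Q y rfl (right_ne_zero_of_mul (s3 ▸ hx)) c r
      fun g h1 h2 h3 => hi g h1 h2 (s1 ▸ h3.mul_left _)).1⟩)
  exact ⟨this.cov, fun _ => this⟩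

end Cfsg.Agent.CovN
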