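import Cfsg.Agent.CovN.Lift
import Cfsg.Agent.GLn.Eigen

/-!
Regular (cyclic) maps, through observable functionals; pole placement.
-/

set_option autoImplicit false
set_option linter.unusedSectionVars false

open Polynomial Module

namespace Cfsg.Agent.CovN

open Cfsg.Agent.GLn Cfsg.Agent.Fac

variable {F : Type*} [Field F] {V W : Type*} [AddCommGroup V] [Module F V] [AddCommGroup W] [Module F W]

def Obs (A : End F V) (θ : V →ₗ[F] F) : Prop :=
  ∀ S : Submodule F V, (∀ s ∈ S, A s ∈ S) → (∀ s ∈ S, θ s = 0) → S = ⊥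

def Reg (A : End F V) : Prop := ∃ θ, Obs A θ

def Kr (A : End F V) (u : V) : Prop := ∀ p : F[X], p.degree < finrank F V → aeval A p u = 0 → p = 0

theorem Reg.of_sim {A : End F V} {B : End F W} (h : Reg A) (hs : Sim A B) : Reg B := by
  obtain ⟨θ, h⟩ := h
  obtain ⟨e, he⟩ := sim_iff.1 hs
  refine ⟨θ ∘ₗ e.symm.toLinearMap, fun S h1 h2 => ?_⟩
  have := h (S.comap e.toLinearMap) (fun s hs => by simpa [he] using h1 _ hs) fun s hs => by simpa using h2 _ hs
  refine eq_bot_iff.2 fun s hs => ?_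
  have h5 : e.symm s ∈ S.comap e.toLinearMap := by simpa using hs
  simpa [this] using h5

theorem Obs.add {A : End F V} {θ : V →ₗ[F] F} (h : Obs A θ) (r : V) : Obs (A + θ.smulRight r) θ :=
  fun S h1 h2 => h S (fun s hs => by simpa [h2 s hs] using h1 s hs) h2

theorem aeval_sum {A : End F V} {p : F[X]} {l : ℕ} (hp : p.degree < l) (v : V) :
    aeval A p v = ∑ i ∈ Finset.range l, p.coeff i • (A ^ i) v := by
  by_cases h0 : p = 0
  · simp [h0]
  rw [aeval_eq_sum_range' ((natDegree_lt_iff_degree_lt h0).2 hp)]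
  simp

theorem aeval_kill {A : End F V} {p : F[X]} {l : ℕ} (hp : p.degree < l) {v : V} {ω : V →ₗ[F] W}
    (h : ∀ i < l, ω ((A ^ i) v) = 0) : ω (aeval A p v) = 0 := by
  rw [aeval_sum hp, map_sum]
  exact Finset.sum_eq_zero fun i hi => by rw [map_smul, h i (Finset.mem_range.1 hi), smul_zero]

theorem aeval_monic {A : End F V} {p : F[X]} (hp : p.Monic) {v : V} {ω : V →ₗ[F] W}
    (h : ∀ i < p.natDegree, ω ((A ^ i) v) = 0) : ω (aeval A p v) = ω ((A ^ p.natDegree) v) := by
  have := aeval_kill (A := A) (p := p - X ^ p.natDegree) (l := p.natDegree) (by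
    have := degree_sub_lt_left (p := p) (q := X ^ p.natDegree) (by simp [degree_eq_natDegree hp.ne_zero]) hp.ne_zero (by simp [hp])
    rwa [degree_eq_natDegree hp.ne_zero] at this) h
  simpa [sub_eq_zero] using this

/-- the cyclic subspace -/
noncomputable def kry (A : End F V) (u : V) : F[X] →ₗ[F] V := LinearMap.applyₗ u ∘ₗ (aeval A).toLinearMap

@[simp] theorem kry_apply (A : End F V) (u : V) (p : F[X]) : kry A u p = aeval A p u := rfl

theorem kry_inv (A : End F V) (u : V) : ∀ s ∈ LinearMap.range (kry A u), A s ∈ LinearMap.range (kry A u) := by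
  rintro _ ⟨p, rfl⟩
  exact ⟨X * p, by simp⟩

theorem kr_of_spec {A : End F V} {θ : V →ₗ[F] F} {u : V} {k : ℕ} (hd : finrank F V = k + 1)
    (h1 : ∀ i < k, θ ((A ^ i) u) = 0) (h2 : θ ((A ^ k) u) ≠ 0) : Kr A u := fun p hp h => by
  by_contra h0
  have h3 : p.natDegree ≤ k := by
    have := (natDegree_lt_iff_degree_lt h0).2 hp
    omega
  have h4 := monic_mul_leadingCoeff_inv h0
  have h5 : (X ^ (k - p.natDegree) * (p * C p.leadingCoeff⁻¹)).natDegree = k := by
    rw [(monic_X_pow _).natDegree_mul h4, natDegree_mul_leadingCoeff_inv _ h0, natDegree_X_pow]; omega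
  have := aeval_monic (A := A) ((monic_X_pow _).mul h4) (ω := θ) (v := u) (by rwa [h5])
  rw [h5, mul_comm p, ← mul_assoc, map_mul, Module.End.mul_apply, h, map_zero, map_zero] at this
  exact h2 this.symm

variable [FiniteDimensional F V] [FiniteDimensional F W]

theorem aeval_mod (A : End F V) (p : F[X]) : aeval A (p %ₘ A.charpoly) = aeval A p :=
  aeval_modByMonic_eq_self_of_root A.aeval_self_charpoly

theorem degree_mod (A : End F V) (p : F[X]) : (p %ₘ A.charpoly).degree < finrank F V := by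
  have := degree_modByMonic_lt p A.charpoly_monic
  rwa [degree_eq_natDegree A.charpoly_monic.ne_zero, LinearMap.charpoly_natDegree] at this

theorem Obs.exists_spec {A : End F V} {θ : V →ₗ[F] F} (h : Obs A θ) {k : ℕ} (hd : finrank F V = k + 1) :
    ∃ u, (∀ i < k, θ ((A ^ i) u) = 0) ∧ θ ((A ^ k) u) = 1 := by
  obtain ⟨u, hu, u0⟩ := (Submodule.ne_bot_iff _).1 (LinearMap.ker_ne_bot_of_finrank_lt
    (f := LinearMap.pi fun i : Fin k => θ ∘ₗ (A ^ (i : ℕ))) (by simp; omega))
  have h1 : ∀ i < k, θ ((A ^ i) u) = 0 := fun i hi => congrFun hu ⟨i, hi⟩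
  have h2 : θ ((A ^ k) u) ≠ 0 := fun h2 => u0 <| by
    have := h _ (kry_inv A u) (by
      rintro _ ⟨p, rfl⟩
      rw [kry_apply, ← aeval_mod]
      refine aeval_kill (degree_mod A p) fun i hi => ?_
      rcases (by omega : i < k ∨ i = k) with hi | rfl
      exacts [h1 i hi, h2])
    exact (Submodule.mem_bot F).1 (this ▸ ⟨1, by simp⟩)
  exact ⟨(θ ((A ^ k) u))⁻¹ • u, fun i hi => by simp [h1 i hi], by simp [h2]⟩

theorem Reg.exists_kr {A : End F V} (h : Reg A) : ∃ u, Kr A u := by
  obtain ⟨θ, h⟩ := h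
  rcases hd : finrank F V with _ | k
  · exact ⟨0, fun p hp _ => by simpa [hd] using hp⟩
  obtain ⟨u, h1, h2⟩ := h.exists_spec hd
  exact ⟨u, kr_of_spec hd h1 (by simp [h2])⟩

theorem Kr.dvd {A : End F V} {u : V} (h : Kr A u) {p : F[X]} (hp : aeval A p u = 0) : A.charpoly ∣ p :=
  (modByMonic_eq_zero_iff_dvd A.charpoly_monic).1 (h _ (degree_mod A p) (by rwa [aeval_mod]))

theorem Kr.charpoly {A : End F V} {u : V} (h : Kr A u) {f : F[X]} (hf : f.Monic) (hd : f.natDegree = finrank F V)
    (hp : aeval A f u = 0) : A.charpoly = f :=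
  (eq_of_monic_of_dvd_of_natDegree_le A.charpoly_monic hf (h.dvd hp) (by rw [hd, LinearMap.charpoly_natDegree])).symm

theorem Kr.cyc {A : End F V} {u : V} (h : Kr A u) : Cyc A u := fun w => by
  let f := kry A u ∘ₗ (degreeLT F (finrank F V)).subtype
  have : Module.Finite F (degreeLT F (finrank F V)) := (degreeLTEquiv F _).symm.finiteDimensional
  have h1 : Function.Injective f := (injective_iff_map_eq_zero _).2 fun p hp =>
    Subtype.ext (h p (mem_degreeLT.1 p.2) hp)
  obtain ⟨p, hp⟩ := (LinearMap.injective_iff_surjective_of_finrank_eq_finrank (by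
    simp [(degreeLTEquiv F _).finrank_eq])).1 h1 w
  exact ⟨p, hp⟩

theorem sim_of_kr {A : End F V} {B : End F W} {u : V} {w : W} (h : Kr A u) (h' : Kr B w) (hc : A.charpoly = B.charpoly) :
    Sim A B := by
  have k : LinearMap.ker (kry A u) = LinearMap.ker (kry B w) := by
    ext p
    constructor
    · intro hp
      obtain ⟨q, rfl⟩ := h.dvd hp
      simp [hc, mul_comm _ q, LinearMap.aeval_self_charpoly]
    · intro hp
      obtain ⟨q, rfl⟩ := h'.dvd hp
      simp [← hc, mul_comm _ q, LinearMap.aeval_self_charpoly]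
  let e := ((kry A u).quotKerEquivOfSurjective h.cyc).symm ≪≫ₗ Submodule.quotEquivOfEq _ _ k ≪≫ₗ
    (kry B w).quotKerEquivOfSurjective h'.cyc
  have he : ∀ p, e (kry A u p) = kry B w p := fun p => by
    have : ((kry A u).quotKerEquivOfSurjective h.cyc).symm (kry A u p) = Submodule.Quotient.mk p :=
      (LinearEquiv.symm_apply_eq _).2 rfl
    simp only [e, LinearEquiv.trans_apply, this]; rfl
  refine sim_iff.2 ⟨e, fun v => ?_⟩
  obtain ⟨p, rfl⟩ := h.cyc v
  have := he (X * p)
  simp only [kry_apply, map_mul, aeval_X, Module.End.mul_apply] at this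
  rw [this, ← kry_apply, ← kry_apply, he]

theorem sim_of_reg {A : End F V} {B : End F W} (h : Reg A) (h' : Reg B) (hc : A.charpoly = B.charpoly) : Sim A B := by
  obtain ⟨u, h⟩ := h.exists_kr
  obtain ⟨w, h'⟩ := h'.exists_kr
  exact sim_of_kr h h' hc

/-- pole placement -/
theorem Obs.pole {A : End F V} {θ : V →ₗ[F] F} (h : Obs A θ) {f : F[X]} (hf : f.Monic) (hd : f.natDegree = finrank F V) :
    ∃ r, (A + θ.smulRight r).charpoly = f := by
  rcases hn : finrank F V with _ | k
  · exact ⟨0, by rw [(LinearMap.charpoly_monic _).natDegree_eq_zero.1 (by rw [LinearMap.charpoly_natDegree, hn]),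
      hf.natDegree_eq_zero.1 (hd.trans hn)]⟩
  obtain ⟨u, h1, h2⟩ := h.exists_spec hn
  refine ⟨-aeval A f u, ?_⟩
  set B := A + θ.smulRight (-aeval A f u)
  have e : ∀ i ≤ k, (B ^ i) u = (A ^ i) u := fun i hi => by
    induction i with
    | zero => rfl
    | succ i ih => simp [pow_succ', ih (by omega), B, h1 i (by omega)]
  refine (kr_of_spec hn (θ := θ) (fun i hi => by rw [e i hi.le, h1 i hi]) (by simp [e k, h2])).charpoly hf hd ?_
  have d : f.degree < (k + 1 + 1 : ℕ) := by rw [degree_eq_natDegree hf.ne_zero, hd, hn]; exact_mod_cast Nat.lt_succ_self _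
  have c : f.coeff (k + 1) = 1 := by rw [← hn, ← hd]; exact hf
  have e1 := aeval_sum (A := A) d u
  rw [aeval_sum d, Finset.sum_range_succ, Finset.sum_congr rfl fun i hi => by rw [e i (by simpa [Nat.lt_succ_iff] using hi)]]
  rw [Finset.sum_range_succ] at e1
  simp only [c, one_smul, pow_succ', Module.End.mul_apply, e k le_rfl] at e1 ⊢
  simp only [B, LinearMap.add_apply, LinearMap.smulRight_apply, h2, one_smul]
  rw [← add_assoc, ← e1, add_neg_cancel]

theorem exists_ann (A : End F V) {g : F[X]} (hg : g ∣ minpoly F A) : ∃ u, ∀ p, aeval A p u = 0 ↔ g ∣ p := by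
  obtain ⟨x, hx⟩ := Module.exists_ker_toSpanSingleton_eq_annihilator F[X] (AEval' A)
  obtain ⟨x, rfl⟩ := (AEval'.of _).surjective x
  rw [← span_minpoly_eq_annihilator] at hx
  have h1 : ∀ p, aeval A p x = 0 ↔ minpoly F A ∣ p := fun p => by
    rw [← Ideal.mem_span_singleton, ← hx, LinearMap.mem_ker, LinearMap.toSpanSingleton_apply, ← AEval.of_aeval_smul,
      LinearEquiv.map_eq_zero_iff]; rfl
  obtain ⟨q, hq⟩ := hg
  have q0 : q ≠ 0 := by rintro rfl; exact minpoly.ne_zero (Algebra.IsIntegral.isIntegral A) (by simpa using hq)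
  exact ⟨aeval A q x, fun p => by rw [← Module.End.mul_apply, ← map_mul, h1, hq, mul_dvd_mul_iff_right q0]⟩

omit [FiniteDimensional F V] in
theorem aeval_dual (A : End F V) (p : F[X]) (θ : Dual F V) : aeval (show End F (Dual F V) from A.dualMap) p θ = θ ∘ₗ aeval A p := by
  induction p using Polynomial.induction_on' with
  | add p q h1 h2 => simp [h1, h2, LinearMap.comp_add]
  | monomial n a =>
    have : ∀ n : ℕ, ((show End F (Dual F V) from A.dualMap) ^ n) θ = θ ∘ₗ (A ^ n) := fun n => by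
      induction n with
      | zero => rfl
      | succ n ih => rw [pow_succ', Module.End.mul_apply, ih, pow_succ]; rfl
    ext v
    simp [aeval_monomial, this]

theorem exists_ann_dual (A : End F V) {g : F[X]} (hg : g ∣ minpoly F A) :
    ∃ θ : V →ₗ[F] F, ∀ p, θ ∘ₗ aeval A p = 0 ↔ g ∣ p := by
  obtain ⟨θ, h⟩ := exists_ann (show End F (Dual F V) from A.dualMap) (g := g) (hg.trans (minpoly.dvd _ _ (LinearMap.ext fun v =>
    (Module.forall_dual_apply_eq_zero_iff F _).1 fun θ => by
      have := LinearMap.congr_fun (minpoly.aeval F (show End F (Dual F V) from A.dualMap)) θ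
      rw [aeval_dual] at this
      exact LinearMap.congr_fun this v)))
  exact ⟨θ, fun p => by rw [← h, aeval_dual]⟩

theorem reg_of_min {A : End F V} (h : finrank F V ≤ (minpoly F A).natDegree) : Reg A := by
  obtain ⟨θ, hθ⟩ := exists_ann_dual A dvd_rfl
  have : Kr (show End F (Dual F V) from A.dualMap) θ := fun p hp h0 => by
    rw [aeval_dual, hθ] at h0
    refine eq_zero_of_dvd_of_degree_lt h0 (hp.trans_le ?_)
    rw [degree_eq_natDegree (minpoly.ne_zero (Algebra.IsIntegral.isIntegral A)), Subspace.dual_finrank_eq]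
    exact_mod_cast h
  refine ⟨θ, fun S h1 h2 => eq_bot_iff.2 fun s hs => (Module.forall_dual_apply_eq_zero_iff F _).1 fun ω => ?_⟩
  obtain ⟨p, rfl⟩ := this.cyc ω
  rw [aeval_dual]
  exact h2 _ (aeval_apply_smul_mem_of_le_comap hs p A h1)

theorem reg_of_cyc {A : End F V} {v : V} (h : Cyc A v) : Reg A := by
  have m := minpoly.monic (Algebra.IsIntegral.isIntegral (R := F) A)
  let f := kry A v ∘ₗ (degreeLT F (minpoly F A).natDegree).subtype
  have : Module.Finite F (degreeLT F (minpoly F A).natDegree) := (degreeLTEquiv F _).symm.finiteDimensional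
  have h1 : LinearMap.range f = ⊤ := LinearMap.range_eq_top.2 fun w => by
    obtain ⟨p, rfl⟩ := h w
    exact ⟨⟨p %ₘ minpoly F A, mem_degreeLT.2 (degree_eq_natDegree m.ne_zero ▸ degree_modByMonic_lt p m)⟩, by
      simp [f, aeval_modByMonic_eq_self_of_root (minpoly.aeval F A)]⟩
  have := LinearMap.finrank_range_le f
  rw [h1] at this
  exact reg_of_min (by simpa [(degreeLTEquiv F _).finrank_eq] using this)

theorem inv_of_inv {A B : End F V} (h : A * B = 1) {S : Submodule F V} (hS : ∀ s ∈ S, B s ∈ S) : ∀ s ∈ S, A s ∈ S := fun s hs => by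
  have k : ∀ v, A (B v) = v := LinearMap.congr_fun h
  obtain ⟨t, ht⟩ := LinearMap.injective_iff_surjective.1 (show Function.Injective (B.restrict hS) from fun a b e =>
    Subtype.ext (by rw [← k a, ← k b]; exact congrArg (fun z : S => A z) e)) ⟨s, hs⟩
  rw [show s = B t from (congrArg Subtype.val ht).symm, k]
  exact t.2

theorem Reg.inv {A B : End F V} (hA : Reg A) (h : A * B = 1) : Reg B :=
  hA.imp fun _ hθ S h1 h2 => hθ S (inv_of_inv h h1) h2

theorem dvd_minpoly {A : End F V} {g : F[X]} (hg : Irreducible g) (h : g ∣ A.charpoly) : g ∣ minpoly F A := by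
  obtain ⟨M, hM⟩ := exists_matrix_sim (n := Fin (finrank F V)) A (by simp)
  have : Fact (Irreducible g) := ⟨hg⟩
  have h1 : aeval M (minpoly F A) = 0 := Matrix.toLin'.injective (by
    rw [toLin'_aeval, (hM.aeval _).eq_zero_iff.2 (minpoly.aeval F A), map_zero])
  rw [← hM.charpoly, Matrix.charpoly_toLin'] at h
  have := aeval_eq_zero_of_root M _ (h1 ▸ IsNilpotent.zero) (μ := AdjoinRoot.root g) (by
    rwa [AdjoinRoot.aeval_eq, AdjoinRoot.mk_eq_zero])
  rwa [AdjoinRoot.aeval_eq, AdjoinRoot.mk_eq_zero] at this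

theorem reg_of_squarefree {A : End F V} (h : Squarefree A.charpoly) : Reg A := by
  obtain ⟨q, hq⟩ := LinearMap.minpoly_dvd_charpoly A
  have m := minpoly.monic (Algebra.IsIntegral.isIntegral (R := F) A)
  have : IsUnit q := by
    by_contra h1
    obtain ⟨g, h2, h3⟩ := WfDvdMonoid.exists_irreducible_factor h1 (right_ne_zero_of_mul (hq ▸ A.charpoly_monic.ne_zero))
    exact h2.not_isUnit (h g (hq ▸ mul_dvd_mul (dvd_minpoly h2 (hq ▸ h3.mul_left _)) h3))
  refine reg_of_min ?_
  rw [← LinearMap.charpoly_natDegree A, hq, natDegree_mul m.ne_zero this.ne_zero, natDegree_eq_zero_of_isUnit this]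
  rfl

end Cfsg.Agent.CovN
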