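import Cfsg.Agent.CovN.Trans

/-!
Scalars as products of conjugates.
-/

set_option autoImplicit false
set_option linter.unusedSectionVars false

open Polynomial Module

universe u

namespace Cfsg.Agent.CovN

open Cfsg.Agent.GLn Cfsg.Agent.Fac

section
variable {F : Type*} [Field F] {V W Q : Type*} [AddCommGroup V] [Module F V] [AddCommGroup W] [Module F W]
  [AddCommGroup Q] [Module F Q] [FiniteDimensional F V] [FiniteDimensional F W] [FiniteDimensional F Q]

def Sc (x : End F V) (k : ℕ) : Prop := ∃ c : F, Prd (Cj x) Set.univ k (c • 1)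

theorem Sc.of_sim {x : End F V} {y : End F W} {k : ℕ} (h : Sc x k) (hs : Sim x y) : Sc y k := by
  obtain ⟨e, rfl⟩ := hs
  obtain ⟨c, h⟩ := h
  exact ⟨c, by simpa using h.map e fun A hA => hA.map e⟩

theorem CovA.sc {x : End F V} {μ : Set F} {k : ℕ} (h : CovA (Cj x) (LinearMap.det x) μ k) (h1 : LinearMap.det x = 1) : Sc x k :=
  ⟨1, (h _ (by simp [h1])).mono (fun _ h => h) (Set.subset_univ _)⟩

theorem sc_diag {x : End F V} (h : Diag x) (hd : 0 < finrank F V) : Sc x (finrank F V) := by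
  obtain ⟨ι, _, b₀, l₀, h⟩ := h
  obtain ⟨n, hn⟩ := Nat.exists_eq_add_one.2 hd
  let e : ι ≃ Fin (n + 1) := Fintype.equivFinOfCardEq (by rw [← finrank_eq_card_basis b₀, hn])
  obtain ⟨b, l, h⟩ : ∃ (b : Basis (Fin (n + 1)) F V) (l : Fin (n + 1) → F), ∀ i, x (b i) = l i • b i :=
    ⟨b₀.reindex e, l₀ ∘ e.symm, fun i => by simp [h]⟩
  have df : DetFull x := detFull_of_eigen (u := b 0) (φ := b.coord 0) (h 0) (fun v => LinearMap.congr_fun
    (show b.coord 0 ∘ₗ x = l 0 • b.coord 0 from b.ext fun i => by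
      by_cases k : i = 0 <;> simp [h, k]) v) (by simp)
  let D : Fin (n + 1) → End F V := fun j => b.constr F fun i => l (i + j) • b i
  have key : ∀ (L : List (Fin (n + 1))) i, (L.map D).prod (b i) = (L.map fun j => l (i + j)).prod • b i := fun L i => by
    induction L with
    | nil => simp
    | cons a L ih => simp [ih, D, smul_smul, mul_comm]
  refine ⟨∏ i, l i, (List.finRange (n + 1)).map D, by simp [hn], ?_, b.ext fun i => ?_, nc_univ (by simp)⟩
  · simp only [List.mem_map, forall_exists_index, and_imp, forall_apply_eq_imp_iff₂]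
    refine fun j _ => cj_of_sim df (Sim.symm (sim_iff.2 ⟨b.equiv b (Equiv.addRight j), fun v => LinearMap.congr_fun
      (show (b.equiv b (Equiv.addRight j)).toLinearMap ∘ₗ D j = x ∘ₗ (b.equiv b (Equiv.addRight j)).toLinearMap from
        b.ext fun i => by simp [D, h]) v⟩))
  · rw [key, ← Fin.prod_univ_def]
    simp only [LinearMap.smul_apply, Module.End.one_apply]
    congr 1
    exact Equiv.prod_comp (Equiv.addLeft i) l

theorem diag_of_quad {x : End F V} {l l' : F} (hl : l ≠ l') (hx : ∀ v, x (x v) = (l + l') • x v - (l * l') • v) : Diag x := by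
  have h : IsCompl (LinearMap.ker (x - l • 1)) (LinearMap.ker (x - l' • 1)) := ⟨Submodule.disjoint_def.2 fun v h1 h2 => by
    have : (l - l') • v = 0 := by
      simp only [LinearMap.mem_ker, LinearMap.sub_apply, LinearMap.smul_apply, Module.End.one_apply] at h1 h2
      linear_combination (norm := module) h2 - h1
    simpa [sub_ne_zero.2 hl] using this, codisjoint_iff.2 (eq_top_iff.2 fun v _ => Submodule.mem_sup.2
      ⟨(l - l')⁻¹ • (x v - l' • v), Submodule.smul_mem _ _ (by simp [hx]; module), (l - l')⁻¹ • (l • v - x v),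
        Submodule.smul_mem _ _ (by simp [hx]; module), by
          rw [← smul_add, inv_smul_eq_iff₀ (sub_ne_zero.2 hl)]; module⟩)⟩
  refine ((diag_smul_one l).prodMap (diag_smul_one l')).of_sim (sim_iff.2 ⟨Submodule.prodEquivOfIsCompl _ _ h, fun ⟨a, b⟩ => ?_⟩)
  have h1 : x a = l • a := sub_eq_zero.1 a.2
  have h2 : x b = l' • b := sub_eq_zero.1 b.2
  simp [h1, h2]

theorem sc_unip {B : Type*} [AddCommGroup B] [Module F B] [FiniteDimensional F B] {β : End F B}
    (hβ : Cov (Cj β) (LinearMap.det β) ∅ (finrank F B)) (hn : NSc β) {x : End F V} {π : V →ₗ[F] B} (hs : Function.Surjective π)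
    (hπ : ∀ v, π (x v) = β (π v)) (hd : finrank F V = finrank F B + 1) (hx : LinearMap.det x ≠ 0) {l : F}
    (hl : x.charpoly = (X - C l) ^ finrank F V) : Sc x (finrank F V) := by
  have d := π.finrank_range_add_finrank_ker
  rw [LinearMap.range_eq_top.2 hs, finrank_top] at d
  obtain ⟨u, u0, hu⟩ := finrank_eq_one_iff'.1 (show finrank F (LinearMap.ker π) = 1 by omega)
  obtain ⟨l', hl'⟩ := hu ⟨x u, by simp [hπ]⟩
  have e : x u = l' • u := (congrArg Subtype.val hl').symm
  obtain rfl : l' = l := by simpa [hl, sub_eq_zero, hd] using isRoot_of_eigen (by simpa using u0) e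
  obtain ⟨Q, R, y, ρ, s, p1, p2, p3⟩ := eigen_dec (by simpa using u0) e
  obtain ⟨s1, s2, s3⟩ := charpoly_dec s
  obtain ⟨σ, hσ⟩ := exists_factor p1 (ρ := π) fun v hv => by obtain ⟨a, rfl⟩ := (p3 v).1 hv; simp
  have q : finrank F Q = finrank F B := by simp at s2; omega
  have s' : Sim y β := sim_iff.2 ⟨LinearEquiv.ofBijective σ (by
    have : Function.Surjective σ := fun b => (hs b).elim fun v hv => ⟨ρ v, (hσ v).trans hv⟩
    exact ⟨(LinearMap.injective_iff_surjective_of_finrank_eq_finrank q).2 this, this⟩), fun w => by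
      obtain ⟨v, rfl⟩ := p1 w
      exact (congrArg σ (p2 v).symm).trans ((hσ _).trans ((hπ v).trans (congrArg β (hσ v).symm)))⟩
  have y0 := right_ne_zero_of_mul (s3 ▸ hx)
  have l0 : l' ≠ 0 := det_sc l' ▸ left_ne_zero_of_mul (s3 ▸ hx)
  obtain ⟨y', h1, h2⟩ := exists_inv y0
  have dy : LinearMap.det y = l' ^ finrank F B := by
    rw [hl, hd, charpoly_sc, pow_succ', mul_right_inj' (X_sub_C_ne_zero _), ← q] at s1
    simpa [q] using det_of_split (N := y) (r := fun _ => l') (by simp [s1])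
  have dn : LinearMap.det (l' ^ finrank F V • y') = LinearMap.det y ^ finrank F B := mul_left_cancel₀ y0 (by
    rw [← map_mul, mul_smul_comm, h1, LinearMap.det_smul, map_one, dy, q, hd]; ring)
  obtain ⟨L, l1, l2, l3, l4⟩ := (hβ.of_sim s'.symm).sim _ dn fun c hc => hn.of_sim s'.symm ((l' ^ finrank F V) / c) (by
    have : c ≠ 0 := by
      rintro rfl
      rw [hc, zero_smul, LinearMap.det_zero, zero_pow (q ▸ hn.pos.ne')] at dn
      exact pow_ne_zero _ y0 dn.symm
    have k := congrArg (y * ·) hc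
    simp only [mul_smul_comm, h1, mul_one] at k
    rw [div_eq_inv_mul, mul_smul, k, inv_smul_smul₀ this])
  have e : (L.map fun B => (sc l', B)).map Prod.snd = L := by simp [Function.comp_def]
  obtain ⟨L', k1, k2, -, k4⟩ := lift (cj_closed (blk (sc l') R 0 y)) (L.map fun B => (sc l', B))
    (by simpa using fun B hB => cj_blk_of_sim (detFull_sc l') R (l2 B hB)) (by rw [e, l3, dn]; exact pow_ne_zero _ y0)
    (fun Z hZ => by
      have k : ∀ B ∈ L, ∀ w, B (Z w) = Z (sc l' w) := fun B hB w => LinearMap.congr_fun (hZ (_, B) (List.mem_map_of_mem hB)) w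
      refine LinearMap.range_eq_bot.1 (l4 _ ?_ ?_ (by simp))
      · rintro B hB _ ⟨w, rfl⟩; exact ⟨_, (k B hB w).symm⟩
      · rintro B hB C hC _ ⟨w, rfl⟩; rw [k B hB, k C hC]) (-(l' ^ finrank F B • R ∘ₗ y'))
  refine Sc.of_sim ⟨l' ^ finrank F V, _ :: L', by simp [k1, l1, hd], by simpa using ⟨Cj.refl _, k2⟩, ?_, nc_univ (by simp)⟩ s
  rw [List.prod_cons, k4, e, l3, blk_upper_mul]
  ext <;> simp [Function.comp_def, l1, hd, _root_.smul_pow, pow_succ', h1, mul_smul, mul_comm]

theorem exists_sharp (hd : finrank F V = 2) (y : End F V) :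
    ∃ c : End F V, LinearMap.det c = -1 ∧ c * y = (LinearMap.trace F V y • 1 - y) * c := by
  by_cases h : NSc y
  · obtain ⟨u, u0, hu⟩ := exists_not_eigen h
    obtain ⟨φ, h1, h2⟩ := exists_fun₂ u0 hu 0 1
    refine ⟨1 + φ.smulRight (LinearMap.trace F V y • u - (2 : F) • y u), by simp [det_rank_one, h1, h2]; ring,
      LinearMap.ext fun v => ?_⟩
    obtain ⟨⟨a, b⟩, rfl⟩ := (LinearMap.injective_iff_surjective_of_finrank_eq_finrank (by simp [hd])).1 (inj_pair u0 hu) v
    simp [h1, h2, cayley_two hd y u]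
    module
  · obtain ⟨a, rfl⟩ : ∃ a : F, y = a • 1 := by simpa [NSc] using h
    obtain ⟨c, h1, -⟩ := exists_fix_det (S := (⊥ : Submodule F V)) (by simp [hd]) (-1)
    exact ⟨c, h1, by ext v; simp [hd]; module⟩

theorem mul_sharp (hd : finrank F V = 2) (y : End F V) : y * (LinearMap.trace F V y • 1 - y) = LinearMap.det y • 1 := by
  ext v; simp [cayley_two hd y v]

theorem prd_sum (hd : finrank F W = 2) (hd' : finrank F Q = 2) (y : End F W) (y' : End F Q) :
    Prd (Cj (y.prodMap y')) Set.univ 2 ((LinearMap.det y • 1 : End F W).prodMap (LinearMap.det y' • 1)) := by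
  obtain ⟨c, h1, h2⟩ := exists_sharp hd y
  obtain ⟨c', h3, h4⟩ := exists_sharp hd' y'
  refine ⟨[y.prodMap y', (LinearMap.trace F W y • 1 - y).prodMap (LinearMap.trace F Q y' • 1 - y')], rfl, ?_,
    by simp [← mul_sharp hd, ← mul_sharp hd', LinearMap.prodMap_mul], nc_univ (by simp)⟩
  simp only [List.mem_cons, List.not_mem_nil, or_false, forall_eq_or_imp, forall_eq]
  exact ⟨Cj.refl _, c.prodMap c', by simp [LinearMap.det_prodMap, h1, h3], by simp only [LinearMap.prodMap_mul, h2, h4]⟩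

theorem sc_sum (hd : finrank F W = 2) (hd' : finrank F Q = 2) (y : End F W) (y' : End F Q) : Sc (y.prodMap y') 4 := by
  let e := LinearEquiv.ofFinrankEq W Q (hd.trans hd'.symm)
  have g0 : LinearMap.det (blk 0 e.symm.toLinearMap e.toLinearMap 0) ≠ 0 := left_ne_zero_of_mul_eq_one (by
    rw [← map_mul, show blk 0 e.symm.toLinearMap e.toLinearMap 0 * blk 0 e.symm.toLinearMap e.toLinearMap 0 = 1 by ext <;> simp,
      map_one])
  obtain ⟨k, k1, -⟩ := exists_fix_det (S := (⊥ : Submodule F W)) (by simp [hd]) (LinearMap.det (blk 0 e.symm.toLinearMap e.toLinearMap 0))⁻¹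
  obtain ⟨k', k2, k3⟩ := exists_inv (k1 ▸ inv_ne_zero g0)
  have c : Cj (y.prodMap y') ((k * e.symm.conjAlgEquiv F y' * k').prodMap (e.conjAlgEquiv F y)) :=
    ⟨k.prodMap 1 * blk 0 e.symm.toLinearMap e.toLinearMap 0, by simp [LinearMap.det_prodMap, k1, g0], by
      ext <;> simp [← Module.End.mul_apply k' k, k3]⟩
  refine ⟨LinearMap.det y * LinearMap.det y', ?_⟩
  convert (prd_sum hd hd' y y').mul ((prd_sum hd hd' _ _).mono (fun _ h => c.trans h) le_rfl) using 1
  rw [det_conjAlg, map_mul, map_mul, mul_right_comm, ← map_mul, k2, map_one, one_mul, det_conjAlg]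
  ext <;> simp [smul_smul, mul_comm]

theorem sc_sq [Finite F] (hd : finrank F W = 2) (hd' : finrank F Q = 2) {y : End F W} {y' : End F Q} (R : Q →ₗ[F] W)
    (h : LinearMap.trace F W y ^ 2 ≠ 4 * LinearMap.det y) (h0 : LinearMap.det y ≠ 0) (he : y.charpoly = y'.charpoly) :
    Sc (blk y R 0 y') 4 := by
  obtain ⟨h1, h2⟩ := tr_det hd' (he.symm.trans (charpoly_two hd y))
  obtain ⟨c, c1, c2⟩ := exists_sharp hd y
  obtain ⟨c', c3, c4⟩ := exists_sharp hd' y'
  have s1 := sim_of_det (by simp [c1]) c2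
  have s2 := sim_of_det (by simp [c3]) c4
  have m1 := mul_sharp hd y
  have m2 := mul_sharp hd' y'
  have m3 : (LinearMap.trace F Q y' • 1 - y') * y' = LinearMap.det y' • 1 := by rw [← m2]; simp [mul_sub, sub_mul]
  have k := fun {P B} (h1 : Sim y P) (h2 : Sim y' B) => cj_blk_sim (detFull_two hd h) h1 R h2
  set z := LinearMap.trace F W y • 1 - y
  set z' := LinearMap.trace F Q y' • 1 - y' with hz'
  have e : y' * (z' * (z' * y')) = (LinearMap.det y * LinearMap.det y) • 1 := by rw [m3, ← mul_assoc, m2, h2]; simp [smul_smul]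
  obtain ⟨L, k1, k2, -, k4⟩ := lift (cj_closed (blk y R 0 y')) [(y, y'), (z, z'), (y, z'), (z, y')]
    (by simp [k (Sim.refl _) (Sim.refl _), k s1 s2, k (Sim.refl _) s2, k s1 (Sim.refl _)]) (by simp [e, h0, -map_mul])
    (fun Z hZ => LinearMap.ext fun w => by
      have q1 := LinearMap.congr_fun (hZ (y, y') (by simp)) w
      have q2 := LinearMap.congr_fun (hZ (y, z') (by simp)) w
      have q3 : y' (Z w) = LinearMap.trace F Q y' • Z w - y' (Z w) := q1.trans q2.symm
      have q4 := congrArg y' q3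
      rw [map_sub, map_smul, cayley_two hd', h1, h2] at q4
      rw [h1] at q3
      refine (smul_eq_zero.1 (?_ : (LinearMap.trace F W y ^ 2 - 4 * LinearMap.det y) • Z w = 0)).resolve_left (sub_ne_zero.2 h)
      linear_combination (norm := module) (2 : F) • q4 - LinearMap.trace F W y • q3) 0
  refine ⟨LinearMap.det y * LinearMap.det y, L, k1, k2, k4.trans ?_, nc_univ (by rintro rfl; simp at k1)⟩
  simp only [List.map_cons, List.map_nil, List.prod_cons, List.prod_nil, mul_one, e, m1]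
  rw [← mul_assoc, m1]
  ext <;> simp [smul_smul]

theorem sc_trick {x X N : End F V} (e : x = X * N) (h1 : X * X * X = 1) (h2 : N * N * N = 1) (h3 : LinearMap.det N = 1) : Sc x 3 := by
  have h4 : x * (N * N) = X := by rw [e, mul_assoc, ← mul_assoc N, h2, mul_one]
  refine ⟨1, [x, N * N * x * N, N * x * (N * N)], rfl, ?_, ?_, nc_univ (by simp)⟩
  · simp only [List.mem_cons, List.not_mem_nil, or_false, forall_eq_or_imp, forall_eq]
    exact ⟨Cj.refl x, cj_conj x (by simp [h3]) (by rw [← mul_assoc, h2]), cj_conj x h3 h2⟩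
  · rw [one_smul, ← h1, ← h4]; simp [mul_assoc]

end

variable {F : Type u} [Field F] [Finite F] {V : Type u} [AddCommGroup V] [Module F V] [FiniteDimensional F V]

theorem sc_reg_three (hF : Big F 4) (hd : finrank F V = 3) {x : End F V} (hx : Reg x) (h1 : LinearMap.det x = 1) : Sc x 3 := by
  have key : ∀ A : End F V, A.charpoly = quad (-1) 1 * (X - C 1) → A * A * A = 1 ∧ LinearMap.det A = 1 := fun A h => by
    refine ⟨?_, by rw [LinearMap.det_eq_sign_charpoly_coeff, h, hd]; simp [coeff_zero_quad]; ring⟩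
    have := A.aeval_self_charpoly
    rw [h, show quad (-1) 1 * (X - C 1) = (X * X * X - 1 : F[X]) by simp [quad]; ring] at this
    simpa [sub_eq_zero] using this
  by_cases h3 : (3 : F) = 0
  · obtain ⟨B, -, -, b1, b2⟩ := fct_unip hF one_ne_zero h1 (hx.nsc (by omega))
    have e : (X - C 1 : F[X]) ^ finrank F V = quad (-1) 1 * (X - C 1) := by
      have : (3 : F[X]) = 0 := by rw [← map_ofNat C 3, h3, map_zero]
      simp only [hd, quad, map_neg, map_one]
      linear_combination (X - X ^ 2) * this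
    obtain ⟨k1, k2⟩ := key B (b1.trans e)
    exact sc_trick (X := x * B) (N := B * B) (by rw [mul_assoc, ← mul_assoc B, k1, mul_one]) (key _ (b2.trans e)).1
      (by rw [← mul_assoc, ← mul_assoc, k1, one_mul, k1]) (by simp [k2])
  obtain ⟨Z, z1, z2⟩ := hx.exists_charpoly ((monic_quad (-1) 1).mul (monic_X_sub_C 1)) (by
    simp [(monic_quad _ _).natDegree_mul (monic_X_sub_C _), natDegree_quad, hd, -map_one])
  obtain ⟨z3, z4⟩ := key Z z2
  have ev : (quad (-1 : F) 1).eval 1 ≠ 0 := by rw [eval_quad]; intro k; exact h3 (by linear_combination k)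
  obtain ⟨φ, K, k0, k1, k2, k3⟩ := exists_hess_not z3 ((z2 ▸ dvd_mul_right _ _).trans z1.dvd_minpoly) (natDegree_quad _ _) (b := 1)
    (by simp [z2]) ev
  have k4 : ¬ K 1 := fun h => k3 fun j hj => by
    rcases j with _ | _ | j
    exacts [k0, h, by omega]
  obtain ⟨Y, y1, y2, -⟩ := t1 k1 k2 k0 hx z1 (g := fun l => if l = 0 then quad (-1) 1 else 1) (by
    rw [hd, z2]
    refine ⟨fun l _ _ => by split_ifs; exacts [monic_quad _ _, monic_one], fun l h1 h2 => ?_, fun l h1 h2 => ?_⟩
    · rcases l with _ | _ | _ | l <;> simp [natDegree_quad, k4] at * <;> omega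
    · rcases l with _ | l <;> simp) z2 ev (by simp [z4]) (by simp [z4, h1])
  obtain ⟨e, rfl⟩ := y1.symm
  obtain ⟨n1, n2⟩ := key _ (y2.charpoly.symm.trans z2)
  exact sc_trick (X := e.conjAlgEquiv F Z) (N := e.conjAlgEquiv F (Z * Z * Y)) (by
    rw [← map_mul, ← mul_assoc, ← mul_assoc, z3, one_mul]) (by rw [← map_mul, ← map_mul, z3, map_one])
    (by rw [← map_mul, ← map_mul, n1, map_one]) (by rw [det_conjAlg, n2])

theorem sc_three (hF : Big F 4) (hd : finrank F V = 3) {x : End F V} (h1 : LinearMap.det x = 1) : Sc x 3 := by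
  rcases three_cases hd (h1 ▸ one_ne_zero) with ⟨v, h⟩ | ⟨l, h⟩ | h
  · exact sc_reg_three hF hd (reg_of_cyc h) h1
  · have l0 : l ≠ 0 := by
      rintro rfl
      simp [← h.det, LinearMap.det_prodMap] at h1
    refine Sc.of_sim ⟨l ^ 3, ?_⟩ h
    convert (cov_tv hF (V := F × F × F) (by simp) (c := l) ⟨l⁻¹ • LinearMap.snd F F F ∘ₗ LinearMap.snd F F _, (0, 1, 0),
      fun k => l0 (by simpa using LinearMap.congr_fun k (0, 0, 1)), by simp, by simp, rfl⟩ l0).2 using 2
    · ext <;> simp [l0]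
    all_goals simp
  · exact hd ▸ sc_diag h (by omega)

theorem sc_four (hF : Big F 4) (hd : finrank F V = 4) {x : End F V} (h1 : LinearMap.det x = 1)
    (hi : ∀ g, Irreducible g → g.Monic → g ∣ x.charpoly → g.natDegree ≤ 2) : Sc x 4 := by
  have x0 : LinearMap.det x ≠ 0 := h1 ▸ one_ne_zero
  have unip : ∀ l, (X - C l) ^ 3 ∣ minpoly F x → x.charpoly = (X - C l) ^ 4 → Sc x 4 := fun l k1 k2 => by
    obtain ⟨Q, y, π, p1, p2, p3, p4, p5⟩ := exists_reg_quot ((monic_X_sub_C l).pow 3) k1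
    have d : finrank F Q = 3 := by simpa using finrank_eq_of_charpoly p4
    exact hd ▸ sc_unip (d ▸ cov_three hF d (ne_zero_of_dvd_ne_zero x0 p5) (nq_of_dvd p3.dvd_minpoly (by simp [p4])) (l := l)
      (by simp [p4])) (p3.nsc (by omega)) p1 p2 (by omega) x0 (hd ▸ k2)
  obtain ⟨L, hL, h⟩ := exists_blocks x
  by_cases h2 : ∃ p ∈ L, 2 ≤ (p.1 ^ p.2).natDegree
  swap
  · push Not at h2
    exact hd ▸ sc_diag (diag_of_blocks hL h x0 fun p hp => by have := one_le_deg hL hp; have := h2 p hp; omega) (by omega)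
  obtain ⟨⟨P, m⟩, hp, h2⟩ := h2
  obtain ⟨L', rfl⟩ := Multiset.exists_cons_of_mem hp
  obtain ⟨p1, p2, p3⟩ := hL _ hp
  obtain ⟨V₁, _, _, _, V₂, _, _, _, M₁, M₂, v, k1, k2, k3, k4⟩ := h.cons p2
  obtain ⟨s1, s2, s3⟩ := charpoly_dec (prodMap_eq_blk M₁ M₂ ▸ k4)
  have d2 := finrank_eq_of_charpoly k3
  simp only at *
  have dP := hi P p1 p2 (s1 ▸ (k3 ▸ dvd_pow_self P p3.ne').mul_left _)
  have dP' := p1.natDegree_pos
  rw [p2.natDegree_pow] at d2 h2
  have mp : M₂.charpoly ∣ minpoly F x := (reg_of_cyc k2).dvd_minpoly.trans (minpoly.dvd _ _ (LinearMap.ext fun w => by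
    have := LinearMap.congr_fun ((k4.aeval _).eq_zero_iff.2 (minpoly.aeval F x)) (LinearMap.inr F V₁ V₂ w)
    rw [← aeval_inter (x := M₂) (π := LinearMap.inr F V₁ V₂) fun _ => by simp] at this
    simpa using this))
  rcases (by omega : finrank F V₂ = 2 ∨ finrank F V₂ = 3 ∨ finrank F V₂ = 4) with c | c | c
  · exact (sc_sum (by omega) c M₁ M₂).of_sim k4
  · have e1 : P.natDegree = 1 := by
      rcases (by omega : P.natDegree = 1 ∨ P.natDegree = 2) with e | e <;> rw [e] at d2 <;> omega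
    obtain ⟨l, rfl⟩ : ∃ l, P = X - C l := ⟨-P.coeff 0, by simpa using p2.eq_X_add_C e1⟩
    obtain rfl : m = 3 := by simp at d2; omega
    rw [charpoly_one_dim (by omega) M₁, k3] at s1
    by_cases e : LinearMap.det M₁ = l
    · exact unip l (k3 ▸ mp) (by rw [s1, e]; ring)
    have cp : IsCoprime (X - C (LinearMap.det M₁)) ((X - C l) ^ 3) := (isCoprime_X_sub_C_of_isUnit_sub (sub_ne_zero.2 e).isUnit).pow_right
    have r : Reg x := (reg_of_cyc (Cyc.prodMap (show Cyc (sc (LinearMap.det M₁)) 1 from fun x => ⟨C x, by simp⟩) k2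
      (by rwa [charpoly_sc, k3]))).of_sim (((sim_sc (by omega) M₁).prodMap (Sim.refl M₂)).symm.trans k4)
    exact (((three_reg hF (by omega) r x0 one_ne_zero (Or.inl rfl)).cj (detFull_of_simple (irreducible_X_sub_C _)
      (monic_X_sub_C _) cp s1)).pad (by omega) (r.nsc (by omega)) x0).sc h1
  rw [(LinearMap.charpoly_monic M₁).natDegree_eq_zero.1 (by rw [LinearMap.charpoly_natDegree]; omega), one_mul, k3] at s1
  rcases (by omega : P.natDegree = 1 ∨ P.natDegree = 2) with e | e
  · obtain ⟨l, rfl⟩ : ∃ l, P = X - C l := ⟨-P.coeff 0, by simpa using p2.eq_X_add_C e⟩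
    obtain rfl : m = 4 := by simp at d2; omega
    exact unip l ((pow_dvd_pow _ (by omega)).trans (k3 ▸ mp)) s1
  obtain rfl : m = 2 := by rw [e] at d2; omega
  obtain ⟨W, w2, w1⟩ := exists_inv_sub p2 (dvd_minpoly p1 (s1 ▸ dvd_pow_self P two_ne_zero))
  obtain ⟨Q, R, y, -, s, -⟩ := exists_dec (P := x.restrict w2) W.subtype_injective fun _ => rfl
  obtain ⟨t1, t2, t3⟩ := charpoly_dec s
  have w3 := (finrank_eq_of_charpoly w1).trans e
  rw [s1, w1, sq, mul_right_inj' p2.ne_zero] at t1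
  exact (sc_sq w3 (by omega) R (SL2.Ell.disc fun a k => no_root p1 e.ge a (by
    rw [← w1, charpoly_two w3, eval_quad]; linear_combination k)) (left_ne_zero_of_mul (t3 ▸ x0)) (w1.trans t1)).of_sim s

end Cfsg.Agent.CovN
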