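import Cfsg.Agent.CovN.Three

/-!
Induction steps along an invariant subspace.
-/

set_option autoImplicit false
set_option linter.unusedSectionVars false

open Polynomial Module

namespace Cfsg.Agent.CovN

open Cfsg.Agent.GLn Cfsg.Agent.Fac

variable {F : Type*} [Field F] {V W Q : Type*} [AddCommGroup V] [Module F V] [AddCommGroup W] [Module F W]
  [AddCommGroup Q] [Module F Q]

theorem exists_dec {x : End F V} {P : End F W} {i : W →ₗ[F] V} (hi : Function.Injective i) (h : ∀ w, x (i w) = i (P w)) :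
    ∃ (Q : Submodule F V) (R : Q →ₗ[F] W) (y : End F Q) (π : V →ₗ[F] Q), Sim (blk P R 0 y) x ∧ Function.Surjective π ∧
      (∀ v, π (x v) = y (π v)) ∧ ∀ v, π v = 0 ↔ v ∈ LinearMap.range i := by
  obtain ⟨Q, hQ⟩ := (LinearMap.range i).exists_isCompl
  let e : (W × Q) ≃ₗ[F] V := (LinearEquiv.ofInjective i hi).prodCongr (LinearEquiv.refl F Q) ≪≫ₗ
    Submodule.prodEquivOfIsCompl _ _ hQ
  have he : ∀ w, e (w, 0) = i w := fun w => by simp [e]
  let A := e.symm.conjAlgEquiv F x
  have hA : ∀ z, e (A z) = x (e z) := fun z => by simp [A]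
  have h1 : ∀ w, A (w, 0) = (P w, 0) := fun w => e.injective (by rw [hA, he, he, h])
  have h2 : A = blk P (LinearMap.fst F W Q ∘ₗ A ∘ₗ LinearMap.inr F W Q) 0 (LinearMap.snd F W Q ∘ₗ A ∘ₗ LinearMap.inr F W Q) := by
    ext v <;> simp [h1]
  refine ⟨Q, _, _, LinearMap.snd F W Q ∘ₗ e.symm.toLinearMap, h2 ▸ sim_iff.2 ⟨e, hA⟩,
    fun q => ⟨e (0, q), by simp⟩, fun v => ?_, fun v => ?_⟩
  all_goals obtain ⟨z, rfl⟩ := e.surjective v
  · rw [← hA]
    conv_lhs => rw [h2]
    simp
  · refine ⟨fun h => ⟨z.1, by rw [← he]; exact congrArg e (Prod.ext rfl (by simpa using h.symm))⟩, ?_⟩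
    rintro ⟨w, hw⟩
    rw [← he, e.injective.eq_iff] at hw
    simp [← hw]

def Free (x : End F V) (d : ℕ) : Prop := ∃ U : Submodule F V, finrank F U = d ∧ ∀ u ∈ U, x u ∈ U → u = 0

variable [FiniteDimensional F V] [FiniteDimensional F W] [FiniteDimensional F Q]

theorem exists_notMem {S : Submodule F V} (h : finrank F S < finrank F V) : ∃ v, v ∉ S := by
  by_contra! k
  rw [show S = ⊤ from eq_top_iff.2 fun v _ => k v, finrank_top] at h
  omega

theorem finrank_sup_span_le (S : Submodule F V) (v : V) : finrank F ↥(S ⊔ F ∙ v) ≤ finrank F S + 1 :=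
  (Submodule.finrank_add_le_finrank_add_finrank _ _).trans (by
    have := finrank_span_le_card (R := F) ({v} : Set V)
    simp only [Set.toFinset_singleton, Finset.card_singleton] at this
    omega)

theorem finrank_sup_span {S : Submodule F V} {v : V} (h : v ∉ S) : finrank F ↥(S ⊔ F ∙ v) = finrank F S + 1 :=
  (finrank_sup_span_le S v).antisymm (Submodule.finrank_lt_finrank_of_lt (lt_of_le_of_ne le_sup_left fun e =>
    h (e ▸ Submodule.mem_sup_right (Submodule.mem_span_singleton_self v))))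

theorem stuck (x : End F V) {S : Submodule F V} (h : finrank F S + 2 ≤ finrank F V) :
    (∃ v, v ∉ S ∧ ∀ c : F, x v - c • v ∉ S) ∨ ∃ c : F, ∀ v, x v - c • v ∈ S := by
  refine or_iff_not_imp_left.2 fun k => ?_
  push Not at k
  obtain ⟨u, hu⟩ := exists_notMem (S := S) (by omega)
  obtain ⟨c, hc⟩ := k u hu
  have mu : u ∈ S ⊔ F ∙ u := Submodule.mem_sup_right (Submodule.mem_span_singleton_self u)
  have key : ∀ v, v ∉ S ⊔ F ∙ u → x v - c • v ∈ S := fun v hv => by
    obtain ⟨a, ha⟩ := k v fun h => hv (Submodule.mem_sup_left h)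
    obtain ⟨b, hb⟩ := k (v + u) fun h => hv (by simpa using sub_mem (Submodule.mem_sup_left h) mu)
    have h1 : (a - b) • v + (c - b) • u ∈ S := by
      convert sub_mem (sub_mem hb ha) hc using 1
      simp only [map_add, sub_smul, smul_add]; abel
    obtain rfl : a = b := by
      by_contra h2
      exact hv ((Submodule.smul_mem_iff _ (sub_ne_zero.2 h2)).1 (by
        simpa using sub_mem (Submodule.mem_sup_left h1) (Submodule.smul_mem _ (c - b) mu)))
    obtain rfl : c = a := by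
      by_contra h2
      exact hu ((Submodule.smul_mem_iff _ (sub_ne_zero.2 h2)).1 (by simpa using h1))
    exact ha
  refine ⟨c, fun v => by_contra fun hv => ?_⟩
  obtain ⟨w, hw⟩ := exists_notMem (S := S ⊔ F ∙ u) (by have := finrank_sup_span_le S u; omega)
  have h1 : v ∈ S ⊔ F ∙ u := by_contra fun h => hv (key v h)
  refine hv ?_
  convert sub_mem (key (v + w) fun h => hw (by simpa using sub_mem h h1)) (key w hw) using 1
  simp only [map_add, smul_add]; abel

theorem free_step {x : End F V} {U : Submodule F V} (hU : ∀ u ∈ U, x u ∈ U → u = 0) (h : 2 * finrank F U + 2 ≤ finrank F V) :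
    Free x (finrank F U + 1) ∨ ∃ c : F, ∀ v, x v - c • v ∈ U ⊔ U.map x := by
  refine (stuck x (S := U ⊔ U.map x) (by
    have := Submodule.finrank_add_le_finrank_add_finrank U (U.map x)
    have := Submodule.finrank_map_le x U
    omega)).imp_left fun ⟨v, h1, h2⟩ => ⟨U ⊔ F ∙ v, finrank_sup_span fun h => h1 (Submodule.mem_sup_left h), fun u hu hu' => ?_⟩
  simp only [Submodule.mem_sup, Submodule.mem_span_singleton, exists_exists_eq_and] at hu hu'
  obtain ⟨a, ha, t, rfl⟩ := hu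
  obtain ⟨b, hb, s, e⟩ := hu'
  have m : t • x v - s • v ∈ U ⊔ U.map x := by
    convert sub_mem (Submodule.mem_sup_left hb) (Submodule.mem_sup_right (Submodule.mem_map_of_mem (f := x) ha)) using 1
    rw [map_add, map_smul] at e
    rw [eq_sub_of_add_eq e]; abel
  obtain rfl : t = 0 := by_contra fun h3 => h2 (t⁻¹ * s) (by
    simpa [smul_sub, smul_smul, h3] using Submodule.smul_mem _ t⁻¹ m)
  obtain rfl : s = 0 := by_contra fun h3 => h1 ((Submodule.smul_mem_iff _ h3).1 (by simpa using m))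
  simpa using hU a ha (by simpa using (by simpa using e : b = x a) ▸ hb)

theorem free_of_nd {x : End F V} (hx : ND x) {d : ℕ} (h : 2 * d ≤ finrank F V) : Free x d := by
  induction d with
  | zero => exact ⟨⊥, by simp, by simp⟩
  | succ d ih =>
    obtain ⟨U, rfl, hU⟩ := ih (by omega)
    refine (free_step hU (by omega)).resolve_right fun ⟨c, hc⟩ => ?_
    have h1 := hx.finrank_ker_le c
    have h2 := (aeval x (X - C c)).finrank_range_add_finrank_ker
    have h3 := Submodule.finrank_mono (show LinearMap.range (aeval x (X - C c)) ≤ U ⊔ U.map x by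
      rintro _ ⟨v, rfl⟩; simpa using hc v)
    have := Submodule.finrank_add_le_finrank_add_finrank U (U.map x)
    have := Submodule.finrank_map_le x U
    omega

/-- not locally quadratic -/
def NQ (x : End F V) : Prop := ∃ u, u ≠ 0 ∧ (∀ s : F, x u ≠ s • u) ∧ ∀ s t : F, x (x u) ≠ s • u + t • x u

theorem free_line {x : End F V} {u : V} (h : ∀ s : F, x u ≠ s • u) : ∀ v ∈ F ∙ u, x v ∈ F ∙ u → v = 0 := by
  simp only [Submodule.mem_span_singleton]
  rintro _ ⟨a, rfl⟩ ⟨b, e⟩
  by_contra h1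
  have : a ≠ 0 := by rintro rfl; simp at h1
  exact h (a⁻¹ * b) (by rw [mul_smul, e, map_smul, inv_smul_smul₀ this])

theorem NQ.free {x : End F V} (hx : NQ x) (h : 4 ≤ finrank F V) : Free x 2 := by
  obtain ⟨u, h0, h1, h2⟩ := hx
  have := free_step (free_line h1) (by rw [finrank_span_singleton h0]; omega)
  rw [finrank_span_singleton h0] at this
  refine this.resolve_right fun ⟨c, hc⟩ => ?_
  have := hc (x u)
  simp only [Submodule.map_span, Set.image_singleton, Submodule.mem_sup, Submodule.mem_span_singleton,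
    exists_exists_eq_and] at this
  obtain ⟨s, t, e⟩ := this
  exact h2 s (t + c) (by rw [add_smul, ← add_assoc, e]; simp)

theorem Free.emb {x : End F V} (h : Free x (finrank F W)) :
    ∃ i : W →ₗ[F] V, Function.Injective (i.coprod (x ∘ₗ i)) := by
  obtain ⟨U, h1, h2⟩ := h
  let e := LinearEquiv.ofFinrankEq W U h1.symm
  refine ⟨U.subtype ∘ₗ e.toLinearMap, (injective_iff_map_eq_zero _).2 fun p hp => ?_⟩
  have h3 : (e p.1 : V) + x (e p.2) = 0 := hp
  have h4 : e p.2 = 0 := Subtype.ext (h2 _ (e p.2).2 (by rw [eq_neg_of_add_eq_zero_right h3]; exact neg_mem (e p.1).2))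
  rw [h4] at h3
  exact Prod.ext (e.map_eq_zero_iff.1 (Subtype.ext (by simpa using h3))) (e.map_eq_zero_iff.1 h4)

theorem fr_of_conj {x g : End F V} {i a b : W →ₗ[F] V} (h : LinearMap.det g = 1)
    (e : g ∘ₗ i.coprod (x ∘ₗ i) = a.coprod b) : ∃ A, Cj x A ∧ A ∘ₗ a = b := by
  obtain ⟨g', h1, h2⟩ := exists_inv (A := g) (by simp [h])
  refine ⟨_, cj_conj x h h2, LinearMap.ext fun w => ?_⟩
  have e1 : g (i w) = a w := by simpa using LinearMap.congr_fun e (w, 0)
  have e2 : g (x (i w)) = b w := by simpa using LinearMap.congr_fun e (0, w)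
  simp [← e1, ← e2, ← Module.End.mul_apply g' g, h2]

theorem Free.fr {x : End F V} (h : Free x (finrank F W)) (hd : 2 * finrank F W < finrank F V) : Fr x W := fun a b hab => by
  obtain ⟨i, hi⟩ := h.emb
  obtain ⟨g, h1, h2⟩ := exists_ext_one hi hab (by simp; omega)
  exact fr_of_conj h1 h2

theorem Free.fr_full {x : End F V} (h : Free x (finrank F W)) (hx : DetFull x) : Fr x W := fun a b hab => by
  obtain ⟨i, hi⟩ := h.emb
  obtain ⟨g, h1, h2⟩ := exists_ext hi hab
  obtain ⟨c, h3, h4⟩ := hx _ h1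
  obtain ⟨c', h5, h6⟩ := exists_inv (h4 ▸ h1)
  refine fr_of_conj (i := c ∘ₗ i) (g := g * c') (by rw [map_mul, ← h4, ← map_mul, h5, map_one]) ?_
  rw [← h2]
  have : ∀ v, x (c v) = c (x v) := fun v => (LinearMap.congr_fun h3 v).symm
  ext w <;> simp [this, ← Module.End.mul_apply c' c, h6]

theorem Free.fr_half [Nontrivial W] {x : End F V} (h : Free x (finrank F W)) (hd : 2 * finrank F W = finrank F V)
    (hq : ∀ s t : F, Function.Injective (aeval x (quad s t))) : Fr x W := fun a b hab => by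
  obtain ⟨i, hi⟩ := h.emb
  obtain ⟨g, h1, h2⟩ := exists_ext hi hab
  have hs : Function.Surjective (i.coprod (x ∘ₗ i)) :=
    (LinearMap.injective_iff_surjective_of_finrank_eq_finrank (by simp; omega)).1 hi
  let e := LinearEquiv.ofBijective (i.coprod (x ∘ₗ i)) ⟨hi, hs⟩
  obtain ⟨w₀, h0⟩ := exists_ne (0 : W)
  obtain ⟨lam, hl⟩ := not_forall.1 (mt (Module.forall_dual_apply_eq_zero_iff F w₀).1 h0)
  let α : V →ₗ[F] F := lam ∘ₗ LinearMap.fst F W W ∘ₗ e.symm.toLinearMap
  let β : V →ₗ[F] F := lam ∘ₗ LinearMap.snd F W W ∘ₗ e.symm.toLinearMap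
  have e1 : ∀ w, e.symm (i w) = (w, 0) := fun w => e.symm_apply_eq.2 (show _ = i w + x (i 0) by simp)
  have e2 : ∀ w, e.symm (x (i w)) = (0, w) := fun w => e.symm_apply_eq.2 (show _ = i 0 + x (i w) by simp)
  have a1 : ∀ w, α (i w) = lam w := fun w => by simp [α, e1]
  have a2 : ∀ w, α (x (i w)) = 0 := fun w => by simp [α, e2]
  have b1 : ∀ w, β (i w) = 0 := fun w => by simp [β, e1]
  have b2 : ∀ w, β (x (i w)) = lam w := fun w => by simp [β, e2]
  have sp : ∀ ω : V →ₗ[F] F, (∀ v, α v = 0 → β v = 0 → ω v = 0) → ∃ s t : F, ∀ v, ω v = s * α v + t * β v := fun ω h =>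
    ⟨ω (i w₀) / lam w₀, ω (x (i w₀)) / lam w₀, fun v => by
      have := h (v - (α v / lam w₀) • i w₀ - (β v / lam w₀) • x (i w₀)) (by simp [a1, a2, hl]) (by simp [b1, b2, hl])
      simp only [map_sub, map_smul, smul_eq_mul] at this
      linear_combination this⟩
  obtain ⟨y, y1, y2⟩ : ∃ y, α y = 0 ∧ 1 + β (x y) - α (x y) * β y = LinearMap.det g := by
    by_cases k1 : ∃ v, α v = 0 ∧ β v = 0 ∧ β (x v) ≠ 0 ∨ α v = 0 ∧ β v = 0 ∧ β (x v) = 0 ∧ α (x v) ≠ 0
    · obtain ⟨v, ⟨k1, k2, k3⟩ | ⟨k1, k2, k3, k4⟩⟩ := k1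
      · exact ⟨((LinearMap.det g - 1) / β (x v)) • v, by simp [k1], by simp [k2, k3]⟩
      · let z := x (i w₀)
        refine ⟨z + ((1 + β (x z) - α (x z) * lam w₀ - LinearMap.det g) / (α (x v) * lam w₀)) • v, by simp [z, a2, k1], ?_⟩
        simp only [z, map_add, map_smul, smul_eq_mul, k2, k3, b2]
        field_simp
        ring
    push Not at k1
    obtain ⟨s, t, h1⟩ := sp (α ∘ₗ x) fun v h1 h2 => (k1 v).2 h1 h2 ((k1 v).1 h1 h2)
    obtain ⟨s', t', h2⟩ := sp (β ∘ₗ x) fun v h1 h2 => (k1 v).1 h1 h2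
    obtain ⟨v, hv⟩ := LinearMap.injective_iff_surjective.1 (hq (s + t') (s * t' - t * s')) (i w₀)
    refine (hl ?_).elim
    simp only [LinearMap.comp_apply] at h1 h2
    rw [← a1, ← hv]
    simp [quad, sq, h1, h2]
    ring
  obtain ⟨k', h5, h6⟩ := exists_inv (A := (1 + α.smulRight y) * (1 + β.smulRight (x y - α (x y) • y))) (by
    simpa [det_rank_one, y1, ← add_sub_assoc, y2] using h1)
  refine fr_of_conj (i := i + lam.smulRight y) (g := g * k') (by
    have := congrArg LinearMap.det h5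
    simp only [map_mul, det_rank_one, y1, map_sub, map_smul, smul_eq_mul, ← add_sub_assoc, y2, add_zero, one_mul, map_one] at this
    rw [map_mul, this]) ?_
  have : ∀ v, k' (((1 + α.smulRight y) * (1 + β.smulRight (x y - α (x y) • y))) v) = v := LinearMap.congr_fun h6
  rw [← h2]
  ext w
  · simpa [a1, b1] using congrArg g (this (i w))
  · simpa [a2, b2, y1, smul_sub, smul_smul, add_assoc] using congrArg g (this (x (i w)))

theorem exists_compl₂ {A B : Submodule F V} {d : ℕ} (h1 : finrank F A + d ≤ finrank F V) (h2 : finrank F B + d ≤ finrank F V) :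
    ∃ U : Submodule F V, finrank F U = d ∧ Disjoint U A ∧ Disjoint U B := by
  induction d with
  | zero => exact ⟨⊥, by simp⟩
  | succ d ih =>
    obtain ⟨U, rfl, k1, k2⟩ := ih (by omega) (by omega)
    obtain ⟨ψ, p1, p2⟩ := exists_fun_kill (S := U ⊔ A) (by have := Submodule.finrank_add_le_finrank_add_finrank U A; omega)
    obtain ⟨ω, q1, q2⟩ := exists_fun_kill (S := U ⊔ B) (by have := Submodule.finrank_add_le_finrank_add_finrank U B; omega)
    obtain ⟨v, v1, v2⟩ := exists_lin₂ p1 q1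
    have key : ∀ (A : Submodule F V) (ψ : V →ₗ[F] F), Disjoint U A → (∀ s ∈ U ⊔ A, ψ s = 0) → ψ v ≠ 0 →
        Disjoint (U ⊔ F ∙ v) A := fun A ψ k p h => Submodule.disjoint_def.2 fun z hz hz' => by
      simp only [Submodule.mem_sup, Submodule.mem_span_singleton, exists_exists_eq_and] at hz
      obtain ⟨u, hu, t, rfl⟩ := hz
      obtain rfl : t = 0 := by simpa [p u (Submodule.mem_sup_left hu), h] using p _ (Submodule.mem_sup_right hz')
      simpa using Submodule.disjoint_def.1 k u hu (by simpa using hz')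
    exact ⟨U ⊔ F ∙ v, finrank_sup_span fun h => v1 (p2 v (Submodule.mem_sup_left h)), key A ψ k1 p2 v1, key B ω k2 q2 v2⟩

omit [FiniteDimensional F V] [FiniteDimensional F W] in
theorem inj_coprod {a b : W →ₗ[F] V} (ha : Function.Injective a) (hb : Function.Injective b)
    (h : Disjoint (LinearMap.range a) (LinearMap.range b)) : Function.Injective (a.coprod b) := by
  rw [← LinearMap.ker_eq_bot] at *
  rw [LinearMap.ker_coprod_of_disjoint_range _ _ h, ha, hb, Submodule.prod_bot]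

theorem cj_closed (x : End F V) : ∀ A B, Cj x A → Cj A B → Cj x B := fun _ _ => Cj.trans

theorem step_two [Nontrivial W] {P : End F W} {R : Q →ₗ[F] W} {y : End F Q} {x : End F (W × Q)} (e : x = blk P R 0 y)
    (hx : LinearMap.det x ≠ 0) (hfr : Fr x W) {k : ℕ}
    (h : finrank F W < finrank F Q ∧ Cov (Cj y) (LinearMap.det y) ∅ k ∨ finrank F W ≤ finrank F Q ∧ CovA (Cj y) (LinearMap.det y) ∅ k) :
    CovA (Cj x) (LinearMap.det x) ∅ (k + 2) := fun M hM => by
  have M0 : LinearMap.det M ≠ 0 := hM ▸ pow_ne_zero _ hx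
  have P0 : LinearMap.det (P ^ k) ≠ 0 := by
    rw [e, det_blk_upper] at hx
    simpa using fun h => (left_ne_zero_of_mul hx h).elim
  have hd : finrank F W ≤ finrank F Q := h.elim (·.1.le) (·.1)
  obtain ⟨U, u1, u2, u3⟩ := exists_compl₂ (A := LinearMap.range (LinearMap.inl F W Q)) (d := finrank F W)
    (B := LinearMap.range (M ∘ₗ LinearMap.inl F W Q))
    (by have := LinearMap.finrank_range_le (LinearMap.inl F W Q); simp only [finrank_prod]; omega)
    (by have := LinearMap.finrank_range_le (M ∘ₗ LinearMap.inl F W Q); simp only [finrank_prod]; omega)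
  let σ := U.subtype ∘ₗ (LinearEquiv.ofFinrankEq W U u1.symm).toLinearMap
  have s1 : Function.Injective σ := U.subtype_injective.comp (LinearEquiv.injective _)
  have s2 : ∀ w, σ w ∈ U := fun w => Subtype.property _
  obtain ⟨A₂, a1, a2⟩ := hfr _ σ (inj_coprod LinearMap.inl_injective s1 (u2.symm.mono_right (by rintro _ ⟨w, rfl⟩; exact s2 w)))
  obtain ⟨A, b1, b2⟩ := hfr (σ ∘ₗ P ^ k) (M ∘ₗ LinearMap.inl F W Q) (inj_coprod (s1.comp (injective_of_det P0))
    ((injective_of_det M0).comp LinearMap.inl_injective) (u3.mono_left (by rintro _ ⟨w, rfl⟩; exact s2 _)))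
  have a3 : ∀ w, A₂ (w, 0) = σ w := LinearMap.congr_fun a2
  have b3 : ∀ w, A (A₂ ((P ^ k) w, 0)) = M (w, 0) := fun w => by rw [a3]; exact LinearMap.congr_fun b2 w
  have key : ∀ A R' N, Cj x A → M = A * (A₂ * blk (P ^ k) R' 0 N) →
      (LinearMap.det N = LinearMap.det y ^ k → Prd (Cj y) ∅ k N) → Prd (Cj x) ∅ (k + 2) M := fun A R' N c1 c2 c3 => by
    obtain ⟨d1, d2⟩ := det_factor (A := A * A₂) (j := 2) e hx (by rw [map_mul, c1.det, a1.det, sq]) (by rw [mul_assoc, ← c2, hM])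
    exact c2 ▸ Prd.cons c1 (step_core (cj_closed x) (fun B hB => e ▸ cj_blk_of_cj P R hB) (by simp) d2 (c3 d1) R' a1
      fun w hw => s1 (by simpa using Submodule.disjoint_def.1 u2 _ (s2 w) ⟨_, Prod.ext rfl (a3 w ▸ hw).symm⟩))
  rcases h with ⟨h1, h2⟩ | ⟨-, h2⟩
  · obtain ⟨w₀, h0⟩ := exists_ne (0 : W)
    obtain ⟨A', R', N, c1, c2, c3⟩ := ns_core (by simp; omega) hx M0 (a1.det ▸ hx) b1 b3 (w₀ := w₀) fun w hw =>
      h0 (injective_of_det P0 (s1 (by simpa using Submodule.disjoint_def.1 u3 _ (s2 _) ⟨w, (a3 _ ▸ hw).symm⟩)))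
    exact key A' R' N c1 c3 fun d => h2 N d c2
  · obtain ⟨R', N, c⟩ := exists_blk_factor (A := A * A₂) (by simp [a1.det, b1.det, hx]) b3
    exact key A R' N b1 (c.trans (mul_assoc _ _ _)) (h2 N)

theorem pre_one (hd : 1 ≤ finrank F Q) {M : End F (F × Q)} (h : NSc M) : ∃ M', Cj M' M ∧ (M' (1, 0)).2 ≠ 0 := by
  obtain ⟨u, h1, h2⟩ := exists_not_eigen h
  obtain ⟨g, h3, h4⟩ := exists_single_one (F := F) (by simp; omega) h1 (show ((1, 0) : F × Q) ≠ 0 by simp)
  obtain ⟨g', h5, h6⟩ := exists_inv (A := g) (by simp [h3])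
  refine ⟨_, (cj_conj M h3 h6).symm, fun k => h2 ((g * M * g') (1, 0)).1 (injective_of_det (M := g) (by simp [h3]) ?_)⟩
  rw [map_smul, h4, show g (M u) = (g * M * g') (1, 0) by simp [← h4, ← Module.End.mul_apply g' g, h6]]
  exact Prod.ext (by simp) (by simpa using k)

theorem one_core {l : F} {R : Q →ₗ[F] F} {y : End F Q} {x : End F (F × Q)} (e : x = blk (sc l) R 0 y)
    (hx : LinearMap.det x ≠ 0) {μ : Set F} (hμ : ∀ a ∈ μ, a = l) {k : ℕ} {A : End F (F × Q)} {R' : Q →ₗ[F] F} {N : End F Q}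
    (hA : Cj x A) (hM : LinearMap.det (A * blk (sc l ^ k) R' 0 N) = LinearMap.det x ^ (k + 1))
    (h0 : ((A * blk (sc l ^ k) R' 0 N) (1, 0)).2 ≠ 0) (h : LinearMap.det N = LinearMap.det y ^ k → Prd (Sim y) μ k N) :
    Prd (Cj x) μ (k + 1) (A * blk (sc l ^ k) R' 0 N) := by
  obtain ⟨d1, d2⟩ := det_factor (j := 1) e hx (by rw [hA.det, pow_one]) hM
  refine step_core (cj_closed x) (fun B hB => e ▸ cj_blk_of_sim (detFull_sc l) R hB) (fun a ha => by rw [hμ a ha]) d2 (h d1) R' hA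
    fun w hw => by_contra fun k => h0 ?_
  have : ∀ a : F, (A (a, 0)).2 = a • (A (1, 0)).2 := fun a => by rw [← Prod.smul_snd, ← map_smul]; simp
  rw [this, smul_eq_zero, or_iff_right k] at hw
  simp [this ((sc l ^ _) 1), hw]

theorem pre_one' {l : F} {R : Q →ₗ[F] F} {y : End F Q} {x : End F (F × Q)} (e : x = blk (sc l) R 0 y)
    (hx : LinearMap.det x ≠ 0) {M : End F (F × Q)} (h0 : (M (1, 0)).2 ≠ 0) (k : ℕ) :
    l ≠ 0 ∧ (∀ s : F, (l ^ k)⁻¹ • M (1, 0) ≠ s • (1, 0)) ∧
      ∀ A : End F (F × Q), A (1, 0) = (l ^ k)⁻¹ • M (1, 0) → ∀ w, A ((sc l ^ k) w, 0) = M (w, 0) := by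
  have l0 : l ≠ 0 := by
    rw [e, det_blk_upper, det_sc] at hx
    exact left_ne_zero_of_mul hx
  refine ⟨l0, fun s hs => h0 (by simpa [l0] using congrArg Prod.snd hs), fun A hA w => ?_⟩
  have : ∀ (A : End F (F × Q)) (a : F), A (a, 0) = a • A (1, 0) := fun A a => by rw [← map_smul]; simp
  rw [this A, this M, hA]
  simp [_root_.smul_pow, smul_smul, l0, mul_comm _ w]

theorem step_one {l : F} {R : Q →ₗ[F] F} {y : End F Q} {x : End F (F × Q)} (e : x = blk (sc l) R 0 y)
    (hx : LinearMap.det x ≠ 0) (hfr : Fr x F) {μ : Set F} (hμ : ∀ a ∈ μ, a = l) {k : ℕ}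
    (h : 2 ≤ finrank F Q ∧ Cov (V := Q) (Sim y) (LinearMap.det y) μ k ∨ 1 ≤ finrank F Q ∧ CovA (V := Q) (Sim y) (LinearMap.det y) μ k) :
    Cov (Cj x) (LinearMap.det x) μ (k + 1) := fun M₀ hM hM' => by
  obtain ⟨M, c, h0⟩ := pre_one (h.elim (by omega) (·.1)) hM'
  refine Prd.cj ?_ c
  rw [c.det] at hM
  obtain ⟨l0, h1, h2⟩ := pre_one' e hx h0 k
  obtain ⟨A, a1, a2⟩ := hfr _ _ (inj_pair (by simp) h1)
  have a3 := h2 A (by simpa using LinearMap.congr_fun a2 1)
  rcases h with ⟨h3, h4⟩ | ⟨-, h4⟩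
  · obtain ⟨A', R', N, c1, c2, rfl⟩ := ns_core (A₂ := 1) (by simp; omega) hx (hM ▸ pow_ne_zero _ hx) (by simp) a1 a3 (w₀ := 1)
      fun w hw => by
        have : M (w, 0) = w • M (1, 0) := by rw [← map_smul]; simp
        rw [this] at hw
        obtain rfl : w = 0 := by simpa [h0] using (congrArg Prod.snd hw).symm
        simp [_root_.smul_pow, l0] at hw
    rw [one_mul] at *
    exact one_core e hx hμ c1 hM h0 fun d => h4 N d c2
  · obtain ⟨R', N, rfl⟩ := exists_blk_factor (a1.det ▸ hx) a3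
    exact one_core e hx hμ a1 hM h0 (h4 N)

theorem NSc.free {x : End F V} (h : NSc x) : Free x (finrank F F) := by
  obtain ⟨u, h1, h2⟩ := exists_not_eigen h
  exact ⟨_, by simp [finrank_span_singleton h1], free_line h2⟩

end Cfsg.Agent.CovN
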