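import Cfsg.Agent.CovN.Hess

/-!
Three regular classes cover.
-/

set_option autoImplicit false
set_option linter.unusedSectionVars false

open Polynomial Module

namespace Cfsg.Agent.CovN

open Cfsg.Agent.GLn Cfsg.Agent.Fac

variable {F : Type*} [Field F] {V W : Type*} [AddCommGroup V] [Module F V] [AddCommGroup W] [Module F W]

theorem chain_split (n : ℕ) (K : ℕ → Prop) (r : ℕ → F) :
    Chain n K (∏ i ∈ Finset.range n, (X - C (r i))) fun l => ∏ i ∈ Finset.Ico (l + 1) n, (X - C (r i)) where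
  monic _ _ _ := monic_prod_of_monic _ _ fun _ _ => monic_X_sub_C _
  deg l hl _ := by
    rw [natDegree_prod_of_monic _ _ fun _ _ => monic_X_sub_C _]
    simp; omega
  dvd l _ _ := ⟨Finset.prod_dvd_prod_of_subset _ _ _ fun i hi => by simp at hi ⊢; omega,
    fun l' _ _ => Finset.prod_dvd_prod_of_subset _ _ _ fun i hi => by simp at hi ⊢; omega⟩

theorem NSc.exists_fun {P : End F V} (h : NSc P) : ∃ φ : V →ₗ[F] F, ∃ v, φ v = 0 ∧ φ (P v) ≠ 0 := by
  obtain ⟨v, h1, h2⟩ := exists_not_eigen h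
  obtain ⟨φ, h3, h4⟩ := exists_fun₂ h1 h2 0 1
  exact ⟨φ, v, h3, by simp [h4]⟩

theorem prod_mem {L : List (End F V)} {S : Submodule F V} (h : ∀ A ∈ L, ∀ s ∈ S, A s ∈ S) : ∀ s ∈ S, L.prod s ∈ S := by
  induction L with
  | nil => simp
  | cons A L ih => exact fun s hs => h A List.mem_cons_self _ (ih (fun B hB => h B (List.mem_cons_of_mem _ hB)) s hs)

theorem nc_of_wit {L L₁ L₂ : List (End F V)} (h1 : L₁ ⊆ L) (h2 : L₂ ⊆ L) {b : F} (hw : Wit L₂.prod L₁.prod b)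
    (hc : ∀ (c : F) s, s ≠ 0 → (∀ A ∈ L₁, A s = c • s) → L₁.prod s ≠ b • s) : NC ∅ L := fun S k1 k2 _ => by
  by_contra h
  obtain ⟨s, hs, s0, e⟩ := hw.1 S (prod_mem fun A hA => k1 A (h2 hA)) (prod_mem fun A hA => k1 A (h1 hA)) h
  rcases L₁ with _ | ⟨A, L₁⟩
  · exact hc 0 s s0 (by simp) e
  have hA := h1 List.mem_cons_self
  have key : ∀ L' : List (End F V), L' ⊆ L → ∀ t ∈ S, L'.prod (A t) = A (L'.prod t) := fun L' hL t ht => by
    induction L' with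
    | nil => rfl
    | cons B L' ih =>
      have hB := hL List.mem_cons_self
      have hL' : L' ⊆ L := fun _ h => hL (List.mem_cons_of_mem _ h)
      have m := prod_mem (fun A hA => k1 A (hL' hA)) t ht
      rw [List.prod_cons, Module.End.mul_apply, Module.End.mul_apply, ih hL', k2 B hB A hA _ m, k2 B hB A hA _ (k1 A hA _ m)]
  obtain ⟨c, hc'⟩ := hw.2 s (A s) s0 e (by rw [key _ h1 s hs, e, map_smul])
  exact hc c s s0 (fun B hB => (k2 B (h1 hB) A hA s hs).trans hc') e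

theorem exists_roots (h : Big F 4) {b D : F} (hb : b ≠ 0) (hD : D ≠ 0) {n : ℕ} (hn : 3 ≤ n) :
    ∃ r : ℕ → F, r 0 = b ∧ (∀ i, r (i + 1) ≠ b) ∧ ∏ i ∈ Finset.range n, r i = D := by
  obtain ⟨k, rfl⟩ := Nat.exists_eq_add_of_le' hn
  obtain ⟨β, h1, h2⟩ := (h.mono (by norm_num)).exists_ne₂ 0 b
  obtain ⟨c, h3, h4, h5⟩ := h.exists_ne₃ 0 b (D / (b * b * β ^ k))
  refine ⟨fun i => match i with | 0 => b | 1 => c | 2 => D / (b * c * β ^ k) | _ + 3 => β, rfl, fun i => ?_, ?_⟩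
  · rcases i with _ | _ | i
    exacts [h4, fun e => h5 (by simp only at e; field_simp at e ⊢; linear_combination -e), h2]
  · simp only [Finset.prod_range_succ', Finset.prod_const, Finset.card_range]
    field_simp

variable [FiniteDimensional F V] [FiniteDimensional F W]

theorem Reg.exists_charpoly {Y : End F V} (h : Reg Y) {f : F[X]} (hf : f.Monic) (hd : f.natDegree = finrank F V) :
    ∃ N : End F V, Reg N ∧ N.charpoly = f := by
  obtain ⟨θ, h⟩ := h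
  obtain ⟨r, hr⟩ := h.pole hf hd
  exact ⟨_, ⟨θ, h.add r⟩, hr⟩

theorem det_of_split {N : End F V} {r : ℕ → F} (h : N.charpoly = ∏ i ∈ Finset.range (finrank F V), (X - C (r i))) :
    LinearMap.det N = ∏ i ∈ Finset.range (finrank F V), r i := by
  rw [LinearMap.det_eq_sign_charpoly_coeff, h, coeff_zero_eq_eval_zero, eval_prod]
  simp [Finset.prod_neg, ← mul_assoc, ← mul_pow]

/-- `t1` with the regular factor on the other side -/
theorem t1' {φ : ℕ → V →ₗ[F] F} {P Y N₀ : End F V} {K : ℕ → Prop} (hs : Sep φ) (hP : Hess φ P K) (h0 : K 0)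
    (hY : Reg Y) (hN : Reg N₀) {b : F} {g : ℕ → F[X]} (hg : Chain (finrank F V) (fun j => ¬ K j ∧ j + 1 < finrank F V) N₀.charpoly g)
    (hχ : N₀.charpoly = g 0 * (X - C b)) (hb : (g 0).eval b ≠ 0) (hd0 : LinearMap.det P ≠ 0)
    (hd : LinearMap.det P = LinearMap.det N₀ * LinearMap.det Y) :
    ∃ N Z, Sim N₀ N ∧ Sim Y Z ∧ P = N * Z ∧ Wit P N b := by
  have y0 := right_ne_zero_of_mul (hd ▸ hd0)
  obtain ⟨Y', h1, h2⟩ := exists_inv y0
  obtain ⟨Z, ⟨e, rfl⟩, h3, h4⟩ := t1 hs hP h0 (hY.inv h1) hN hg hχ hb (left_ne_zero_of_mul (hd ▸ hd0)) (by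
    rw [hd, mul_assoc, ← map_mul, h1, map_one, mul_one])
  exact ⟨_, e.conjAlgEquiv F Y, h3, ⟨e, rfl⟩, by rw [mul_assoc, ← map_mul, h2, map_one, mul_one], h4⟩

theorem split_spec {n : ℕ} (hn : 0 < n) {r : ℕ → F} (h : ∀ i, r (i + 1) ≠ r 0) :
    ∏ i ∈ Finset.range n, (X - C (r i)) = (∏ i ∈ Finset.Ico (0 + 1) n, (X - C (r i))) * (X - C (r 0)) ∧
      (∏ i ∈ Finset.Ico (0 + 1) n, (X - C (r i))).eval (r 0) ≠ 0 := by
  refine ⟨by rw [Finset.range_eq_Ico, Finset.prod_eq_prod_Ico_succ_bot hn, mul_comm], ?_⟩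
  rw [eval_prod]
  refine Finset.prod_ne_zero_iff.2 fun i hi => ?_
  obtain ⟨i, rfl⟩ := Nat.exists_eq_add_of_le' (Finset.mem_Ico.1 hi).1
  simpa [sub_eq_zero] using (h i).symm

theorem NSc.pos {P : End F V} (h : NSc P) : 0 < finrank F V := by
  obtain ⟨v, h1, -⟩ := exists_not_eigen h
  exact finrank_pos_iff_exists_ne_zero.2 ⟨v, h1⟩

theorem t1s {P Y N₀ : End F V} (hP : NSc P) (hY : Reg Y) (hN : Reg N₀) {r : ℕ → F} (hr : ∀ i, r (i + 1) ≠ r 0)
    (hχ : N₀.charpoly = ∏ i ∈ Finset.range (finrank F V), (X - C (r i))) (hd0 : LinearMap.det N₀ ≠ 0)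
    (hd : LinearMap.det N₀ = LinearMap.det P * LinearMap.det Y) :
    ∃ Z, Sim Y Z ∧ Sim N₀ (P * Z) ∧ Wit P (P * Z) (r 0) := by
  obtain ⟨φ₀, h⟩ := hP.exists_fun
  obtain ⟨φ, K, -, h0, h1, h2⟩ := exists_hess P h
  exact t1 h1 h2 h0 hY hN (g := fun l => ∏ i ∈ Finset.Ico (l + 1) (finrank F V), (X - C (r i)))
    (by rw [hχ]; exact chain_split _ _ r) (hχ.trans (split_spec hP.pos hr).1) (split_spec hP.pos hr).2 hd0 hd

theorem t1s' {P Y N₀ : End F V} (hP : NSc P) (hY : Reg Y) (hN : Reg N₀) {r : ℕ → F} (hr : ∀ i, r (i + 1) ≠ r 0)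
    (hχ : N₀.charpoly = ∏ i ∈ Finset.range (finrank F V), (X - C (r i))) (hd0 : LinearMap.det P ≠ 0)
    (hd : LinearMap.det P = LinearMap.det N₀ * LinearMap.det Y) :
    ∃ N Z, Sim N₀ N ∧ Sim Y Z ∧ P = N * Z ∧ Wit P N (r 0) := by
  obtain ⟨φ₀, h⟩ := hP.exists_fun
  obtain ⟨φ, K, -, h0, h1, h2⟩ := exists_hess P h
  exact t1' h1 h2 h0 hY hN (g := fun l => ∏ i ∈ Finset.Ico (l + 1) (finrank F V), (X - C (r i)))
    (by rw [hχ]; exact chain_split _ _ r) (hχ.trans (split_spec hP.pos hr).1) (split_spec hP.pos hr).2 hd0 hd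

theorem Reg.nsc {x : End F V} (h : Reg x) (hd : 2 ≤ finrank F V) : NSc x :=
  h.exists_kr.elim fun _ h => h.cyc.not_scalar hd

theorem root_of_sim {x : End F V} {A : End F W} (h : Sim x A) {c : F} {s : W} (h0 : s ≠ 0) (hs : A s = c • s) :
    x.charpoly.eval c = 0 := h.charpoly ▸ isRoot_of_eigen h0 hs

theorem three_reg (hF : Big F 4) (hd : 3 ≤ finrank F V) {x : End F V} (hx : Reg x) (h0 : LinearMap.det x ≠ 0) {b : F}
    (hb : b ≠ 0) {μ : Set F} (hμ : μ = Set.univ ∨ ∀ c, x.charpoly.eval c = 0 → c * c ≠ b) :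
    Cov (V := V) (Sim x) (LinearMap.det x) μ 3 := fun M hM hM' => by
  obtain ⟨r, rfl, r1, r2⟩ := exists_roots hF hb (pow_ne_zero 2 h0) hd
  obtain ⟨N₀, n1, n2⟩ := hx.exists_charpoly (f := ∏ i ∈ Finset.range (finrank F V), (X - C (r i)))
    (monic_prod_of_monic _ _ fun _ _ => monic_X_sub_C _) (by
      rw [natDegree_prod_of_monic _ _ fun _ _ => monic_X_sub_C _]; simp)
  have n3 := (det_of_split n2).trans r2
  obtain ⟨Z, z1, z2, -⟩ := t1s (hx.nsc (by omega)) hx n1 r1 n2 (by simp [n3, h0]) (by rw [n3, sq])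
  obtain ⟨N, Y, k1, k2, rfl, k4⟩ := t1s' hM' hx n1 r1 n2 (by simp [hM, h0]) (by rw [n3, hM, pow_succ])
  obtain ⟨e, rfl⟩ := z2.symm.trans k1
  rw [map_mul] at k4 ⊢
  have s1 : Sim x (e.conjAlgEquiv F x) := ⟨e, rfl⟩
  refine ⟨[e.conjAlgEquiv F x, e.conjAlgEquiv F Z, Y], rfl, by simpa [s1, k2] using z1.trans ⟨e, rfl⟩, by simp [mul_assoc],
    hμ.elim (· ▸ nc_univ (by simp)) fun h => (nc_of_wit (L₁ := [e.conjAlgEquiv F x, e.conjAlgEquiv F Z]) (by simp) (List.Subset.refl _)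
      (by simpa [mul_assoc] using k4) fun c s s0 hs k => ?_).mono (by simp) fun _ h => h⟩
  simp only [List.mem_cons, List.not_mem_nil, or_false, forall_eq_or_imp, forall_eq] at hs
  simp only [List.prod_cons, List.prod_nil, mul_one, Module.End.mul_apply, hs.2, map_smul, hs.1, smul_smul] at k
  exact h c (root_of_sim s1 s0 hs.1) (smul_left_injective F s0 k)

end Cfsg.Agent.CovN
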