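import Cfsg.Agent.CovN.Climb

/-!
Transvections.
-/

set_option autoImplicit false
set_option linter.unusedSectionVars false

open Polynomial Module

universe u

namespace Cfsg.Agent.CovN

open Cfsg.Agent.GLn Cfsg.Agent.Fac

section
variable {F : Type*} [Field F] {V W Q : Type*} [AddCommGroup V] [Module F V] [AddCommGroup W] [Module F W]
  [AddCommGroup Q] [Module F Q] [FiniteDimensional F V] [FiniteDimensional F W] [FiniteDimensional F Q]

def Tv (A : End F V) : Prop := ∃ (θ : V →ₗ[F] F) (u : V), θ ≠ 0 ∧ u ≠ 0 ∧ θ u = 0 ∧ A = 1 + θ.smulRight u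

theorem Tv.map {A : End F V} (h : Tv A) (e : V ≃ₗ[F] W) : Tv (e.conjAlgEquiv F A) := by
  obtain ⟨θ, u, h1, h2, h3, rfl⟩ := h
  exact ⟨θ ∘ₗ e.symm.toLinearMap, e u, fun k => h1 (LinearMap.ext fun v => by simpa using LinearMap.congr_fun k (e v)),
    by simpa using h2, by simpa using h3, by ext v; simp⟩

theorem Tv.cj (A B : End F V) (h : Tv A) (h' : Cj A B) : Tv B := by
  obtain ⟨e, rfl, -⟩ := h'.exists_equiv
  exact h.map e

theorem Tv.cj' (hd : 3 ≤ finrank F V) {x A : End F V} (h : Tv x) (h' : Tv A) : Cj x A := by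
  obtain ⟨θ', u', k1, k2, k3, rfl⟩ := h'
  obtain ⟨θ₀, u, h1, h2, h3, rfl⟩ := h
  obtain ⟨g, g1, g2⟩ := exists_single_one (F := F) (by omega) h2 k2
  obtain ⟨g', g3, g4⟩ := exists_inv (A := g) (by simp [g1])
  refine (cj_conj _ g1 g4).trans ?_
  obtain ⟨θ, h1, h3, e⟩ : ∃ θ : V →ₗ[F] F, θ ≠ 0 ∧ θ u' = 0 ∧ g * (1 + θ₀.smulRight u) * g' = 1 + θ.smulRight u' := by
    have gg : ∀ v, g' (g v) = v := LinearMap.congr_fun g4
    refine ⟨θ₀ ∘ₗ g', fun k => h1 (LinearMap.ext fun v => by simpa [gg] using LinearMap.congr_fun k (g v)),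
      by simp [← g2, gg, h3], ?_⟩
    ext v
    simp [g2, ← Module.End.mul_apply g g', g3]
  rw [e]
  obtain ⟨z, z1, z2⟩ := exists_lin₂ h1 k1
  obtain ⟨y, y1, y2⟩ := exists_notMem (S := F ∙ u' ⊔ F ∙ z) (by
    have := finrank_sup_span_le (F ∙ u') z
    rw [finrank_span_singleton k2] at this; omega) |>.imp fun y h => And.intro h h
  have n : ∀ s : F, y - (θ y / θ z) • z ≠ s • u' := fun s k => y1 (by
    rw [eq_add_of_sub_eq k]
    exact add_mem (Submodule.mem_sup_left (Submodule.smul_mem _ _ (Submodule.mem_span_singleton_self _)))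
      (Submodule.mem_sup_right (Submodule.smul_mem _ _ (Submodule.mem_span_singleton_self _))))
  obtain ⟨ω, w1, w2⟩ := exists_fun₂ k2 n 0 1
  refine cj_of_sim (detFull_of_eigen (u := y - (θ y / θ z) • z) (φ := ω) (a := 1) (by simp [z1]) (by simp [w1]) (by simp [w2]))
    (sim_of_det (g := 1 + (θ - θ').smulRight ((θ' z)⁻¹ • z)) (by simp [det_rank_one, mul_sub, z1, z2]) ?_)
  ext v
  simp [h3, k3, z2, sub_smul]
  module

theorem exists_list_sum (hF : Big F 3) (k : ℕ) : ∀ s : F, ∃ L : List F, L.length = k + 2 ∧ (∀ c ∈ L, c ≠ 0) ∧ L.sum = s := by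
  induction k with
  | zero => exact fun s => (hF.exists_ne₂ 0 s).elim fun t h => ⟨[t, s - t], rfl, by simp [h.1, sub_ne_zero.2 h.2.symm], by simp⟩
  | succ k ih => exact fun s => (ih (s - 1)).elim fun L h => ⟨1 :: L, by simp [h.1], by simpa using h.2.1, by simp [h.2.2]⟩

theorem tv_sum (hF : Big F 3) {θ : V →ₗ[F] F} {u : V} (h1 : θ ≠ 0) (h2 : u ≠ 0) (h3 : θ u = 0) {k : ℕ} (hk : 2 ≤ k) (s : F) :
    Prd Tv Set.univ k (1 + θ.smulRight (s • u)) := by
  obtain ⟨k, rfl⟩ := Nat.exists_eq_add_of_le' hk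
  obtain ⟨L, l1, l2, rfl⟩ := exists_list_sum hF k s
  refine ⟨L.map fun c => 1 + θ.smulRight (c • u), by simp [l1], ?_, ?_, nc_univ (by rintro h; simp [List.map_eq_nil_iff.1 h] at l1)⟩
  · simp only [List.mem_map, forall_exists_index, and_imp, forall_apply_eq_imp_iff₂]
    exact fun c hc => ⟨θ, _, h1, smul_ne_zero (l2 c hc) h2, by simp [h3], rfl⟩
  · clear l1 l2
    induction L with
    | nil => ext; simp
    | cons a L ih => rw [List.map_cons, List.prod_cons, ih]; ext; simp [h3]; module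

theorem Prd.smul {x M : End F V} {k : ℕ} (h : Prd (Cj x) Set.univ k M) (hk : k ≠ 0) (c : F) :
    Prd (Cj (c • x)) Set.univ k (c ^ k • M) := by
  obtain ⟨L, rfl, h2, rfl, -⟩ := h
  refine ⟨L.map (c • ·), by simp, by simpa using fun A hA => (h2 A hA).smul c, ?_, nc_univ (by simpa using hk)⟩
  clear h2 hk
  induction L with
  | nil => simp
  | cons a L ih => simp [ih, smul_smul, pow_succ]

end

variable {F : Type u} [Field F]

theorem tv_prd (hF : Big F 4) (k : ℕ) : ∀ (V : Type u) [AddCommGroup V] [Module F V] [FiniteDimensional F V] (M : End F V),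
    finrank F V = k + 2 → LinearMap.det M = 1 → NSc M → finrank F (LinearMap.ker (M - 1)) + 2 ≤ finrank F V →
    Prd Tv {1} (k + 2) M := by
  have key : ∀ (V : Type u) [AddCommGroup V] [Module F V] [FiniteDimensional F V] (M : End F V) (v : V) (φ : V →ₗ[F] F)
      (h1 : φ v = 1) (h0 : φ (M v) ≠ 0), φ (M v) = 1 → M v ≠ v → ∀ j k : ℕ, (∀ A : End F (F × LinearMap.ker φ), Tv A →
      (∀ w, (A (w, 0)).2 = 0 → w = 0) →
      Prd Tv {1} k (A * blk (sc 1 ^ j) (φ ∘ₗ M ∘ₗ (LinearMap.ker φ).subtype) 0 (schur M v φ h0))) → Prd Tv {1} k M := by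
    intro V _ _ _ M v φ h1 h0 e1 e2 j k h
    have := (h _ (Tv.map ⟨φ, M v - v, fun k => by simp [k] at h1, sub_ne_zero.2 e2, by simp [h1, e1], rfl⟩ (ssplit v φ h1))
      fun w hw => by
        simpa [ssplit_apply, ssplit_symm_apply, h1, e1, ← smul_sub, sub_eq_zero, e2] using congrArg Subtype.val hw).map
          (ssplit v φ h1).symm fun A hA => hA.map _
    convert this using 1
    ext x
    obtain ⟨⟨a, w⟩, rfl⟩ := (ssplit v φ h1).symm.surjective x
    simp only [map_mul, Module.End.mul_apply, LinearEquiv.conjAlgEquiv_apply, LinearMap.comp_apply, LinearEquiv.coe_coe,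
      LinearEquiv.symm_symm, LinearEquiv.apply_symm_apply, LinearEquiv.symm_apply_apply]
    simp [ssplit_symm_apply, schur_val, h1, e1]
    module
  induction k with
  | zero =>
    intro V _ _ _ M hd hM hns hN
    obtain ⟨t, ht⟩ := finrank_pos_iff_exists_ne_zero.1 hns.pos
    obtain ⟨ψ, hψ⟩ := not_forall.1 (mt (Module.forall_dual_apply_eq_zero_iff F t).1 ht)
    obtain ⟨v, φ, h1, e1, -, -, e4, e5⟩ := levU_two hF hd hns hN (ψ := ψ) (fun k => hψ (by simp [k])) t ht
    have d : finrank F (LinearMap.ker φ) = 1 := by have := finrank_ker_add_one v φ h1; omega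
    refine key V M v φ h1 (by simp [e1]) e1 e5 1 2 fun A a1 a2 => ?_
    rw [eq_smul_of_sim_sc (sim_sc d (schur M v φ _)), show LinearMap.det (schur M v φ (by simp [e1])) = 1 by
      simpa [hM, e1] using (det_schur M v φ h1 (by simp [e1])).symm]
    generalize φ ∘ₗ M ∘ₗ (LinearMap.ker φ).subtype = R at *
    refine ⟨[A, blk (sc 1 ^ 1) R 0 (1 • 1)], rfl, ?_, by simp, fun S _ _ k => eq_bot_iff.2 fun s hs => ?_⟩
    · simp only [List.mem_cons, List.not_mem_nil, or_false, forall_eq_or_imp, forall_eq]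
      exact ⟨a1, R ∘ₗ LinearMap.snd F _ _, (1, 0), fun k => e4 (LinearMap.ext fun w => LinearMap.congr_fun k (0, w)), by simp, by simp,
        by ext <;> simp⟩
    · have k1 := k 1 rfl A (by simp) s hs
      have k2 := congrArg Prod.fst (k 1 rfl _ (List.mem_cons_of_mem _ List.mem_cons_self) s hs)
      have k3 : s.2 = 0 := by_contra fun h => e4 (LinearMap.ext fun w => by
        obtain ⟨a, rfl⟩ := (finrank_eq_one_iff_of_nonzero' _ h).1 d w
        simpa using Or.inr (by simpa using k2))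
      obtain ⟨a, b⟩ := s
      obtain rfl : b = 0 := k3
      simp [a2 a (by simp [k1])]
  | succ k ih =>
    intro V _ _ _ M hd hM hns hN
    obtain ⟨t, ht⟩ := finrank_pos_iff_exists_ne_zero.1 hns.pos
    obtain ⟨ψ, hψ⟩ := not_forall.1 (mt (Module.forall_dual_apply_eq_zero_iff F t).1 ht)
    obtain ⟨v, φ, h1, h0, e1, -, -, -, e5, e6, e7⟩ := Ore.lev_step hF (by omega) hM hns hN (ψ := ψ) (fun k => hψ (by simp [k])) ht
    have d := finrank_ker_add_one v φ h1
    have m : LinearMap.det (schur M v φ h0) = 1 := by simpa [hM, e1] using (det_schur M v φ h1 h0).symm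
    refine key V M v φ h1 h0 e1 e5 (k + 2) _ fun A a1 a2 => step_core Tv.cj ?_ (by simp) (by simp [m])
      (ih _ _ (by omega) m e6 e7) _ a1 a2
    rintro _ ⟨θ, u, k1, k2, k3, rfl⟩
    exact ⟨0, θ ∘ₗ LinearMap.snd F _ _, (0, u), fun k => k1 (LinearMap.ext fun w => LinearMap.congr_fun k (0, w)), by simp [k2],
      by simp [k3], by ext <;> simp⟩

theorem cov_tv (hF : Big F 4) {V : Type u} [AddCommGroup V] [Module F V] [FiniteDimensional F V] (hd : 3 ≤ finrank F V)
    {x : End F V} (hx : Tv x) {c : F} (hc : c ≠ 0) :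
    Cov (Cj (c • x)) (LinearMap.det (c • x)) Set.univ (finrank F V) ∧
      Prd (Cj (c • x)) Set.univ (finrank F V) (c ^ finrank F V • 1) := by
  have h3 : Big F 3 := hF.mono (by norm_num)
  have key : ∀ M, Prd Tv Set.univ (finrank F V) M → Prd (Cj (c • x)) Set.univ (finrank F V) (c ^ finrank F V • M) :=
    fun M h => (h.mono (fun _ => hx.cj' hd) le_rfl).smul (by omega) c
  obtain ⟨θ, u, h1, h2, h4, e⟩ := hx
  refine ⟨fun M hM hM' => ?_, key _ (by simpa using tv_sum h3 h1 h2 h4 (by omega : 2 ≤ finrank F V) 0)⟩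
  have c0 := pow_ne_zero (finrank F V) hc
  obtain ⟨M, rfl⟩ : ∃ M', M = c ^ finrank F V • M' := ⟨(c ^ finrank F V)⁻¹ • M, by simp [c0]⟩
  have m : LinearMap.det M = 1 := by simpa [e, det_tv h4, c0, -smul_add] using hM
  have n : NSc M := by rintro a rfl; exact hM' _ (smul_smul _ _ _)
  refine key M ?_
  by_cases k : finrank F (LinearMap.ker (M - 1)) + 2 ≤ finrank F V
  · obtain ⟨j, hj⟩ := Nat.exists_eq_add_of_le' (by omega : 2 ≤ finrank F V)
    exact hj ▸ (tv_prd hF j V M hj m n k).mono (fun _ h => h) (Set.subset_univ _)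
  · obtain ⟨θ', u', rfl⟩ := exists_rank_one_form (M := M) (by omega)
    simpa using tv_sum h3 (θ := θ') (u := u') (by rintro rfl; exact n 1 (by simp)) (by rintro rfl; exact n 1 (by simp))
      (by simpa [det_rank_one] using m) (by omega : 2 ≤ finrank F V) 1

end Cfsg.Agent.CovN
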